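import Cfsg.Agent.RK3.Defs

/-! Project RK3 (notes/RK3.md, section Ext). -/

set_option autoImplicit false
set_option linter.unusedSectionVars false

namespace Cfsg.Agent.RK3

open MulAction Module Submodule

variable {F : Type*} [Field F] [Fintype F] {V : Type*} [AddCommGroup V] [Module F V] [Finite V]

namespace ExtA

/-- correction of the determinant by a dilatation -/
theorem fix (g₀ : V ≃ₗ[F] V) {v : V} {φ : V →ₗ[F] F} (hφ : φ v = 1) :
    ∃ (g : Gm F V) (c : F), c ≠ 0 ∧ ∀ x, g • x = g₀ (x + ((c - 1) * φ x) • v) := by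
  have d0 := H27.det_ne_zero' g₀
  generalize hd : LinearMap.det (g₀ : V →ₗ[F] V) = d at d0
  have e : 1 + ((d⁻¹ - 1) • φ) v = d⁻¹ := by rw [LinearMap.smul_apply, hφ, smul_eq_mul]; ring
  have h : 1 + ((d⁻¹ - 1) • φ) v ≠ 0 := by rw [e]; exact inv_ne_zero d0
  refine ⟨⟨g₀ * H27.dil v ((d⁻¹ - 1) • φ) h, H27.mem_SLV.2 ?_⟩, d⁻¹, inv_ne_zero d0, fun x => ?_⟩
  · rw [H27.det_mul', H27.det_dil, e, hd, mul_inv_cancel₀ d0]
  · show g₀ (H27.dil v ((d⁻¹ - 1) • φ) h x) = _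
    rw [H27.dil_apply]; rfl

theorem fixA (g₀ : V ≃ₗ[F] V) {A : Submodule F V} (hA : A ≠ ⊤) : ∃ g : Gm F V, ∀ a ∈ A, g • a = g₀ a := by
  obtain ⟨v, -, hv⟩ := SetLike.exists_of_lt (lt_top_iff_ne_top.2 hA)
  obtain ⟨φ, h0, h1⟩ := SNG.sep hv
  obtain ⟨g, c, -, e⟩ := fix g₀ h1
  exact ⟨g, fun a ha => by rw [e, h0 a ha, mul_zero, zero_smul, add_zero]⟩

theorem aut {ι : Type*} [Fintype ι] {u w : ι → V} (hu : LinearIndependent F u) (hw : LinearIndependent F w) :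
    ∃ g₀ : V ≃ₗ[F] V, ∀ i, g₀ (u i) = w i := by
  obtain ⟨g, hg⟩ := exists_linearEquiv_restrict_eq ((Basis.span hu).equiv (Basis.span hw) (Equiv.refl ι))
  refine ⟨g, fun i => ?_⟩
  have := hg (Basis.span hu i)
  rw [Basis.equiv_apply, Equiv.refl_apply, Basis.span_apply, Basis.span_apply] at this
  exact this.symm

theorem li {a b : V} (ha : a ≠ 0) (hb : b ∉ span F {a}) : LinearIndependent F ![b, a] :=
  linearIndependent_fin2.2 ⟨ha, fun c e => hb (mem_span_singleton.2 ⟨c, e⟩)⟩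

end ExtA

open ExtA

theorem ext1 {A : Submodule F V} (hA : A ≠ ⊤) (f : A →ₗ[F] V) (hf : Function.Injective f) :
    ∃ g : Gm F V, ∀ a : A, g • (a : V) = f a := by
  obtain ⟨g₀, h₀⟩ := exists_linearEquiv_restrict_eq (LinearEquiv.ofInjective f hf)
  obtain ⟨g, hg⟩ := fixA g₀ hA
  exact ⟨g, fun a => by rw [hg a a.2, ← h₀ a]; rfl⟩

theorem ext2 {ι : Type*} [Fintype ι] {u w : ι → V} (hu : LinearIndependent F u)
    (hw : LinearIndependent F w) (h : Fintype.card ι < finrank F V) :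
    ∃ g : Gm F V, ∀ i, g • u i = w i := by
  obtain ⟨g₀, h₀⟩ := aut hu hw
  obtain ⟨g, hg⟩ := fixA g₀ (A := span F (Set.range u)) fun e => by
    have := finrank_span_eq_card hu
    rw [e, finrank_top] at this
    omega
  exact ⟨g, fun i => by rw [hg _ (subset_span ⟨i, rfl⟩), h₀]⟩

theorem ext3 {ι : Type*} [Fintype ι] {u w : ι → V} (hu : LinearIndependent F u)
    (hw : LinearIndependent F w) (i₀ : ι) :
    ∃ (g : Gm F V) (c : F), c ≠ 0 ∧ g • u i₀ = c • w i₀ ∧ ∀ i, i ≠ i₀ → g • u i = w i := by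
  obtain ⟨g₀, h₀⟩ := aut hu hw
  obtain ⟨φ, h0, h1⟩ := SNG.sep (hu.notMem_span_image (s := {i | i ≠ i₀}) (x := i₀) fun e => e rfl)
  obtain ⟨g, c, hc, e⟩ := fix g₀ h1
  refine ⟨g, c, hc, ?_, fun i hi => ?_⟩
  · rw [e, h1, mul_one, sub_smul, one_smul, add_sub_cancel, map_smul, h₀]
  · rw [e, h0 _ (subset_span ⟨i, hi, rfl⟩), mul_zero, zero_smul, add_zero, h₀]

theorem ext_pair (h3 : 3 ≤ finrank F V) {a b a' b' : V} (ha : a ≠ 0) (hb : b ∉ span F {a})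
    (ha' : a' ≠ 0) (hb' : b' ∉ span F {a'}) : ∃ g : Gm F V, g • a = a' ∧ g • b = b' := by
  obtain ⟨g, hg⟩ := ext2 (li ha hb) (li ha' hb') (by rw [Fintype.card_fin]; omega)
  exact ⟨g, hg 1, hg 0⟩

theorem exists_sub {d : ℕ} (h : d ≤ finrank F V) : Nonempty (Sub F V d) := by
  obtain ⟨f, hf⟩ := exists_linearIndependent_of_le_finrank h
  exact ⟨⟨span F (Set.range f), by rw [finrank_span_eq_card hf, Fintype.card_fin]⟩⟩

theorem exists_fl {a b : ℕ} (h : a ≤ b) (h' : b ≤ finrank F V) : Nonempty (Fl F V a b) := by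
  obtain ⟨B, hB⟩ := exists_sub h'
  obtain ⟨A, hA⟩ := exists_sub (F := F) (V := B) (d := a) (hB ▸ h)
  exact ⟨⟨(A.map B.subtype, B), map_subtype_le _ _, by rw [finrank_map_subtype_eq, hA], hB⟩⟩

theorem exists_pt (x : Sub F V 1) : ∃ (a : V) (ha : a ≠ 0), x = pt a ha := by
  obtain ⟨a, ha, ha'⟩ := SNG.exists_notMem (A := ⊥) (B := x.1) (by rw [finrank_bot, x.2]; exact one_pos)
  have a0 : a ≠ 0 := fun e => ha' (e ▸ zero_mem _)
  exact ⟨a, a0, Subtype.ext (eq_of_le_of_finrank_eq ((span_singleton_le_iff_mem _ _).2 ha)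
    (by rw [finrank_span_singleton a0, x.2])).symm⟩

theorem exists_fl2 (z : Fl F V 1 2) :
    ∃ (a b : V) (ha : a ≠ 0) (hb : b ∉ span F {a}), z = fl2 a b ha hb := by
  obtain ⟨a, ha, e⟩ := exists_pt z.lo
  have e' : z.1.1 = span F {a} := congrArg Subtype.val e
  obtain ⟨b, hb, hb'⟩ := SNG.exists_notMem (A := z.1.1) (B := z.1.2) (by rw [z.2.2.1, z.2.2.2]; exact one_lt_two)
  rw [e'] at hb'
  refine ⟨a, b, ha, hb', Subtype.ext (Prod.ext e' (eq_of_le_of_finrank_eq ?_ ?_).symm)⟩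
  · refine span_le.2 ?_
    rintro _ (rfl | rfl)
    · exact z.2.1 (e' ▸ mem_span_singleton_self _)
    · exact hb
  · exact (SNG.rk_l2 ha hb').trans z.2.2.2.symm

theorem sub_trans (d : ℕ) : IsPretransitive (Gm F V) (Sub F V d) := ⟨fun A B => by
  have hr : finrank F A.1 = finrank F B.1 := A.2.trans B.2.symm
  by_cases hA : A.1 = ⊤
  · refine ⟨1, (one_smul _ _).trans (Subtype.ext (hA.trans (eq_top_of_finrank_eq ?_).symm))⟩
    rw [← hr, hA, finrank_top]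
  · let e := LinearEquiv.ofFinrankEq A.1 B.1 hr
    obtain ⟨g, hg⟩ := ext1 hA (B.1.subtype ∘ₗ e.toLinearMap) (B.1.injective_subtype.comp e.injective)
    exact ⟨g, sub_smul_eq.2 (im_eq_of_le (fun v hv => hg ⟨v, hv⟩ ▸ (e ⟨v, hv⟩).2) hr.ge)⟩⟩

theorem fl_trans (a b : ℕ) : IsPretransitive (Gm F V) (Fl F V a b) := ⟨fun x y => by
  have h1 : finrank F x.1.1 = finrank F y.1.1 := x.2.2.1.trans y.2.2.1.symm
  have h2 : finrank F x.1.2 = finrank F y.1.2 := x.2.2.2.trans y.2.2.2.symm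
  by_cases hB : x.1.2 = ⊤
  · obtain ⟨g, hg⟩ := (sub_trans (F := F) (V := V) a).exists_smul_eq x.lo y.lo
    have hB' : y.1.2 = ⊤ := eq_top_of_finrank_eq (by rw [← h2, hB, finrank_top])
    exact ⟨g, fl_smul_eq.2 ⟨sub_smul_eq.1 hg, im_eq_of_le (fun v _ => hB' ▸ mem_top) h2.ge⟩⟩
  · let e₀ := LinearEquiv.ofFinrankEq x.1.2 y.1.2 h2
    have h3 : finrank F ((x.1.1.comap x.1.2.subtype).map e₀.toLinearMap) =
        finrank F (y.1.1.comap y.1.2.subtype) := by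
      rw [LinearEquiv.finrank_map_eq, (comapSubtypeEquivOfLe x.2.1).finrank_eq,
        (comapSubtypeEquivOfLe y.2.1).finrank_eq, h1]
    obtain ⟨k, hk⟩ := exists_linearEquiv_restrict_eq (LinearEquiv.ofFinrankEq _ _ h3)
    obtain ⟨g, hg⟩ := ext1 hB (y.1.2.subtype ∘ₗ (e₀.trans k).toLinearMap)
      (y.1.2.injective_subtype.comp (e₀.trans k).injective)
    refine ⟨g, fl_smul_eq.2 ⟨im_eq_of_le (fun v hv => ?_) h1.ge,
      im_eq_of_le (fun v hv => hg ⟨v, hv⟩ ▸ (k (e₀ ⟨v, hv⟩)).2) h2.ge⟩⟩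
    have m : e₀ ⟨v, x.2.1 hv⟩ ∈ (x.1.1.comap x.1.2.subtype).map e₀.toLinearMap := ⟨⟨v, x.2.1 hv⟩, hv, rfl⟩
    have := (LinearEquiv.ofFinrankEq _ _ h3 ⟨_, m⟩).2
    rw [hk] at this
    rw [hg ⟨v, x.2.1 hv⟩]
    exact this⟩


end Cfsg.Agent.RK3
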