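import Cfsg.Agent.RK3.DC
import Cfsg.Agent.RK3.Ext
import Cfsg.Agent.SNG.Four
import Cfsg.Agent.SNG.CK

/-! Project RK3 (notes/RK3.md, section AFc). -/

set_option autoImplicit false
set_option linter.unusedSectionVars false

namespace Cfsg.Agent.RK3

open MulAction Module Submodule

variable {F : Type*} [Field F] [Fintype F] {V : Type*} [AddCommGroup V] [Module F V] [Finite V]
  {K : Subgroup (Gm F V)}

/-- `K` extended by the scalars -/
def afcG (K : Subgroup (Gm F V)) := K × Fˣ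

noncomputable instance afc_group : Group (afcG K) := inferInstanceAs (Group (K × Fˣ))
instance afc_finite : Finite (afcG K) := inferInstanceAs (Finite (K × Fˣ))

noncomputable instance afc_act : DistribMulAction (afcG K) V where
  smul g v := (g.2 : F) • (g.1 : Gm F V) • v
  one_smul v := by
    show (1 : F) • (1 : Gm F V) • v = v
    rw [one_smul, one_smul]
  mul_smul g h v := by
    show ((g.2 : F) * h.2) • ((g.1 : Gm F V) * h.1) • v =
      (g.2 : F) • (g.1 : Gm F V) • (h.2 : F) • (h.1 : Gm F V) • v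
    rw [SNG.gs, mul_smul, mul_smul]
  smul_zero g := by
    show (g.2 : F) • (g.1 : Gm F V) • (0 : V) = 0
    rw [smul_zero, smul_zero]
  smul_add g v w := by
    show (g.2 : F) • (g.1 : Gm F V) • (v + w) = (g.2 : F) • (g.1 : Gm F V) • v + (g.2 : F) • (g.1 : Gm F V) • w
    rw [smul_add, smul_add]

theorem afc_smul (g : afcG K) (v : V) : g • v = (g.2 : F) • (g.1 : Gm F V) • v := rfl

instance afc_comm : SMulCommClass (afcG K) F V :=
  ⟨fun g c v => by rw [afc_smul, afc_smul, SNG.gs, smul_comm]⟩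

/-- an element of `afcG K` -/
noncomputable def afcE {k : Gm F V} (hk : k ∈ K) {c : F} (hc : c ≠ 0) : afcG K := (⟨k, hk⟩, Units.mk0 c hc)

theorem afcE_smul {k : Gm F V} (hk : k ∈ K) {c : F} (hc : c ≠ 0) (v : V) : afcE hk hc • v = c • k • v := rfl

theorem afc_key {k : Gm F V} {x b b' : V} {U : Submodule F V} (hx : x ∈ U) (hU : ∀ v, k • v ∈ U ↔ v ∈ U)
    (e : im k (span F {x, b}) = span F {x, b'}) : b ∈ U ↔ b' ∈ U := by
  refine ⟨fun h => ?_, fun h => (hU b).1 (SNG.l2_le hx h (e ▸ smul_mem_im.2 (SNG.right_l2 x b)))⟩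
  have := (hU _).2 (SNG.l2_le hx h (mem_im.1 (e.ge (SNG.right_l2 x b'))))
  rwa [smul_inv_smul] at this

theorem afc_pt {k : Gm F V} {a b : V} (hb : b ≠ 0) (e : im k (span F {a}) = span F {b}) :
    ∃ c : F, c ≠ 0 ∧ c • k • a = b := by
  rw [im_l1] at e
  obtain ⟨c, hc⟩ := mem_span_singleton.1 (e.ge (SNG.self_l1 b))
  exact ⟨c, by rintro rfl; exact hb (by rw [← hc, zero_smul]), hc⟩

theorem afc (h5 : 5 ≤ finrank F V) (hc : Cen K) (h1 : nO K (Sub F V 1) = 1)
    (h2 : nO K (Fl F V 1 2) ≤ 2) (hT : ∀ k ∈ K, ¬ Tvn k)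
    (h0 : ∀ a b : V, a ≠ 0 → b ∉ span F {a} → ∀ β, β ∈ Etr K a b) :
    (∃ W, Pol K W) ∨ ∃ W e, Spd K W e := by
  have : Fact (ringChar F).Prime := ⟨CharP.char_is_prime F (ringChar F)⟩
  have af : SNG.AF F (afcG K) V := by
    refine SNG.af_of_lt (fun a b ha hb => ?_) fun a b ha hb β => ?_
    · obtain ⟨k, hk, e⟩ := nO_one h1 (pt a ha) (pt b hb)
      obtain ⟨c, c0, e⟩ := afc_pt hb (sub_smul_eq.1 e)
      exact ⟨afcE hk c0, e⟩
    · obtain ⟨k, hk, c, c0, e1, e2⟩ := h0 a b ha hb β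
      refine ⟨afcE hk (inv_ne_zero c0), ?_, ?_⟩
      · rw [afcE_smul, e1, inv_smul_smul₀ c0]
      · rw [afcE_smul, e2, inv_smul_smul₀ c0, one_smul]
  obtain ⟨T⟩ : Nonempty (Sylow (ringChar F) (afcG K)) := inferInstance
  obtain ⟨x, y, W, h⟩ := SNG.exists_geo af (by omega) T
  have eqv : Eqv K W := fun k hk a b hb => by
    have := h.eqv (afcE hk one_ne_zero) a b hb
    rwa [afcE_smul, afcE_smul, one_smul, one_smul] at this
  by_cases hle : W y ≤ W x
  · have par := h.par_of_le hle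
    by_cases hx : W x = ⊤
    · obtain ⟨g, c, ψ, c0, ψ0, e0, e⟩ := SNG.ck_all (h.toGeo0.tt hx (by omega)) h5
      have m : tvE c ψ e0 * (g.1 : Gm F V)⁻¹ ∈ K := hc _ (g.2 : F) fun v => by
        rw [mul_smul, tvE_smul, ← e, afc_smul, smul_inv_smul]
      exact absurd ⟨c, ψ, c0, ψ0, e0, tvE_smul c ψ e0⟩ (hT _ (by simpa using mul_mem m g.1.2))
    · refine Or.inr ⟨W, finrank F (W x), par, fun a ha => par.rk a x ha h.x0, ?_, finrank_lt hx, eqv⟩
      rw [← SNG.rk_l2 h.x0 h.yx]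
      exact finrank_mono (SNG.l2_le (h.self x) h.ymem)
  rcases h.dich hle with hP | hH
  · exact Or.inl ⟨W, hP, h.self, h.symm, eqv⟩
  exfalso
  have r3 := hH.rk3 x h.x0
  have r5 := hH.rk5 h.x0
  have r6 := hH.hexC_six.1
  obtain ⟨b1, m1, n1⟩ := SNG.exists_notMem (A := W x) (B := SNG.W2 W x) (by omega)
  obtain ⟨b2, -, n2⟩ := SNG.exists_notMem (A := SNG.W2 W x) (B := ⊤) (by rw [finrank_top]; omega)
  have le := h.W2_self x
  have s1 : b1 ∉ span F {x} := fun e => n1 (SNG.l1_le (h.self x) e)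
  have s2 : b2 ∉ span F {x} := fun e => n2 (SNG.l1_le (le (h.self x)) e)
  have key : ∀ k ∈ K, ∀ {b b' : V} (hb : b ∉ span F {x}) (hb' : b' ∉ span F {x}),
      k • fl2 x b h.x0 hb = fl2 x b' h.x0 hb' → (b ∈ W x ↔ b' ∈ W x) ∧ (b ∈ SNG.W2 W x ↔ b' ∈ SNG.W2 W x) := by
    intro k hk b b' hb hb' e
    obtain ⟨e1, e2⟩ := fl_smul_eq.1 e
    obtain ⟨c, c0, e3⟩ := afc_pt h.x0 e1
    have e4 : afcE hk c0 • x = x := e3
    refine ⟨afc_key (h.self x) (fun v => ?_) e2, afc_key (le (h.self x)) (fun v => ?_) e2⟩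
    · rw [← (W x).smul_mem_iff c0, ← afcE_smul hk c0]
      refine ⟨fun m => ?_, fun m => e4 ▸ h.eqv _ _ _ m⟩
      have := h.eqv (afcE hk c0)⁻¹ _ _ m
      rwa [inv_smul_smul, inv_smul_eq_iff.2 e4.symm] at this
    · rw [← (SNG.W2 W x).smul_mem_iff c0, ← afcE_smul hk c0, ← h.W2_eqv (afcE hk c0) x v, e4]
  obtain ⟨i, j, ne, k, hk, e⟩ := rel_of_lt ![fl2 x y h.x0 h.yx, fl2 x b1 h.x0 s1, fl2 x b2 h.x0 s2]
    (Nat.lt_succ_of_le h2)
  have m0 := h.ymem
  have m0' := le m0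
  have n2' : b2 ∉ W x := fun e => n2 (le e)
  have s0 := h.yx
  fin_cases i <;> fin_cases j
  · exact ne rfl
  · have := key k hk s0 s1 e; tauto
  · have := key k hk s0 s2 e; tauto
  · have := key k hk s1 s0 e; tauto
  · exact ne rfl
  · have := key k hk s1 s2 e; tauto
  · have := key k hk s2 s0 e; tauto
  · have := key k hk s2 s1 e; tauto
  · exact ne rfl

end Cfsg.Agent.RK3
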