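import Cfsg.Agent.RK3.Defs
import Cfsg.Agent.H11.SubCount

/-! Project RK3 (notes/RK3.md, section Cnt). -/

set_option autoImplicit false
set_option linter.unusedSectionVars false

namespace Cfsg.Agent.RK3

open MulAction Module Submodule

variable {F : Type*} [Field F] [Fintype F] {V : Type*} [AddCommGroup V] [Module F V] [Finite V]

theorem cnt_arith {q a k N : ℕ} (hq : 1 < q) (h : q ^ (a + k) - q ^ a = N * (q ^ (a + 1) - q ^ a)) :
    N = gq q k := by
  have h1 := gq_mul hq.le k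
  obtain ⟨r, rfl⟩ := Nat.exists_eq_add_of_le' hq.le
  have hp : 0 < (r + 1) ^ a := Nat.pow_pos (by omega)
  rw [pow_add, ← h1, pow_succ, Nat.add_sub_cancel, mul_add, mul_one, Nat.add_sub_cancel, mul_add, mul_one,
    Nat.add_sub_cancel, mul_left_comm N] at h
  exact (Nat.eq_of_mul_eq_mul_right (by omega) (Nat.eq_of_mul_eq_mul_left hp h)).symm

theorem cnt_up {A C : Submodule F V} (h : A ≤ C) :
    (ups A C).card = gq (Fintype.card F) (finrank F C - finrank F A) := by
  have h1 := H11.card_step (fun W => W ≤ C) A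
  have h2 : Nat.card {x // x ∉ A ∧ A ⊔ span F {x} ≤ C} = Nat.card {x // x ∈ C ∧ x ∉ A} :=
    Nat.card_congr (Equiv.subtypeEquivRight fun x =>
      ⟨fun hx => ⟨(le_sup_right.trans hx.2) (SNG.self_l1 x), hx.1⟩, fun hx => ⟨hx.2, sup_le h (SNG.l1_le hx.1)⟩⟩)
  have h3 : Nat.card {W : Submodule F V // finrank F W = finrank F A + 1 ∧ A ≤ W ∧ W ≤ C} = (ups A C).card := by
    rw [← Nat.card_eq_finsetCard]
    exact Nat.card_congr (Equiv.subtypeEquivRight fun W => by
      rw [mem_ups, SNG.covBy_iff]; tauto)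
  rw [h2, h3, H11.card_diff h] at h1
  obtain ⟨k, hk⟩ := Nat.exists_eq_add_of_le (Submodule.finrank_mono h)
  rw [hk] at h1 ⊢
  rw [Nat.add_sub_cancel_left]
  exact cnt_arith Fintype.one_lt_card h1

theorem cnt_down {A C : Submodule F V} (h : A ≤ C) :
    (downs A C).card = gq (Fintype.card F) (finrank F C - finrank F A) := by
  have rk := fun W : Submodule F V => Subspace.finrank_add_finrank_dualAnnihilator_eq W
  have key : ∀ B : Submodule F V, B ∈ downs A C ↔
      B.dualAnnihilator ∈ ups C.dualAnnihilator A.dualAnnihilator := fun B => by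
    rw [mem_downs, mem_ups, SNG.covBy_iff, SNG.covBy_iff, Subspace.dualAnnihilator_le_dualAnnihilator_iff,
      Subspace.dualAnnihilator_le_dualAnnihilator_iff]
    have := rk B
    have := rk C
    constructor
    · rintro ⟨h1, h2, h3⟩; exact ⟨⟨h2, by omega⟩, h1⟩
    · rintro ⟨⟨h2, h3⟩, h1⟩; exact ⟨h1, h2, by omega⟩
  have e : (downs A C).card = (ups C.dualAnnihilator A.dualAnnihilator).card :=
    Finset.card_bij (fun B _ => B.dualAnnihilator) (fun B hB => (key B).1 hB)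
      (fun _ _ _ _ e => Subspace.dualAnnihilator_inj.1 e) fun Φ hΦ =>
        ⟨Φ.dualCoannihilator, (key _).2 (by rwa [Subspace.dualCoannihilator_dualAnnihilator_eq]),
          Subspace.dualCoannihilator_dualAnnihilator_eq⟩
  rw [e, cnt_up (dualAnnihilator_anti h)]
  have := rk A
  have := rk C
  have := Submodule.finrank_mono h
  congr 1
  omega

theorem cnt_off {A : Submodule F V} {x : V} (h : x ∉ A) :
    (offs A x).card = Fintype.card F ^ (finrank F V - finrank F A - 1) := by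
  classical
  have h1 := cnt_down (le_top : A ≤ ⊤)
  have h2 := cnt_down (le_top : A ⊔ span F {x} ≤ ⊤)
  have e : downs A ⊤ = downs (A ⊔ span F {x}) ⊤ ∪ offs A x := by
    ext B
    rw [Finset.mem_union, mem_downs, mem_downs, mem_offs]
    constructor
    · rintro ⟨a, b⟩
      by_cases hx : x ∈ B
      · exact Or.inl ⟨sup_le a (SNG.l1_le hx), b⟩
      · exact Or.inr ⟨a, b, hx⟩
    · rintro (⟨a, b⟩ | ⟨a, b, -⟩)
      · exact ⟨le_sup_left.trans a, b⟩
      · exact ⟨a, b⟩
  rw [e, Finset.card_union_of_disjoint (Finset.disjoint_left.2 fun B a b =>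
    (mem_offs.1 b).2.2 ((mem_downs.1 a).1 (mem_sup_right (SNG.self_l1 x)))), h2, SNG.rk_adj h,
    finrank_top] at h1
  have hl : finrank F A + 1 ≤ finrank F V := SNG.rk_adj h ▸ Submodule.finrank_le _
  obtain ⟨k, hk⟩ := Nat.exists_eq_add_of_le hl
  rw [hk, Nat.add_sub_cancel_left, show finrank F A + 1 + k - finrank F A = k + 1 by omega, gq_succ] at h1
  rw [hk, show finrank F A + 1 + k - finrank F A - 1 = k by omega]
  omega

theorem pts_univ (A : Submodule F V) : pts Set.univ A = gq (Fintype.card F) (finrank F A) := by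
  have h1 := cnt_up (bot_le : ⊥ ≤ A)
  rw [finrank_bot, Nat.sub_zero] at h1
  rw [← h1, pts, ← Set.ncard_coe_finset]
  refine Set.ncard_congr (fun x _ => x.1) (fun x hx => ?_) (fun _ _ _ _ e => Subtype.ext e) fun B hB => ?_
  · exact mem_ups.2 ⟨SNG.covBy_iff.2 ⟨bot_le, by rw [finrank_bot, x.2]⟩, hx.2⟩
  · obtain ⟨a, b⟩ := mem_ups.1 hB
    exact ⟨⟨B, by rw [(SNG.covBy_iff.1 a).2, finrank_bot]⟩, ⟨trivial, b⟩, rfl⟩

theorem pts_top (O : Set (Sub F V 1)) : pts O ⊤ = O.ncard := by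
  simp [pts]

theorem pts_mono (O : Set (Sub F V 1)) {A C : Submodule F V} (h : A ≤ C) : pts O A ≤ pts O C :=
  Set.ncard_le_ncard fun _ hx => ⟨hx.1, hx.2.trans h⟩

theorem pts_compl (O : Set (Sub F V 1)) (A : Submodule F V) :
    pts O A + pts Oᶜ A = gq (Fintype.card F) (finrank F A) := by
  rw [← pts_univ, pts, pts, pts, ← Set.ncard_union_eq (Set.disjoint_left.2 fun _ a b => b.1 a.1)]
  congr 1
  ext x
  by_cases hx : x ∈ O <;> simp [hx]

theorem cnt_cov {A : Submodule F V} (x : Sub F V 1) (h : ¬ x.1 ≤ A) : A ⋖ A ⊔ x.1 := by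
  obtain ⟨v, hv, hv'⟩ := SetLike.not_le_iff_exists.1 h
  have : span F {v} = x.1 := Submodule.eq_of_le_of_finrank_eq (SNG.l1_le hv)
    (by rw [finrank_span_singleton (SNG.ne0_of_notMem hv'), x.2])
  rw [← this]
  exact SNG.covBy_adj hv'

open Classical in
theorem cnt_diff (O : Set (Sub F V 1)) {A C : Submodule F V} (h : A ≤ C) :
    (pts O C : ℤ) - pts O A =
      (Finset.univ.filter fun x : Sub F V 1 => x ∈ O ∧ x.1 ≤ C ∧ ¬ x.1 ≤ A).card := by
  rw [sub_eq_iff_eq_add, ← Set.ncard_coe_finset, pts, pts, ← Nat.cast_add,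
    ← Set.ncard_union_eq (Set.disjoint_left.2 fun _ a b => (Finset.mem_filter.1 a).2.2.2 b.2)]
  congr 2
  ext x
  simp only [Set.mem_setOf_eq, Set.mem_union, Finset.coe_filter, Finset.mem_univ, true_and]
  constructor
  · rintro ⟨a, b⟩
    by_cases hx : x.1 ≤ A
    · exact Or.inr ⟨a, hx⟩
    · exact Or.inl ⟨a, b, hx⟩
  · rintro (⟨a, b, -⟩ | ⟨a, b⟩)
    · exact ⟨a, b⟩
    · exact ⟨a, b.trans h⟩

theorem pts_part (O : Set (Sub F V 1)) {A C : Submodule F V} (h : A ≤ C) :
    (pts O C : ℤ) - pts O A = ∑ B ∈ ups A C, ((pts O B : ℤ) - pts O A) := by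
  classical
  rw [cnt_diff O h, Finset.card_eq_sum_card_fiberwise (f := fun x : Sub F V 1 => A ⊔ x.1) (t := ups A C)
    (fun x hx => by
      obtain ⟨-, b, c⟩ := (Finset.mem_filter.1 hx).2
      exact mem_ups.2 ⟨cnt_cov x c, sup_le h b⟩), Nat.cast_sum]
  refine Finset.sum_congr rfl fun B hB => ?_
  obtain ⟨a, b⟩ := mem_ups.1 hB
  rw [cnt_diff O a.le]
  congr 2
  ext x
  simp only [Finset.mem_filter, Finset.mem_univ, true_and]
  constructor
  · rintro ⟨⟨h1, -, h3⟩, rfl⟩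
    exact ⟨h1, le_sup_right, h3⟩
  · rintro ⟨h1, h2, h3⟩
    exact ⟨⟨h1, h2.trans b, h3⟩, ((a.eq_or_eq le_sup_left (sup_le a.le h2)).resolve_left (cnt_cov x h3).ne')⟩

theorem pts_smul (O : Set (Sub F V 1)) (g : Gm F V) (hO : ∀ x, g • x ∈ O ↔ x ∈ O)
    (A : Submodule F V) : pts O (im g A) = pts O A := by
  symm
  unfold pts
  refine Set.ncard_congr (fun x _ => g • x) (fun x hx => ⟨(hO x).2 hx.1, im_le_im.2 hx.2⟩)
    (fun _ _ _ _ e => smul_left_cancel g e) fun y hy => ⟨g⁻¹ • y, ⟨?_, ?_⟩, smul_inv_smul g y⟩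
  · rw [← hO, smul_inv_smul]; exact hy.1
  · rw [← im_le_im (g := g), ← sub_smul_val, smul_inv_smul]; exact hy.2


end Cfsg.Agent.RK3
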