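import Cfsg.Agent.RK3.Ext
import Cfsg.Agent.RK3.Cnt

/-! Project RK3 (notes/RK3.md, section ArcG). -/

set_option autoImplicit false
set_option linter.unusedSectionVars false

namespace Cfsg.Agent.RK3

open MulAction Module Submodule

variable {F : Type*} [Field F] [Fintype F] {V : Type*} [AddCommGroup V] [Module F V] [Finite V]

theorem arcG_eq {x z : Sub F V 1} (h : z.1 ≤ x.1) : z = x :=
  Subtype.ext (Submodule.eq_of_le_of_finrank_eq h (z.2.trans x.2.symm))

theorem arcG_one {O : Set (Sub F V 1)} {x : Sub F V 1} (h : x ∈ O) : pts O x.1 = 1 := by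
  rw [pts, Set.ncard_eq_one]
  exact ⟨x, Set.eq_singleton_iff_unique_mem.2 ⟨⟨h, le_rfl⟩, fun z hz => arcG_eq hz.2⟩⟩

theorem arcG_zero {O : Set (Sub F V 1)} {x : Sub F V 1} (h : x ∉ O) : pts O x.1 = 0 := by
  rw [pts, Set.ncard_eq_zero]
  exact Set.eq_empty_of_forall_notMem fun z hz => h (arcG_eq hz.2 ▸ hz.1)

theorem arcG_pos {O : Set (Sub F V 1)} {x : Sub F V 1} (h : x ∈ O) {A : Submodule F V} (hA : x.1 ≤ A) :
    1 ≤ pts O A := arcG_one h ▸ pts_mono O hA

theorem arcG_ex {O : Set (Sub F V 1)} {A : Submodule F V} (h : pts O A ≠ 0) : ∃ x ∈ O, x.1 ≤ A :=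
  Set.nonempty_of_ncard_ne_zero h

theorem arcG_cnt {O : Set (Sub F V 1)} {m : ℕ}
    (hl : ∀ l : Submodule F V, finrank F l = 2 → pts O l = 0 ∨ pts O l = m) {x : Sub F V 1} (h : x ∈ O)
    {C : Submodule F V} (hC : x.1 ≤ C) :
    (pts O C : ℤ) = 1 + (m - 1) * gq (Fintype.card F) (finrank F C - 1) := by
  have k := pts_part O hC
  rw [arcG_one h, Finset.sum_congr rfl (g := fun _ => (m : ℤ) - 1), Finset.sum_const, cnt_up hC, x.2] at k
  · simp only [nsmul_eq_mul, Nat.cast_one] at k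
    linear_combination k
  · intro B hB
    obtain ⟨h1, h2⟩ := SNG.covBy_iff.1 (mem_ups.1 hB).1
    have := arcG_pos h h1
    rcases hl B (by rw [h2, x.2]) with e | e
    · omega
    · rw [e]; simp

theorem arcG_up {A : Submodule F V} (h : finrank F A < finrank F V) :
    ∃ B : Submodule F V, A ≤ B ∧ finrank F B = finrank F A + 1 := by
  obtain ⟨v, -, hv⟩ := SNG.exists_notMem (A := A) (B := ⊤) (by rwa [finrank_top])
  exact ⟨_, le_sup_left, SNG.rk_adj hv⟩

theorem arcG (h4 : 4 ≤ finrank F V) (O : Set (Sub F V 1)) (m : ℕ) (hO : O.Nonempty)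
    (hO' : O ≠ Set.univ) (hl : ∀ l : Submodule F V, finrank F l = 2 → pts O l = 0 ∨ pts O l = m) :
    m = 1 ∨ m = Fintype.card F := by
  obtain ⟨x, hx⟩ := hO
  obtain ⟨y, hy⟩ := (Set.ne_univ_iff_exists_notMem O).1 hO'
  obtain ⟨b, hb, hb'⟩ : ∃ b ∈ y.1, b ∉ x.1 := by
    by_contra hn
    push Not at hn
    exact hy (arcG_eq hn ▸ hx)
  have yb : y.1 ≤ x.1 ⊔ span F {b} := by
    have : span F {b} = y.1 := Submodule.eq_of_le_of_finrank_eq (SNG.l1_le hb)
      (by rw [finrank_span_singleton (SNG.ne0_of_notMem hb'), y.2])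
    rw [this]
    exact le_sup_right
  have r2 : finrank F (x.1 ⊔ span F {b} : Submodule F V) = 2 := by rw [SNG.rk_adj hb', x.2]
  have xb : x.1 ≤ x.1 ⊔ span F {b} := le_sup_left
  generalize x.1 ⊔ span F {b} = l at yb r2 xb
  obtain ⟨P, lP, r3⟩ := arcG_up (A := l) (by omega)
  obtain ⟨S, PS, r4⟩ := arcG_up (A := P) (by omega)
  rw [r2] at r3
  rw [r3] at r4
  have hq : 1 < Fintype.card F := Fintype.one_lt_card
  have m1 : 1 ≤ m ∧ m ≤ Fintype.card F := by
    have h1 := arcG_pos hx xb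
    have h2 := arcG_pos (O := Oᶜ) hy yb
    have h3 := pts_compl O l
    rw [r2] at h3
    simp only [gq, Finset.sum_range_succ, Finset.sum_range_zero, pow_zero, pow_one] at h3
    rcases hl l r2 with e | e <;> omega
  have k2 : ∀ B : Submodule F V, finrank F B = 3 → pts O B ≠ 0 →
      (pts O B : ℤ) = 1 + (m - 1) * (1 + Fintype.card F) := fun B hB h0 => by
    obtain ⟨z, hz, zB⟩ := arcG_ex h0
    rw [arcG_cnt hl hz zB, hB]
    simp [gq, Finset.sum_range_succ]
  obtain ⟨l0, hl0, z0⟩ : ∃ l0 ∈ ups y.1 P, pts O l0 = 0 := by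
    by_contra hn
    push Not at hn
    have k := pts_part O (yb.trans lP)
    rw [arcG_zero hy, Finset.sum_congr rfl (g := fun _ => (m : ℤ)), Finset.sum_const, cnt_up (yb.trans lP), y.2, r3,
      k2 P r3 (by have := arcG_pos hx (xb.trans lP); omega)] at k
    · simp [gq, Finset.sum_range_succ] at k
      have : (Fintype.card F : ℤ) = 0 := by linear_combination -k
      omega
    · intro B hB
      rcases hl B (by rw [(SNG.covBy_iff.1 (mem_ups.1 hB).1).2, y.2]) with e | e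
      · exact absurd e (hn B hB)
      · rw [e]; simp
  have r0 : finrank F l0 = 2 := by rw [(SNG.covBy_iff.1 (mem_ups.1 hl0).1).2, y.2]
  have k := pts_part O ((mem_ups.1 hl0).2.trans PS)
  have d : (1 + (m - 1) * (1 + Fintype.card F) : ℤ) ∣ ∑ B ∈ ups l0 S, ((pts O B : ℤ) - pts O l0) :=
    Finset.dvd_sum fun B hB => by
      by_cases h0 : pts O B = 0
      · simp [h0, z0]
      · rw [k2 B (by rw [(SNG.covBy_iff.1 (mem_ups.1 hB).1).2, r0]) h0, z0]
        simp
  rw [← k, z0, arcG_cnt hl hx (xb.trans (lP.trans PS)), r4] at d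
  have d' : (1 + (m - 1) * (1 + Fintype.card F) : ℤ) ∣ Fintype.card F - m := by
    have := (dvd_mul_left (1 + (m - 1) * (1 + Fintype.card F) : ℤ) (Fintype.card F)).sub d
    refine Dvd.dvd.trans this (dvd_of_eq ?_)
    simp [gq, Finset.sum_range_succ]
    ring
  by_contra hn
  push Not at hn
  have h1 : (0 : ℤ) < Fintype.card F - m := by omega
  have h2 := Int.le_of_dvd h1 d'
  have h3 : (1 : ℤ) ≤ m - 1 := by omega
  nlinarith

end Cfsg.Agent.RK3
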