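import Cfsg.Agent.RK3.DC
import Cfsg.Agent.RK3.ArcG

/-! Project RK3 (notes/RK3.md, section Arc). -/

set_option autoImplicit false
set_option linter.unusedSectionVars false

namespace Cfsg.Agent.RK3

open MulAction Module Submodule

variable {F : Type*} [Field F] [Fintype F] {V : Type*} [AddCommGroup V] [Module F V] [Finite V]
  {K : Subgroup (Gm F V)}

theorem arc_pt_eq (x : Sub F V 1) {v : V} (h : v ≠ 0) (hv : v ∈ x.1) : pt v h = x :=
  Subtype.ext (Submodule.eq_of_le_of_finrank_eq (SNG.l1_le hv) ((finrank_span_singleton h).trans x.2.symm))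

theorem arc_ex (x : Sub F V 1) : ∃ v h, pt v h = x := by
  obtain ⟨v, hv, h⟩ := SNG.exists_notMem (A := (⊥ : Submodule F V)) (B := x.1) (by rw [x.2, finrank_bot]; exact one_pos)
  exact ⟨v, SNG.ne0_of_notMem h, arc_pt_eq x _ hv⟩

theorem arc_two {O : Set (Sub F V 1)} {x y : Sub F V 1} (hx : x ∈ O) (hy : y ∈ O) (h : x ≠ y) :
    ∃ l : Submodule F V, finrank F l = 2 ∧ x.1 ≤ l ∧ y.1 ≤ l ∧ l = x.1 ⊔ y.1 ∧ 2 ≤ pts O l := by
  obtain ⟨v, v0, rfl⟩ := arc_ex y
  have hv : v ∉ x.1 := fun e => h (arc_pt_eq x v0 e).symm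
  refine ⟨x.1 ⊔ span F {v}, by rw [SNG.rk_adj hv, x.2], le_sup_left, le_sup_right, rfl, ?_⟩
  rw [← Set.ncard_pair h]
  refine Set.ncard_le_ncard ?_ (Set.toFinite _)
  rintro z (rfl | rfl)
  · exact ⟨hx, le_sup_left⟩
  · exact ⟨hy, le_sup_right⟩

theorem arc_flag (h4 : 4 ≤ finrank F V) (x : Sub F V 1) : ∃ y : Fl F V 1 2, y.lo = x := by
  obtain ⟨v, v0, rfl⟩ := arc_ex x
  obtain ⟨w, -, hw⟩ := SNG.exists_notMem (A := span F {v}) (B := ⊤)
    (by rw [finrank_span_singleton v0, finrank_top]; omega)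
  exact ⟨fl2 v w v0 hw, rfl⟩

theorem arc_pig : ∀ c : Fin 3 → Fin 2, (∀ i, ∃ j, c j = i) → ∃ i i', i ≠ i' ∧ ∀ j j', c j = i → c j' = i → j = j' := by
  decide

theorem arc (h4 : 4 ≤ finrank F V) (h1 : nO K (Sub F V 1) = 2) (h2 : nO K (Fl F V 1 2) = 3) :
    ¬ Irr K := by
  intro hI
  obtain ⟨p, p1, p2⟩ := reps h1
  obtain ⟨f, f1, -⟩ := reps h2
  choose c hc using fun j => p1 (f j).lo
  have cu : ∀ i j (y : Fl F V 1 2), (∃ k ∈ K, k • p i = y.lo) → (∃ k ∈ K, k • f j = y) → c j = i := by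
    rintro i j _ ⟨k, hk, e⟩ ⟨k', hk', rfl⟩
    obtain ⟨k'', hk'', e'⟩ := hc j
    refine p2 _ _ ⟨k⁻¹ * k' * k'', mul_mem (mul_mem (inv_mem hk) hk') hk'', ?_⟩
    rw [mul_smul, mul_smul, e', inv_smul_eq_iff, e]
    rfl
  have cs : ∀ i, ∃ j, c j = i := fun i => by
    obtain ⟨y, hy⟩ := arc_flag h4 (p i)
    obtain ⟨j, hj⟩ := f1 y
    exact ⟨j, cu i j y ⟨1, one_mem _, by rw [one_smul, hy]⟩ hj⟩
  obtain ⟨i, i', ii, hu⟩ := arc_pig c cs
  obtain ⟨j0, hj0⟩ := cs i
  set O : Set (Sub F V 1) := {x | ∃ k ∈ K, k • p i = x} with hO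
  have O1 : ∀ k ∈ K, ∀ x ∈ O, k • x ∈ O := by
    rintro k hk _ ⟨k', hk', rfl⟩
    exact ⟨k * k', mul_mem hk hk', mul_smul _ _ _⟩
  have O2 : ∀ k ∈ K, ∀ x, k • x ∈ O ↔ x ∈ O := fun k hk x =>
    ⟨fun h => by simpa using O1 k⁻¹ (inv_mem hk) _ h, O1 k hk x⟩
  have O3 : p i ∈ O := ⟨1, one_mem _, one_smul _ _⟩
  have O4 : p i' ∉ O := fun h => ii (p2 _ _ h)
  have hl : ∀ l : Submodule F V, finrank F l = 2 → pts O l = 0 ∨ pts O l = pts O (f j0).1.2 := by
    intro l hl
    refine or_iff_not_imp_left.2 fun h => ?_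
    obtain ⟨x, hx, hxl⟩ := Set.nonempty_of_ncard_ne_zero h
    let y : Fl F V 1 2 := ⟨(x.1, l), hxl, x.2, hl⟩
    obtain ⟨j, k, hk, e⟩ := f1 y
    have e1 : j = j0 := hu _ _ (cu i j y hx ⟨k, hk, e⟩) hj0
    subst e1
    have e2 : im k (f j).1.2 = l := (fl_smul_eq.1 e).2
    rw [← e2, pts_smul O k (O2 k hk)]
  rcases arcG h4 O _ ⟨_, O3⟩ (fun e => O4 (e ▸ Set.mem_univ _)) hl with m1 | mq
  · have hf : ∀ k ∈ K, k • p i = p i := fun k hk => by
      by_contra hne
      obtain ⟨l, l2, -, -, -, h⟩ := arc_two (O1 k hk _ O3) O3 hne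
      have := hl l l2
      omega
    have := (p i).2
    rcases hI (p i).1 (fun k hk v hv => by
      rw [← sub_smul_eq.1 (hf k hk)]; exact smul_mem_im.2 hv) with e | e
    · rw [e, finrank_bot] at this; omega
    · rw [e, finrank_top] at this; omega
  · have sp : ∀ a : V, (∀ h : a ≠ 0, pt a h ∉ O) → ∀ v ∈ span F {a}, ∀ h : v ≠ 0, pt v h ∉ O := by
      intro a ha v hv h
      have a0 : a ≠ 0 := fun e => h (by rw [e, span_zero_singleton] at hv; exact (mem_bot F).1 hv)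
      rw [arc_pt_eq (pt a a0) h hv]
      exact ha a0
    let U : Submodule F V :=
      { carrier := {v | ∀ h : v ≠ 0, pt v h ∉ O}
        zero_mem' := fun h => absurd rfl h
        smul_mem' := fun r v hv => sp v hv _ (smul_mem _ _ (SNG.self_l1 v))
        add_mem' := by
          intro a b ha hb h
          by_cases a0 : a = 0
          · subst a0
            exact sp b hb _ (by rw [zero_add]; exact SNG.self_l1 b) h
          by_cases hab : b ∈ span F {a}
          · exact sp a ha _ (add_mem (SNG.self_l1 a) hab) h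
          have b0 := SNG.ne0_of_notMem hab
          obtain ⟨l, l2, la, lb, -, h2⟩ := arc_two (O := Oᶜ) (x := pt a a0) (y := pt b b0) (ha a0) (hb b0)
            (fun e => hab (by
              have : b ∈ (pt b b0 : Sub F V 1).1 := SNG.self_l1 b
              rwa [← e] at this))
          have h3 := pts_compl O l
          rw [l2, gq_succ, gq_succ, gq_zero, pow_zero, pow_one] at h3
          have h5 : pts O l = 0 := by
            have := hl l l2
            omega
          intro hm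
          have : (pt (a + b) h : Sub F V 1) ∈ {x : Sub F V 1 | x ∈ O ∧ x.1 ≤ l} :=
            ⟨hm, SNG.l1_le (add_mem (la (SNG.self_l1 a)) (lb (SNG.self_l1 b)))⟩
          rw [(Set.ncard_eq_zero (Set.toFinite _)).1 h5] at this
          exact this }
    rcases hI U (fun k hk v hv h hm => by
      have v0 : v ≠ 0 := fun e => h (by rw [e, smul_zero])
      refine hv v0 ((O2 k hk _).1 ?_)
      rwa [show k • (pt v v0 : Sub F V 1) = pt (k • v) h from Subtype.ext (im_l1 k v)]) with e | e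
    · obtain ⟨v, v0, hv⟩ := arc_ex (p i')
      have : v ∈ U := fun h => by rw [hv]; exact O4
      rw [e] at this
      exact v0 ((mem_bot F).1 this)
    · obtain ⟨v, v0, hv⟩ := arc_ex (p i)
      have : v ∈ U := e ▸ mem_top
      exact this v0 (hv ▸ O3)

end Cfsg.Agent.RK3
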