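import Cfsg.Agent.RK3.Cnt

/-! Project RK3 (notes/RK3.md, section Card). -/

set_option autoImplicit false
set_option linter.unusedSectionVars false

namespace Cfsg.Agent.RK3

open MulAction Module Submodule

variable {F : Type*} [Field F] [Fintype F] {V : Type*} [AddCommGroup V] [Module F V] [Finite V]

theorem card_fib {α β : Type*} [Finite α] [Finite β] (f : α → β) {c : ℕ} (h : ∀ b, Nat.card {a // f a = b} = c) :
    Nat.card α = Nat.card β * c := by
  have := Fintype.ofFinite β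
  rw [← Nat.card_congr (Equiv.sigmaFiberEquiv f), Nat.card_sigma]
  simp [h]

theorem card_lo {a b : ℕ} (A : Sub F V a) {s : Finset (Submodule F V)}
    (h : ∀ B, B ∈ s ↔ A.1 ≤ B ∧ finrank F B = b) : Nat.card {x : Fl F V a b // x.lo = A} = s.card := by
  rw [← Nat.card_eq_finsetCard]
  exact Nat.card_congr ⟨fun x => ⟨x.1.1.2, (h _).2 ⟨(congrArg Subtype.val x.2).ge.trans x.1.2.1, x.1.2.2.2⟩⟩,
    fun B => ⟨⟨(A.1, B.1), ((h _).1 B.2).1, A.2, ((h _).1 B.2).2⟩, rfl⟩,
    fun x => Subtype.ext (Subtype.ext (Prod.ext (congrArg Subtype.val x.2).symm rfl)), fun _ => rfl⟩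

theorem card_hi {a b : ℕ} (B : Sub F V b) {s : Finset (Submodule F V)}
    (h : ∀ A, A ∈ s ↔ A ≤ B.1 ∧ finrank F A = a) : Nat.card {x : Fl F V a b // x.hi = B} = s.card := by
  rw [← Nat.card_eq_finsetCard]
  exact Nat.card_congr ⟨fun x => ⟨x.1.1.1, (h _).2 ⟨x.1.2.1.trans (congrArg Subtype.val x.2).le, x.1.2.2.1⟩⟩,
    fun A => ⟨⟨(A.1, B.1), ((h _).1 A.2).1, ((h _).1 A.2).2, B.2⟩, rfl⟩,
    fun x => Subtype.ext (Subtype.ext (Prod.ext rfl (congrArg Subtype.val x.2).symm)), fun _ => rfl⟩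

theorem card_sub0 : Nat.card (Sub F V 0) = 1 :=
  Nat.card_eq_one_iff_exists.2 ⟨⟨⊥, finrank_bot F V⟩, fun A => Subtype.ext (Submodule.finrank_eq_zero.1 A.2)⟩

theorem card_subn : Nat.card (Sub F V (finrank F V)) = 1 :=
  Nat.card_eq_one_iff_exists.2 ⟨⟨⊤, finrank_top F V⟩, fun A => Subtype.ext (eq_top_of_finrank_eq A.2)⟩

theorem card_gq_mod (q : ℕ) {k : ℕ} (h : 0 < k) : gq q k ≡ 1 [MOD q] := by
  obtain ⟨k, rfl⟩ := Nat.exists_eq_add_of_lt h
  rw [gq_succ']
  exact (Nat.modEq_iff_dvd' (Nat.le_add_left _ _)).2 (by simp) |>.symm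

theorem card_sub1 : Nat.card (Sub F V 1) = gq (Fintype.card F) (finrank F V) := by
  rw [← finrank_top F V, ← pts_univ, pts_top, Set.ncard_univ]

theorem card_fl_lo (a : ℕ) : Nat.card (Fl F V a (a + 1)) =
    Nat.card (Sub F V a) * gq (Fintype.card F) (finrank F V - a) := by
  refine card_fib Fl.lo fun A => ?_
  rw [card_lo A (s := ups A.1 ⊤) fun B => by rw [mem_ups, SNG.covBy_iff, A.2]; simp, cnt_up le_top, finrank_top, A.2]

theorem card_fl_hi (a : ℕ) : Nat.card (Fl F V a (a + 1)) =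
    Nat.card (Sub F V (a + 1)) * gq (Fintype.card F) (a + 1) := by
  refine card_fib Fl.hi fun B => ?_
  rw [card_hi B (s := downs ⊥ B.1) fun A => by rw [mem_downs, SNG.covBy_iff, B.2]; simp [eq_comm], cnt_down bot_le,
    finrank_bot, B.2, Nat.sub_zero]

theorem card_sub2 : Nat.card (Sub F V 2) * (Fintype.card F + 1) =
    gq (Fintype.card F) (finrank F V) * gq (Fintype.card F) (finrank F V - 1) := by
  have := (card_fl_hi (F := F) (V := V) 1).symm.trans (card_fl_lo 1)
  rwa [card_sub1, gq_succ', gq_succ', gq_zero, mul_zero, zero_add, mul_one] at this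

theorem card_dual {d : ℕ} (h : d ≤ finrank F V) :
    Nat.card (Sub F V (finrank F V - d)) = Nat.card (Sub F V d) := by
  induction d with
  | zero => rw [Nat.sub_zero, card_subn, card_sub0]
  | succ d ih =>
    have h1 := (card_fl_hi (F := F) (V := V) d).symm.trans (card_fl_lo d)
    have h2 := (card_fl_hi (F := F) (V := V) (finrank F V - (d + 1))).symm.trans (card_fl_lo _)
    rw [show finrank F V - (d + 1) + 1 = finrank F V - d by omega, Nat.sub_sub_self h, ih (by omega), ← h1] at h2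
    exact (Nat.eq_of_mul_eq_mul_right (by rw [gq_succ']; omega) h2).symm

theorem card_mod (h3 : 3 ≤ finrank F V) :
    Nat.card (Sub F V 1) ≡ 1 [MOD Fintype.card F] ∧ Nat.card (Sub F V 2) ≡ 1 [MOD Fintype.card F] ∧
    Nat.card (Sub F V 3) ≡ 1 [MOD Fintype.card F] ∧ Nat.card (Fl F V 1 2) ≡ 1 [MOD Fintype.card F] ∧
    Nat.card (Fl F V 1 3) ≡ 1 [MOD Fintype.card F] := by
  have k : ∀ a < finrank F V, Nat.card (Sub F V a) ≡ 1 [MOD Fintype.card F] →
      Nat.card (Sub F V (a + 1)) ≡ 1 [MOD Fintype.card F] := fun a ha e => by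
    have h1 := (card_gq_mod (Fintype.card F) a.succ_pos).mul_left (Nat.card (Sub F V (a + 1)))
    rw [← card_fl_hi, card_fl_lo, mul_one] at h1
    exact h1.symm.trans (e.mul (card_gq_mod _ (by omega)))
  have h1 := k 0 (by omega) (by rw [card_sub0])
  have h2 := k 1 (by omega) h1
  have h4 := k 2 (by omega) h2
  refine ⟨h1, h2, h4, card_fl_hi (F := F) (V := V) 1 ▸ h2.mul (card_gq_mod _ (by omega)), ?_⟩
  rw [card_fib (c := gq (Fintype.card F) 3) (Fl.hi (a := 1)) fun B : Sub F V 3 => by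
    rw [card_hi B (s := ups ⊥ B.1) fun A => by rw [mem_ups, SNG.covBy_iff]; simp [and_comm], cnt_up bot_le,
      finrank_bot, B.2, Nat.sub_zero]]
  exact h4.mul (card_gq_mod _ (by omega))


end Cfsg.Agent.RK3
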