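import Cfsg.Agent.RK3.Defs

/-! Project RK3 (notes/RK3.md, section DC). -/

set_option autoImplicit false
set_option linter.unusedSectionVars false

namespace Cfsg.Agent.RK3

open MulAction Module Submodule

variable {G : Type*} [Group G] [Fintype G]

/-- the orbit of a point -/
def dcQ (L : Subgroup G) {Y : Type*} [MulAction G Y] (y : Y) : orbitRel.Quotient L Y := Quotient.mk _ y

theorem dc_eq {L : Subgroup G} {Y : Type*} [MulAction G Y] {y y' : Y} :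
    dcQ L y = dcQ L y' ↔ ∃ k ∈ L, k • y = y' := by
  rw [eq_comm]
  exact Quotient.eq.trans ⟨fun ⟨k, e⟩ => ⟨k, k.2, e⟩, fun ⟨k, hk, e⟩ => ⟨⟨k, hk⟩, e⟩⟩

theorem dc_sur (L : Subgroup G) (Y : Type*) [MulAction G Y] : Function.Surjective (dcQ L : Y → _) :=
  Quotient.mk_surjective

theorem nO_pos (L : Subgroup G) (Y : Type*) [MulAction G Y] [Finite Y] [Nonempty Y] : 0 < nO L Y := by
  have : Nonempty (orbitRel.Quotient L Y) := Nonempty.map (dcQ L) ‹_›
  exact Nat.card_pos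

theorem rel_of_lt {L : Subgroup G} {Y : Type*} [MulAction G Y] [Finite Y] {m : ℕ} (f : Fin m → Y)
    (h : nO L Y < m) : ∃ i j, i ≠ j ∧ ∃ k ∈ L, k • f i = f j := by
  by_contra! k
  have := Nat.card_le_card_of_injective (fun i => dcQ L (f i)) fun i j e => by
    by_contra c
    obtain ⟨a, ha, e'⟩ := dc_eq.1 e
    exact k i j c a ha e'
  rw [Nat.card_fin] at this
  exact absurd h (not_lt.2 this)

theorem nO_one {L : Subgroup G} {Y : Type*} [MulAction G Y] (h : nO L Y = 1) (y y' : Y) :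
    ∃ k ∈ L, k • y = y' := by
  exact dc_eq.1 ((Nat.card_eq_one_iff_unique.1 h).1.elim _ _)

theorem nO_eq_one {L : Subgroup G} {Y : Type*} [MulAction G Y] [Nonempty Y]
    (h : ∀ y y' : Y, ∃ k ∈ L, k • y = y') : nO L Y = 1 := by
  refine Nat.card_eq_one_iff_unique.2 ⟨⟨fun a b => ?_⟩, Nonempty.map (dcQ L) ‹_›⟩
  obtain ⟨a, rfl⟩ := dc_sur L Y a
  obtain ⟨b, rfl⟩ := dc_sur L Y b
  exact dc_eq.2 (h a b)

theorem le_nO_of_inv {L : Subgroup G} {Y α : Type*} [MulAction G Y] [Finite Y] (I : Y → α)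
    (hI : ∀ k ∈ L, ∀ y, I (k • y) = I y) : (Set.range I).ncard ≤ nO L Y := by
  refine Nat.card_le_card_of_surjective (fun q : orbitRel.Quotient L Y => (⟨I q.out, _, rfl⟩ : Set.range I)) ?_
  rintro ⟨_, y, rfl⟩
  obtain ⟨k, hk, e⟩ := dc_eq.1 (show dcQ L (dcQ L y).out = dcQ L y from Quotient.out_eq _)
  exact ⟨dcQ L y, Subtype.ext ((hI k hk _).symm.trans (congrArg I e))⟩

theorem nO_eq_of_inv {L : Subgroup G} {Y α : Type*} [MulAction G Y] (I : Y → α)
    (hI : ∀ y y', I y = I y' ↔ ∃ k ∈ L, k • y = y') : nO L Y = (Set.range I).ncard := by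
  have o : ∀ q : orbitRel.Quotient L Y, dcQ L q.out = q := Quotient.out_eq
  refine Nat.card_congr (Equiv.ofBijective
    (fun q : orbitRel.Quotient L Y => (⟨I q.out, _, rfl⟩ : Set.range I)) ⟨fun a b e => ?_, ?_⟩)
  · rw [← o a, ← o b]
    exact dc_eq.2 ((hI _ _).1 (congrArg Subtype.val e))
  · rintro ⟨_, y, rfl⟩
    exact ⟨dcQ L y, Subtype.ext ((hI _ _).2 (dc_eq.1 (o _)))⟩

theorem reps {L : Subgroup G} {Y : Type*} [MulAction G Y] [Finite Y] {m : ℕ} (h : nO L Y = m) :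
    ∃ f : Fin m → Y, (∀ y, ∃ i, ∃ k ∈ L, k • f i = y) ∧ ∀ i j, (∃ k ∈ L, k • f i = f j) → i = j := by
  have o : ∀ q : orbitRel.Quotient L Y, dcQ L q.out = q := Quotient.out_eq
  let e : orbitRel.Quotient L Y ≃ Fin m := Finite.equivFinOfCardEq h
  refine ⟨fun i => (e.symm i).out, fun y => ⟨e (dcQ L y), dc_eq.1 ?_⟩, fun i j k => e.symm.injective ?_⟩
  · rw [o, e.symm_apply_apply]
  · rw [← o (e.symm i), ← o (e.symm j)]
    exact dc_eq.2 k

theorem nO_eq_of_reps {L : Subgroup G} {Y : Type*} [MulAction G Y] {m : ℕ} (f : Fin m → Y)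
    (h1 : ∀ y, ∃ i, ∃ k ∈ L, k • f i = y) (h2 : ∀ i j, (∃ k ∈ L, k • f i = f j) → i = j) :
    nO L Y = m := by
  rw [← Nat.card_fin m]
  refine (Nat.card_congr (Equiv.ofBijective (fun i => dcQ L (f i)) ⟨fun i j e => h2 i j (dc_eq.1 e), fun q => ?_⟩)).symm
  obtain ⟨y, rfl⟩ := dc_sur L Y q
  exact (h1 y).imp fun i k => dc_eq.2 k

theorem nO_le_of_cover {L : Subgroup G} {Y : Type*} [MulAction G Y] {m : ℕ} (f : Fin m → Y)
    (h1 : ∀ y, ∃ i, ∃ k ∈ L, k • f i = y) : nO L Y ≤ m := by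
  conv_rhs => rw [← Nat.card_fin m]
  refine Nat.card_le_card_of_surjective (fun i => dcQ L (f i)) fun q => ?_
  obtain ⟨y, rfl⟩ := dc_sur L Y q
  exact (h1 y).imp fun i k => dc_eq.2 k

theorem orb_eq_of_nO {A B : Subgroup G} {Y : Type*} [MulAction G Y] [Finite Y] (h : A ≤ B)
    (e : nO A Y = nO B Y) : ∀ y : Y, ∀ g ∈ B, ∃ a ∈ A, g • y = a • y := by
  intro y g hg
  have o : ∀ q : orbitRel.Quotient A Y, dcQ A q.out = q := Quotient.out_eq
  have k : ∀ y : Y, dcQ B (dcQ A y).out = dcQ B y := fun y =>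
    let ⟨a, ha, e⟩ := dc_eq.1 (o (dcQ A y))
    dc_eq.2 ⟨a, h ha, e⟩
  have s : Function.Surjective fun q : orbitRel.Quotient A Y => dcQ B q.out := fun q => by
    obtain ⟨y, rfl⟩ := dc_sur B Y q
    exact ⟨dcQ A y, k y⟩
  have i := ((Nat.bijective_iff_surjective_and_card _).2 ⟨s, e⟩).1
  obtain ⟨a, ha, e'⟩ := dc_eq.1 (i (a₁ := dcQ A y) (a₂ := dcQ A (g • y))
    ((k y).trans ((dc_eq.2 ⟨g, hg, rfl⟩).trans (k _).symm)))
  exact ⟨a, ha, e'.symm⟩

theorem dc_I {X : Type*} [MulAction G X] {x₀ : X} (I : G → ℕ)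
    (hI : ∀ k ∈ stabilizer G x₀, ∀ g, I (k * g) = I g ∧ I (g * k) = I g) {a b : G}
    (h : ∃ k ∈ stabilizer G x₀, k • a • x₀ = b • x₀) : I a = I b := by
  obtain ⟨k, hk, e⟩ := h
  have m : b⁻¹ * (k * a) ∈ stabilizer G x₀ := by
    rw [mem_stabilizer_iff, mul_smul, mul_smul, e, inv_smul_smul]
  rw [← (hI k hk a).1, ← (hI _ m b).2, mul_inv_cancel_left]

theorem dc4 {X : Type*} [MulAction G X] [Finite X] {x₀ : X} (h3 : nO (stabilizer G x₀) X = 3)
    (I : G → ℕ) (hI : ∀ k ∈ stabilizer G x₀, ∀ g, I (k * g) = I g ∧ I (g * k) = I g)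
    (g : Fin 4 → G) : ¬ Function.Injective fun i => I (g i) := by
  intro i
  obtain ⟨a, b, ab, k⟩ := rel_of_lt (fun i => g i • x₀) (h3.trans_lt (by norm_num))
  exact ab (i (dc_I I hI k))

theorem dc3 {X : Type*} [MulAction G X] [Finite X] {x₀ : X} (h3 : nO (stabilizer G x₀) X = 3)
    (I : G → ℕ) (hI : ∀ k ∈ stabilizer G x₀, ∀ g, I (k * g) = I g ∧ I (g * k) = I g)
    (g : Fin 3 → G) (hg : Function.Injective fun i => I (g i)) (x : X) :
    ∃ i, ∃ k ∈ stabilizer G x₀, x = k • g i • x₀ := by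
  obtain ⟨a, b, ab, k, hk, e⟩ := rel_of_lt (Fin.cons x fun i => g i • x₀ : Fin 4 → X) (h3.trans_lt (by norm_num))
  revert ab e
  refine Fin.cases ?_ (fun a => ?_) a <;> refine Fin.cases ?_ (fun b => ?_) b <;> intro ab e
  · exact absurd rfl ab
  · exact ⟨b, k⁻¹, inv_mem hk, eq_inv_smul_iff.2 e⟩
  · exact ⟨a, k, hk, e.symm⟩
  · exact absurd (congrArg Fin.succ (hg (dc_I I hI ⟨k, hk, e⟩))) ab

theorem pI_inv {F : Type*} [Field F] {V : Type*} [AddCommGroup V] [Module F V]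
    {K : Subgroup (Gm F V)} {W : V → Submodule F V} (h : Eqv K W) :
    ∀ k ∈ K, ∀ g, pI W (k * g) = pI W g ∧ pI W (g * k) = pI W g := by
  intro k hk g
  have e : ∀ a b : V, k • b ∈ W (k • a) ↔ b ∈ W a := fun a b =>
    ⟨fun m => by simpa using h k⁻¹ (inv_mem hk) _ _ m, h k hk a b⟩
  refine ⟨congrArg Set.ncard (Set.ext fun x => by simp only [Set.mem_setOf_eq, mul_smul, e]), ?_⟩
  rw [pI, pI, ← Set.ncard_image_of_injective _ (MulAction.injective k)]
  refine congrArg Set.ncard (Set.ext fun x => ?_)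
  obtain ⟨x, rfl⟩ := MulAction.surjective k x
  rw [(MulAction.injective k).mem_set_image]
  simp only [Set.mem_setOf_eq, mul_smul]
  refine and_congr ⟨fun c => SNG.smul_ne c, fun c z => c (by rw [z, smul_zero])⟩ ⟨fun c v => ?_, fun c v => ?_⟩
  · obtain ⟨v, rfl⟩ := MulAction.surjective k v
    rw [e, c]
  · rw [← c, e]


end Cfsg.Agent.RK3
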