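import Cfsg.Agent.RK3.Ext

/-! Project RK3 (notes/RK3.md, section GramA). -/

set_option autoImplicit false
set_option linter.unusedSectionVars false

namespace Cfsg.Agent.RK3

open MulAction Module Submodule

variable {F : Type*} [Field F] [Fintype F] {V : Type*} [AddCommGroup V] [Module F V] [Finite V]

theorem gramA_cpl {R P : Submodule F V} (h : R ≤ P) {s : ℕ} (hs : finrank F P = finrank F R + s) :
    ∃ u : Fin s → V, (∀ k, u k ∈ P) ∧ P ≤ R ⊔ span F (Set.range u) := by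
  obtain ⟨Q, hQ⟩ := R.exists_isCompl
  have e1 : R ⊔ Q ⊓ P = P := by
    rw [← sup_inf_assoc_of_le _ h, hQ.sup_eq_top, top_inf_eq]
  have e2 : R ⊓ (Q ⊓ P) = ⊥ := by rw [← inf_assoc, hQ.inf_eq_bot, bot_inf_eq]
  have e3 := finrank_sup_add_finrank_inf_eq R (Q ⊓ P)
  rw [e1, e2, finrank_bot, hs] at e3
  let b := finBasisOfFinrankEq F (Q ⊓ P : Submodule F V) (n := s) (by omega)
  refine ⟨fun k => (b k : V), fun k => (b k).2.2, ?_⟩
  have e4 : span F (Set.range fun k => (b k : V)) = Q ⊓ P := by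
    have := congrArg (Submodule.map (Q ⊓ P).subtype) b.span_eq
    rw [map_span, map_subtype_top, ← Set.range_comp] at this
    exact this
  rw [e4, e1]

/-- the sizes of the cells -/
def gramA_sz (d : ℕ → ℕ → ℕ) (c : Fin 3 × Fin 3) : ℕ :=
  d (c.1 + 1) (c.2 + 1) + d c.1 c.2 - (d c.1 (c.2 + 1) + d (c.1 + 1) c.2)

theorem gramA_basis (S T : ℕ → Submodule F V) (hS : ∀ i, S i ≤ S (i + 1)) (hT : ∀ i, T i ≤ T (i + 1))
    (S0 : S 0 = ⊥) (T0 : T 0 = ⊥) (S3 : S 3 = ⊤) (T3 : T 3 = ⊤) (d : ℕ → ℕ → ℕ)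
    (hd : ∀ i j, finrank F (S i ⊓ T j : Submodule F V) = d i j) :
    ∃ u : (Σ c : Fin 3 × Fin 3, Fin (gramA_sz d c)) → V, LinearIndependent F u ∧
      (∀ k, u k ∈ S (k.1.1 + 1) ⊓ T (k.1.2 + 1)) ∧
      ∀ Q : ℕ → ℕ → Submodule F V, (∀ i j, Q i (j + 1) ≤ Q (i + 1) (j + 1)) →
        (∀ i j, Q (i + 1) j ≤ Q (i + 1) (j + 1)) → (∀ k, u k ∈ Q (k.1.1 + 1) (k.1.2 + 1)) →
        ∀ i ≤ 3, ∀ j ≤ 3, S i ⊓ T j ≤ Q i j := by
  have hR : ∀ i j, S i ⊓ T (j + 1) ⊔ S (i + 1) ⊓ T j ≤ S (i + 1) ⊓ T (j + 1) := fun i j =>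
    sup_le (inf_le_inf_right _ (hS i)) (inf_le_inf_left _ (hT j))
  have hI : ∀ i j, finrank F (S i ⊓ T (j + 1) ⊔ S (i + 1) ⊓ T j : Submodule F V) + d i j =
      d i (j + 1) + d (i + 1) j := fun i j => by
    have e : (S i ⊓ T (j + 1)) ⊓ (S (i + 1) ⊓ T j) = S i ⊓ T j := by
      rw [inf_inf_inf_comm, inf_eq_left.2 (hS i), inf_eq_right.2 (hT j)]
    have := finrank_sup_add_finrank_inf_eq (S i ⊓ T (j + 1)) (S (i + 1) ⊓ T j)
    rwa [e, hd, hd, hd] at this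
  have hL : ∀ i j, d i (j + 1) + d (i + 1) j ≤ d (i + 1) (j + 1) + d i j := fun i j => by
    have := finrank_mono (hR i j)
    rw [hd] at this
    have := hI i j
    omega
  have hc : ∀ c : Fin 3 × Fin 3, ∃ u : Fin (gramA_sz d c) → V,
      (∀ k, u k ∈ S (c.1 + 1) ⊓ T (c.2 + 1)) ∧ S (c.1 + 1) ⊓ T (c.2 + 1) ≤
        (S c.1 ⊓ T (c.2 + 1) ⊔ S (c.1 + 1) ⊓ T c.2) ⊔ span F (Set.range u) := fun c =>
    gramA_cpl (hR c.1 c.2) (by
      have := hI c.1 c.2
      have := hL c.1 c.2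
      rw [hd, gramA_sz]
      omega)
  choose u hu hu' using hc
  have key : ∀ Q : ℕ → ℕ → Submodule F V, (∀ i j, Q i (j + 1) ≤ Q (i + 1) (j + 1)) →
      (∀ i j, Q (i + 1) j ≤ Q (i + 1) (j + 1)) →
      (∀ k : Σ c : Fin 3 × Fin 3, Fin (gramA_sz d c), u k.1 k.2 ∈ Q (k.1.1 + 1) (k.1.2 + 1)) →
      ∀ i ≤ 3, ∀ j ≤ 3, S i ⊓ T j ≤ Q i j := by
    intro Q q1 q2 q3 i
    induction i with
    | zero => intro _ j _; rw [S0, bot_inf_eq]; exact bot_le
    | succ i ih =>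
      intro hi j
      induction j with
      | zero => intro _; rw [T0, inf_bot_eq]; exact bot_le
      | succ j ih' =>
        intro hj
        refine (hu' (⟨i, by omega⟩, ⟨j, by omega⟩)).trans (sup_le (sup_le ?_ ?_) ?_)
        · exact (ih (by omega) (j + 1) hj).trans (q1 i j)
        · exact (ih' (by omega)).trans (q2 i j)
        · rw [span_le]
          rintro _ ⟨k, rfl⟩
          exact q3 ⟨(⟨i, by omega⟩, ⟨j, by omega⟩), k⟩
  refine ⟨fun k => u k.1 k.2, ?_, fun k => hu k.1 k.2, key⟩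
  refine linearIndependent_of_top_le_span_of_card_eq_finrank ?_ ?_
  · have := key (fun _ _ => span F (Set.range fun k : Σ c : Fin 3 × Fin 3, Fin (gramA_sz d c) =>
      u k.1 k.2)) (fun _ _ => le_rfl) (fun _ _ => le_rfl) (fun k => subset_span ⟨k, rfl⟩) 3 le_rfl 3 le_rfl
    rwa [S3, T3, top_inf_eq] at this
  · have z1 : ∀ j, d 0 j = 0 := fun j => by rw [← hd, S0, bot_inf_eq, finrank_bot]
    have z2 : ∀ j, d j 0 = 0 := fun j => by rw [← hd, T0, inf_bot_eq, finrank_bot]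
    have z3 : d 3 3 = finrank F V := by rw [← hd, S3, T3, top_inf_eq, finrank_top]
    have := hL 0 0
    have := hL 0 1
    have := hL 0 2
    have := hL 1 0
    have := hL 1 1
    have := hL 1 2
    have := hL 2 0
    have := hL 2 1
    have := hL 2 2
    rw [Fintype.card_sigma]
    simp only [Fintype.card_fin]
    simp only [Fintype.sum_prod_type, Fin.sum_univ_three,
      gramA_sz, Fin.val_zero, Fin.val_one, Fin.val_two, ← z3, Nat.reduceAdd, z1, z2] at *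
    omega

/-- a flag as a chain -/
def gramA_ch (A B : Submodule F V) : ℕ → Submodule F V
  | 0 => ⊥
  | 1 => A
  | 2 => B
  | _ + 3 => ⊤

theorem gramA_mono {A B : Submodule F V} (h : A ≤ B) : ∀ i, gramA_ch A B i ≤ gramA_ch A B (i + 1)
  | 0 => bot_le
  | 1 => h
  | 2 => le_top
  | _ + 3 => le_top

theorem gramA {a b c d : ℕ} {x x' : Fl F V a b} {y y' : Fl F V c d} (h : tab x y = tab x' y') :
    ∃ g : Gm F V, g • x = x' ∧ g • y = y' := by
  obtain ⟨⟨A, B⟩, hAB, hA, hB⟩ := x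
  obtain ⟨⟨A', B'⟩, hAB', hA', hB'⟩ := x'
  obtain ⟨⟨C, D⟩, hCD, hC, hD⟩ := y
  obtain ⟨⟨C', D'⟩, hCD', hC', hD'⟩ := y'
  simp only [tab, Prod.mk.injEq] at h hAB hA hB hAB' hA' hB' hCD hC hD hCD' hC' hD'
  obtain ⟨h1, h2, h3, h4⟩ := h
  have hd : ∀ i j, finrank F (gramA_ch A' B' i ⊓ gramA_ch C' D' j : Submodule F V) =
      finrank F (gramA_ch A B i ⊓ gramA_ch C D j : Submodule F V) := by
    have l1 : ∀ X : Submodule F V, finrank F (⊥ ⊓ X : Submodule F V) = 0 := fun X => by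
      rw [bot_inf_eq, finrank_bot]
    have l2 : ∀ X : Submodule F V, finrank F (X ⊓ ⊥ : Submodule F V) = 0 := fun X => by
      rw [inf_bot_eq, finrank_bot]
    have l3 : ∀ X : Submodule F V, finrank F (⊤ ⊓ X : Submodule F V) = finrank F X := fun X => by
      rw [top_inf_eq]
    have l4 : ∀ X : Submodule F V, finrank F (X ⊓ ⊤ : Submodule F V) = finrank F X := fun X => by
      rw [inf_top_eq]
    intro i j
    match i, j with
    | 0, _ => exact (l1 _).trans (l1 _).symm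
    | _, 0 => exact (l2 _).trans (l2 _).symm
    | 1, 1 => exact h1.symm
    | 1, 2 => exact h2.symm
    | 2, 1 => exact h3.symm
    | 2, 2 => exact h4.symm
    | 1, _ + 3 => exact ((l4 _).trans hA').trans ((l4 _).trans hA).symm
    | 2, _ + 3 => exact ((l4 _).trans hB').trans ((l4 _).trans hB).symm
    | _ + 3, 1 => exact ((l3 _).trans hC').trans ((l3 _).trans hC).symm
    | _ + 3, 2 => exact ((l3 _).trans hD').trans ((l3 _).trans hD).symm
    | _ + 3, _ + 3 => rfl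
  obtain ⟨u, hu, -, k⟩ := gramA_basis (gramA_ch A B) (gramA_ch C D) (gramA_mono hAB)
    (gramA_mono hCD) rfl rfl rfl rfl _ fun _ _ => rfl
  obtain ⟨w, hw, m, -⟩ := gramA_basis (gramA_ch A' B') (gramA_ch C' D') (gramA_mono hAB')
    (gramA_mono hCD') rfl rfl rfl rfl _ hd
  obtain ⟨g, hg⟩ : ∃ g : Gm F V, ∀ i, ∃ t : F, g • u i = t • w i := by
    rcases isEmpty_or_nonempty (Σ c : Fin 3 × Fin 3, Fin (gramA_sz (fun i j =>
      finrank F (gramA_ch A B i ⊓ gramA_ch C D j : Submodule F V)) c)) with e | ⟨⟨i₀⟩⟩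
    · exact ⟨1, fun i => e.elim i⟩
    · obtain ⟨g, t, -, e1, e2⟩ := ext3 hu hw i₀
      refine ⟨g, fun i => ?_⟩
      by_cases e : i = i₀
      · exact ⟨t, e ▸ e1⟩
      · exact ⟨1, by rw [e2 i e, one_smul]⟩
  have key := k (fun i j => (gramA_ch A' B' i ⊓ gramA_ch C' D' j).comap
      ((g : V ≃ₗ[F] V) : V →ₗ[F] V))
    (fun i j => comap_mono (inf_le_inf_right _ (gramA_mono hAB' i)))
    (fun i j => comap_mono (inf_le_inf_left _ (gramA_mono hCD' j)))
    (fun i => by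
      obtain ⟨t, ht⟩ := hg i
      have := smul_mem _ t (m i)
      rw [← ht] at this
      exact this)
  refine ⟨g, fl_smul_eq.2 ⟨?_, ?_⟩, fl_smul_eq.2 ⟨?_, ?_⟩⟩
  · exact im_eq_of_le (fun v hv => (key 1 (by omega) 3 le_rfl ⟨hv, trivial⟩).1) (hA'.trans hA.symm).le
  · exact im_eq_of_le (fun v hv => (key 2 (by omega) 3 le_rfl ⟨hv, trivial⟩).1) (hB'.trans hB.symm).le
  · exact im_eq_of_le (fun v hv => (key 3 le_rfl 1 (by omega) ⟨trivial, hv⟩).2) (hC'.trans hC.symm).le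
  · exact im_eq_of_le (fun v hv => (key 3 le_rfl 2 (by omega) ⟨trivial, hv⟩).2) (hD'.trans hD.symm).le


end Cfsg.Agent.RK3
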