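import Cfsg.Agent.RK3.Defs

/-! Project RK3 (notes/RK3.md, section GramB). -/

set_option autoImplicit false
set_option linter.unusedSectionVars false

namespace Cfsg.Agent.RK3

open MulAction Module Submodule

variable {F : Type*} [Field F] [Fintype F] {V : Type*} [AddCommGroup V] [Module F V] [Finite V]

theorem tab_smul {a b c d : ℕ} (g : Gm F V) (x : Fl F V a b) (y : Fl F V c d) :
    tab (g • x) (g • y) = tab x y := by
  have key : ∀ A B : Submodule F V,
      finrank F (im g A ⊓ im g B : Submodule F V) = finrank F (A ⊓ B : Submodule F V) := by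
    intro A B; rw [← im_inf, rk_im]
  exact Prod.ext (key _ _) (Prod.ext (key _ _) (Prod.ext (key _ _) (key _ _)))

theorem tabOK_tab {a b c d : ℕ} (x : Fl F V a b) (y : Fl F V c d) :
    TabOK (finrank F V) a b c d (tab x y) := by
  have : Module.Finite F V := Module.Finite.of_finite
  obtain ⟨⟨A, B⟩, hAB, hA, hB⟩ := x
  obtain ⟨⟨C, D⟩, hCD, hC, hD⟩ := y
  simp only at hAB hA hB hCD hC hD
  subst hA hB hC hD
  change TabOK (finrank F V) (finrank F A) (finrank F B) (finrank F C) (finrank F D)
    (finrank F (A ⊓ C : Submodule F V), finrank F (A ⊓ D : Submodule F V),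
      finrank F (B ⊓ C : Submodule F V), finrank F (B ⊓ D : Submodule F V))
  simp only [TabOK]
  have key : ∀ P Q R S : Submodule F V, P ⊔ Q ≤ R → P ⊓ Q ≤ S →
      finrank F P + finrank F Q ≤ finrank F R + finrank F S := by
    intro P Q R S h1 h2
    rw [← finrank_sup_add_finrank_inf_eq]
    exact add_le_add (finrank_mono h1) (finrank_mono h2)
  refine ⟨finrank_mono (inf_le_inf_left _ hCD), finrank_mono inf_le_left,
    finrank_mono (inf_le_inf_right _ hAB), ?_, ?_, finrank_mono inf_le_right, ?_, ?_⟩
  · exact key _ _ _ _ (sup_le (inf_le_inf_right _ hAB) (inf_le_inf_left _ hCD))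
      (le_inf (inf_le_left.trans inf_le_left) (inf_le_right.trans inf_le_right))
  · exact key _ _ _ _ (sup_le inf_le_left hAB)
      (le_inf inf_le_right (inf_le_left.trans inf_le_right))
  · exact key _ _ _ _ (sup_le hCD inf_le_right)
      (le_inf (inf_le_right.trans inf_le_left) inf_le_left)
  · rw [← finrank_top F V]
    exact key _ _ _ _ le_top le_rfl

/-- span of the basis vectors with index in `S` -/
noncomputable def gramB_E {n : ℕ} (e : Basis (Fin n) F V) (S : Finset ℕ) : Submodule F V :=
  span F (e '' {x : Fin n | x.val ∈ S})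

theorem gramB_mem {n : ℕ} (e : Basis (Fin n) F V) (S : Finset ℕ) (v : V) :
    v ∈ gramB_E e S ↔ ∀ x ∈ (e.repr v).support, x.val ∈ S := by
  unfold gramB_E
  rw [Basis.mem_span_image]
  exact Iff.rfl

theorem gramB_inf {n : ℕ} (e : Basis (Fin n) F V) (S T : Finset ℕ) :
    gramB_E e S ⊓ gramB_E e T = gramB_E e (S ∩ T) := by
  ext v
  simp only [mem_inf, gramB_mem, Finset.mem_inter]
  exact ⟨fun h x hx => ⟨h.1 x hx, h.2 x hx⟩, fun h => ⟨fun x hx => (h x hx).1, fun x hx => (h x hx).2⟩⟩

theorem gramB_mono {n : ℕ} (e : Basis (Fin n) F V) {S T : Finset ℕ} (h : S ⊆ T) :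
    gramB_E e S ≤ gramB_E e T := fun v hv =>
  (gramB_mem e T v).2 fun x hx => h ((gramB_mem e S v).1 hv x hx)

theorem gramB_rk {n : ℕ} (e : Basis (Fin n) F V) (S : Finset ℕ) (hS : ∀ s ∈ S, s < n) :
    finrank F (gramB_E e S) = S.card := by
  have li := e.linearIndependent.comp
    (Subtype.val : {x : Fin n // x ∈ S.attachFin hS} → Fin n) Subtype.val_injective
  have hr : Set.range (e ∘ (Subtype.val : {x : Fin n // x ∈ S.attachFin hS} → Fin n)) =
      e '' {x : Fin n | x.val ∈ S} := by
    rw [Set.range_comp, Subtype.range_coe_subtype]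
    congr 1
    ext x
    simp [Finset.mem_attachFin]
  have := finrank_span_eq_card li
  rw [hr] at this
  unfold gramB_E
  rw [this, Fintype.card_coe, Finset.card_attachFin]

theorem gramB_card3 {p q r s u : ℕ} (h1 : p ≤ q) (h2 : q ≤ r) (h3 : r ≤ s) :
    (Finset.range p ∪ Finset.Ico q r ∪ Finset.Ico s u).card = p + (r - q) + (u - s) := by
  rw [Finset.card_union_of_disjoint, Finset.card_union_of_disjoint]
  · simp
  · rw [Finset.disjoint_left]
    intro x hx hy
    simp only [Finset.mem_range, Finset.mem_Ico] at hx hy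
    omega
  · rw [Finset.disjoint_left]
    intro x hx hy
    simp only [Finset.mem_union, Finset.mem_range, Finset.mem_Ico] at hx hy
    omega

theorem gramB {a b c d : ℕ} {t : ℕ × ℕ × ℕ × ℕ} (h : TabOK (finrank F V) a b c d t) :
    ∃ (x : Fl F V a b) (y : Fl F V c d), tab x y = t := by
  have : Module.Finite F V := Module.Finite.of_finite
  obtain ⟨i, j, k, l⟩ := t
  simp only [TabOK] at h
  obtain ⟨h1, h2, h3, h4, h5, h6, h7, h8⟩ := h
  set n := finrank F V with hn
  let e : Basis (Fin n) F V := Module.finBasis F V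
  let IC : Finset ℕ := Finset.range i ∪ Finset.Ico a (a + (k - i)) ∪ Finset.Ico b (b + (c - k))
  let ID : Finset ℕ := Finset.range j ∪ Finset.Ico a (a + (l - j)) ∪ Finset.Ico b (b + (d - l))
  have mC : ∀ s, s ∈ IC ↔ (s < i ∨ (a ≤ s ∧ s < a + (k - i))) ∨ (b ≤ s ∧ s < b + (c - k)) := by
    intro s; simp only [IC, Finset.mem_union, Finset.mem_range, Finset.mem_Ico]
  have mD : ∀ s, s ∈ ID ↔ (s < j ∨ (a ≤ s ∧ s < a + (l - j))) ∨ (b ≤ s ∧ s < b + (d - l)) := by
    intro s; simp only [ID, Finset.mem_union, Finset.mem_range, Finset.mem_Ico]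
  have rA : finrank F (gramB_E e (Finset.range a)) = a := by
    rw [gramB_rk, Finset.card_range]
    intro s hs; rw [Finset.mem_range] at hs; omega
  have rB : finrank F (gramB_E e (Finset.range b)) = b := by
    rw [gramB_rk, Finset.card_range]
    intro s hs; rw [Finset.mem_range] at hs; omega
  have rC : finrank F (gramB_E e IC) = c := by
    rw [gramB_rk]
    · rw [gramB_card3 (by omega) (by omega) (by omega)]; omega
    · intro s hs; rw [mC] at hs; omega
  have rD : finrank F (gramB_E e ID) = d := by
    rw [gramB_rk]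
    · rw [gramB_card3 (by omega) (by omega) (by omega)]; omega
    · intro s hs; rw [mD] at hs; omega
  have sAB : Finset.range a ⊆ Finset.range b := by
    intro s hs; rw [Finset.mem_range] at hs ⊢; omega
  have sCD : IC ⊆ ID := by
    intro s hs; rw [mC] at hs; rw [mD]; omega
  have e1 : Finset.range a ∩ IC = Finset.range i := by
    ext s; rw [Finset.mem_inter, mC, Finset.mem_range, Finset.mem_range]; omega
  have e2 : Finset.range a ∩ ID = Finset.range j := by
    ext s; rw [Finset.mem_inter, mD, Finset.mem_range, Finset.mem_range]; omega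
  have e3 : Finset.range b ∩ IC =
      Finset.range i ∪ Finset.Ico a (a + (k - i)) ∪ Finset.Ico b b := by
    ext s
    simp only [Finset.mem_inter, mC, Finset.mem_union, Finset.mem_range, Finset.mem_Ico]; omega
  have e4 : Finset.range b ∩ ID =
      Finset.range j ∪ Finset.Ico a (a + (l - j)) ∪ Finset.Ico b b := by
    ext s
    simp only [Finset.mem_inter, mD, Finset.mem_union, Finset.mem_range, Finset.mem_Ico]; omega
  have f1 : finrank F (gramB_E e (Finset.range a) ⊓ gramB_E e IC : Submodule F V) = i := by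
    rw [gramB_inf, e1, gramB_rk, Finset.card_range]
    intro s hs; rw [Finset.mem_range] at hs; omega
  have f2 : finrank F (gramB_E e (Finset.range a) ⊓ gramB_E e ID : Submodule F V) = j := by
    rw [gramB_inf, e2, gramB_rk, Finset.card_range]
    intro s hs; rw [Finset.mem_range] at hs; omega
  have f3 : finrank F (gramB_E e (Finset.range b) ⊓ gramB_E e IC : Submodule F V) = k := by
    rw [gramB_inf, e3, gramB_rk]
    · rw [gramB_card3 (by omega) (by omega) (by omega)]; omega
    · intro s hs
      simp only [Finset.mem_union, Finset.mem_range, Finset.mem_Ico] at hs; omega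
  have f4 : finrank F (gramB_E e (Finset.range b) ⊓ gramB_E e ID : Submodule F V) = l := by
    rw [gramB_inf, e4, gramB_rk]
    · rw [gramB_card3 (by omega) (by omega) (by omega)]; omega
    · intro s hs
      simp only [Finset.mem_union, Finset.mem_range, Finset.mem_Ico] at hs; omega
  exact ⟨⟨(gramB_E e (Finset.range a), gramB_E e (Finset.range b)), gramB_mono e sAB, rA, rB⟩,
    ⟨(gramB_E e IC, gramB_E e ID), gramB_mono e sCD, rC, rD⟩,
    Prod.ext f1 (Prod.ext f2 (Prod.ext f3 f4))⟩


end Cfsg.Agent.RK3
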