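import Cfsg.Agent.RK3.Inn
import Cfsg.Agent.RK3.DC
import Cfsg.Agent.RK3.GramA
import Cfsg.Agent.RK3.GramB

/-! Project RK3 (notes/RK3.md, section GramC). -/

set_option autoImplicit false
set_option linter.unusedSectionVars false

namespace Cfsg.Agent.RK3

open MulAction Module Submodule

variable {F : Type*} [Field F] [Fintype F] {V : Type*} [AddCommGroup V] [Module F V] [Finite V]

theorem pc_sub (d : ℕ) : (pc (Sub F V d) : Gm F V → ℚ) = pc (Fl F V 0 d) := by
  refine pc_congr ⟨fun A => ⟨(⊥, A.1), bot_le, finrank_bot F V, A.2⟩, Fl.hi, fun _ => rfl, fun x => ?_⟩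
    fun g A => ?_
  · exact Subtype.ext (Prod.ext (Submodule.finrank_eq_zero.1 x.2.2.1).symm rfl)
  · exact Subtype.ext (Prod.ext (Submodule.map_bot _).symm rfl)

theorem nO_fl (a b c d : ℕ) : nO (Gm F V) (Fl F V a b × Fl F V c d) =
    ((Finset.range (a + 1) ×ˢ Finset.range (a + 1) ×ˢ Finset.range (c + 1) ×ˢ
      Finset.range (b + 1)).filter (TabOK (finrank F V) a b c d)).card := by
  rw [← nO_top, nO_eq_of_inv (fun p : Fl F V a b × Fl F V c d => tab p.1 p.2), ← Set.ncard_coe_finset]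
  · congr 1
    ext t
    simp only [Set.mem_range, Finset.coe_filter, Finset.mem_product, Finset.mem_range, Set.mem_setOf_eq]
    constructor
    · rintro ⟨⟨x, y⟩, rfl⟩
      have h := tabOK_tab x y
      refine ⟨?_, h⟩
      obtain ⟨h1, h2, h3, h4, h5, h6, h7, h8⟩ := h
      refine ⟨?_, ?_, ?_, ?_⟩ <;> dsimp only <;> omega
    · rintro ⟨-, h⟩
      obtain ⟨x, y, e⟩ := gramB h
      exact ⟨(x, y), e⟩
  · rintro ⟨x, y⟩ ⟨x', y'⟩
    constructor
    · intro h
      obtain ⟨g, h1, h2⟩ := gramA h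
      exact ⟨g, trivial, Prod.ext h1 h2⟩
    · rintro ⟨g, -, e⟩
      have e1 : g • x = x' := congrArg Prod.fst e
      have e2 : g • y = y' := congrArg Prod.snd e
      rw [← e1, ← e2]
      exact (tab_smul g x y).symm

theorem gramC_one : (pc (Fl F V 0 0) : Gm F V → ℚ) = 1 := by
  funext g
  have hs : ∀ x y : Fl F V 0 0, x = y := fun x y => Subtype.ext (Prod.ext
    ((Submodule.finrank_eq_zero.1 x.2.2.1).trans (Submodule.finrank_eq_zero.1 y.2.2.1).symm)
    ((Submodule.finrank_eq_zero.1 x.2.2.2).trans (Submodule.finrank_eq_zero.1 y.2.2.2).symm))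
  have : Nat.card (fixedBy (Fl F V 0 0) g) = 1 := Nat.card_eq_one_iff_unique.2
    ⟨⟨fun x y => Subtype.ext (hs _ _)⟩, ⟨⟨⟨(⊥, ⊥), le_rfl, finrank_bot F V, finrank_bot F V⟩, hs _ _⟩⟩⟩
  rw [pc, this]; rfl

theorem gramC_sum {G ι : Type*} [Fintype G] (s : Finset ι) (f : ι → G → ℚ) (h : G → ℚ) :
    ip (∑ k ∈ s, f k) h = ∑ k ∈ s, ip (f k) h := by
  classical
  induction s using Finset.induction_on with
  | empty => simp [ip_zero_left]
  | insert a s ha ih => rw [Finset.sum_insert ha, Finset.sum_insert ha, ip_add_left, ih]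

/-- the six flag types -/
def gramC_ty : Fin 6 → ℕ × ℕ := ![(0, 0), (0, 1), (0, 2), (0, 3), (1, 2), (1, 3)]

/-- the coefficients of the five functions and of the constant function -/
def gramC_cf : Fin 6 → Fin 6 → ℤ :=
  ![![-1, 1, 0, 0, 0, 0], ![0, -1, 1, 0, 0, 0], ![1, -1, -1, 0, 1, 0], ![0, 0, -1, 1, 0, 0],
    ![0, 1, 0, -1, -1, 1], ![1, 0, 0, 0, 0, 0]]

/-- the number of tables -/
def gramC_N (n : ℕ) (s t : ℕ × ℕ) : ℕ :=
  ((Finset.range (s.1 + 1) ×ˢ Finset.range (s.1 + 1) ×ˢ Finset.range (t.1 + 1) ×ˢ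
      Finset.range (s.2 + 1)).filter (TabOK n s.1 s.2 t.1 t.2)).card

/-- the Gram matrix -/
def gramC_G (n : ℕ) (i j : Fin 6) : ℤ :=
  ∑ k, ∑ l, gramC_cf i k * (gramC_cf j l * gramC_N n (gramC_ty k) (gramC_ty l))

theorem gramC_five : ∀ i j, gramC_G 5 i j = if i = j ∧ i ≠ 3 then 1 else 0 := by decide +kernel

theorem gramC_six : ∀ i j, gramC_G 6 i j = if i = j then 1 else 0 := by decide +kernel

theorem gramC_big {n : ℕ} (h : 6 ≤ n) (i j : Fin 6) : gramC_G n i j = gramC_G 6 i j := by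
  have k : ∀ k, (gramC_ty k).2 ≤ 3 := by decide
  refine Finset.sum_congr rfl fun a _ => Finset.sum_congr rfl fun b _ => ?_
  have e : gramC_N n (gramC_ty a) (gramC_ty b) = gramC_N 6 (gramC_ty a) (gramC_ty b) := by
    refine congrArg Finset.card (Finset.filter_congr fun t _ => ?_)
    have ha := k a
    have hb := k b
    unfold TabOK
    omega
  rw [e]

variable (F V) in
/-- the combinations of permutation characters -/
noncomputable def gramC_c (i : Fin 6) : Gm F V → ℚ :=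
  ∑ k, (gramC_cf i k : ℚ) • pc (Fl F V (gramC_ty k).1 (gramC_ty k).2)

theorem gramC_ip (i j : Fin 6) : ip (gramC_c F V i) (gramC_c F V j) = gramC_G (finrank F V) i j := by
  rw [gramC_c, gramC_sum, gramC_G, Int.cast_sum]
  refine Finset.sum_congr rfl fun k _ => ?_
  rw [ip_smul_left, ip_comm, gramC_c, gramC_sum, Finset.mul_sum, Int.cast_sum]
  refine Finset.sum_congr rfl fun l _ => ?_
  rw [ip_smul_left, ip_comm, ip_pc_pc, nO_fl]
  push_cast
  rfl

theorem gramC_exp (i : Fin 6) : gramC_c F V i =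
    (gramC_cf i 0 : ℚ) • (1 : Gm F V → ℚ) + (gramC_cf i 1 : ℚ) • pc (Sub F V 1) + (gramC_cf i 2 : ℚ) • pc (Sub F V 2) +
      (gramC_cf i 3 : ℚ) • pc (Sub F V 3) + (gramC_cf i 4 : ℚ) • pc (Fl F V 1 2) +
      (gramC_cf i 5 : ℚ) • pc (Fl F V 1 3) := by
  rw [gramC_c, Fin.sum_univ_six, pc_sub, pc_sub, pc_sub, ← gramC_one]
  rfl

theorem gramC_last : gramC_c F V 5 = 1 := by
  rw [gramC_exp]
  simp [gramC_cf]

theorem gramC_rho (i : Fin 5) : rho F V i = gramC_c F V i.castSucc := by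
  rw [gramC_exp]
  fin_cases i <;> simp [gramC_cf, rho, r1, r2, r11, r3, r21] <;> abel

theorem gram (h5 : 5 ≤ finrank F V) : (∀ i, ip (rho F V i) 1 = 0) ∧
    (∀ i j, i ≠ j → ip (rho F V i) (rho F V j) = 0) ∧
    (∀ i, i ≠ 3 → ip (rho F V i) (rho F V i) = 1) ∧ (ip (r3 F V) (r3 F V) = 1 ∨ r3 F V = 0) := by
  have e3 : r3 F V = gramC_c F V 3 := gramC_rho 3
  have n5 : ∀ i : Fin 5, i.castSucc ≠ 5 := by decide
  have n3 : ∀ i : Fin 5, i ≠ 3 → i.castSucc ≠ 3 := by decide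
  rw [← gramC_last, e3]
  simp only [gramC_rho, gramC_ip]
  rcases h5.eq_or_lt with h | h
  · refine ⟨fun i => ?_, fun i j e => ?_, fun i e => ?_, .inr (eq_zero_of_ip ?_)⟩
    · rw [← h, gramC_five, if_neg fun k => n5 i k.1, Int.cast_zero]
    · rw [← h, gramC_five, if_neg fun k => e (Fin.castSucc_injective _ k.1), Int.cast_zero]
    · rw [← h, gramC_five, if_pos ⟨rfl, n3 i e⟩, Int.cast_one]
    · rw [gramC_ip, ← h, gramC_five, if_neg fun k => k.2 rfl, Int.cast_zero]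
  · simp only [gramC_big h, gramC_six]
    refine ⟨fun i => ?_, fun i j e => ?_, fun i _ => ?_, .inl ?_⟩
    · rw [if_neg (n5 i), Int.cast_zero]
    · rw [if_neg fun k => e (Fin.castSucc_injective _ k), Int.cast_zero]
    · simp
    · simp

end Cfsg.Agent.RK3
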