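import Cfsg.Agent.RK3.Inn
import Cfsg.Agent.RK3.DC
import Cfsg.Agent.RK3.Ext
import Cfsg.Agent.RK3.GramC
import Cfsg.Agent.RK3.Card

/-! Project RK3 (notes/RK3.md, section CharU). -/

set_option autoImplicit false
set_option linter.unusedSectionVars false

namespace Cfsg.Agent.RK3

open MulAction Module Submodule

variable {F : Type*} [Field F] [Fintype F] {V : Type*} [AddCommGroup V] [Module F V] [Finite V]
  {X : Type*} [MulAction (Gm F V) X] [Finite X] {x₀ : X} {K : Subgroup (Gm F V)}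

theorem phi_norm (h : R3 x₀ K) : ip (pc X - 1 : Gm F V → ℚ) (pc X - 1) = 2 ∧
    ip (pc X - 1 : Gm F V → ℚ) 1 = 0 := by
  have := h.tr
  have : Nonempty X := ⟨x₀⟩
  have e1 : ip (pc X : Gm F V → ℚ) 1 = 1 := by
    rw [ip_pc_one, ← nO_top, nO_eq_one fun y y' =>
      let ⟨g, e⟩ := exists_smul_eq (Gm F V) y y'; ⟨g, Subgroup.mem_top g, e⟩, Nat.cast_one]
  have e2 : ip (pc X : Gm F V → ℚ) (pc X) = 3 := by
    rw [ip_pc_pc, nO_prod X x₀, ← h.st, h.rk, Nat.cast_ofNat]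
  refine ⟨?_, by rw [ip_sub_left, e1, ip_one_one, sub_self]⟩
  rw [ip_sub_left, ip_sub_right, ip_sub_right, e1, e2, ip_comm 1 (pc X), e1, ip_one_one]
  norm_num

theorem ip_pc_nO (h : R3 x₀ K) (Y : Type*) [MulAction (Gm F V) Y] [Finite Y] :
    ip (pc X : Gm F V → ℚ) (pc Y) = nO K Y := by
  have := h.tr
  rw [ip_pc_pc, nO_prod Y x₀, ← h.st]

theorem charU (h : R3 x₀ K) (p : ℕ) [Fact p.Prime] [CharP F p] (hp : p ∣ Nat.card X) :
    (nO K (Sub F V 1) = 2 ∧ nO K (Fl F V 1 2) = 3) ∨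
    (nO K (Sub F V 1) = 1 ∧ nO K (Sub F V 2) = 1 ∧ nO K (Fl F V 1 2) = 2 ∧ nO K (Fl F V 1 3) = 2) ∨
    (nO K (Sub F V 1) = 1 ∧ ∃ c, (c = 1 ∨ c = 2) ∧ nO K (Sub F V 2) = c ∧ nO K (Fl F V 1 2) = c) := by
  obtain ⟨n2, n1⟩ := phi_norm h
  obtain ⟨g1, g2, g3, g4⟩ := gram (F := F) (V := V) h.n5
  have n5 := h.n5
  obtain ⟨c1, c2, c3, c4, c5⟩ := card_mod (F := F) (V := V) (by omega)
  have e1 : ip (pc X : Gm F V → ℚ) 1 = 1 := by
    rw [ip_sub_left, ip_one_one, sub_eq_zero] at n1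
    exact n1
  let a : Fin 5 → ℤ := ![(nO K (Sub F V 1) : ℤ) - 1, (nO K (Sub F V 2) : ℤ) - nO K (Sub F V 1),
    (nO K (Fl F V 1 2) : ℤ) - nO K (Sub F V 2) - nO K (Sub F V 1) + 1, (nO K (Sub F V 3) : ℤ) - nO K (Sub F V 2),
    (nO K (Fl F V 1 3) : ℤ) - nO K (Sub F V 3) - nO K (Fl F V 1 2) + nO K (Sub F V 1)]
  have ha : ∀ i, ip (pc X - 1 : Gm F V → ℚ) (rho F V i) = a i := fun i => by
    rw [ip_sub_left, ip_comm 1, g1, sub_zero]
    fin_cases i <;>
      simp [a, rho, r1, r2, r11, r3, r21, ip_sub_right, ip_add_right, ip_pc_nO h, e1]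
  have hq : (p : ℤ) ∣ Fintype.card F := Int.natCast_dvd_natCast.2 ((CharP.cast_eq_zero_iff F p _).1
    (FiniteField.cast_card_eq_zero F))
  have k : ∀ {n : ℕ}, n ≡ 1 [MOD Fintype.card F] → (p : ℤ) ∣ (n : ℤ) - 1 := fun e =>
    hq.trans (by simpa using e.symm.dvd)
  have hd : ∀ i, ∃ d : ℤ, (p : ℤ) ∣ d ∧ rho F V i 1 = d := fun i => by
    fin_cases i
    · exact ⟨_, k c1, by simp [rho, r1, pc_one]⟩
    · exact ⟨_, (k c2).sub (k c1), by simp [rho, r2, pc_one]⟩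
    · exact ⟨_, ((k c4).sub (k c2)).sub (k c1), by simp [rho, r11, pc_one]; ring⟩
    · exact ⟨_, (k c3).sub (k c2), by simp [rho, r3, pc_one]⟩
    · exact ⟨_, (((k c5).sub (k c3)).sub (k c4)).add (k c1), by simp [rho, r21, pc_one]; ring⟩
  have nm : ∀ i, a i ≠ 0 → ip (rho F V i) (rho F V i) = 1 := fun i hi => by
    by_cases e : i = 3
    · subst e
      refine g4.resolve_right fun e => hi ?_
      have := ha 3
      rw [show rho F V 3 = r3 F V from rfl, e, ip_zero_right] at this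
      exact_mod_cast this.symm
    · exact g3 i e
  have b1 : ∀ i, a i = 0 ∨ a i = 1 ∨ a i = -1 := fun i => by
    by_cases e : a i = 0
    · exact Or.inl e
    · exact bes1 n2 (nm i e) (ha i)
  have b2 : ∀ i j, i ≠ j → a i = 0 ∨ a j = 0 := fun i j ij => by
    by_contra! e
    have e2 := congrFun (bes2 n2 (nm i e.1) (nm j e.2) (g2 i j ij) (ha i) (ha j) e.1 e.2) 1
    obtain ⟨d, hd1, e3⟩ := hd i
    obtain ⟨d', hd2, e4⟩ := hd j
    simp only [Pi.sub_apply, Pi.add_apply, Pi.smul_apply, Pi.one_apply, smul_eq_mul, pc_one, e3, e4] at e2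
    have e5 : (Nat.card X : ℤ) - 1 = a i * d + a j * d' := by exact_mod_cast e2
    have e6 : (p : ℤ) ∣ (Nat.card X : ℤ) - 1 := e5 ▸ (hd1.mul_left _).add (hd2.mul_left _)
    have e7 := (Int.natCast_dvd_natCast.2 hp).sub e6
    rw [sub_sub_cancel] at e7
    exact (Fact.out : p.Prime).one_lt.ne' (Nat.dvd_one.1 (by exact_mod_cast e7))
  have := exists_sub (F := F) (V := V) (d := 1) (by omega)
  have := exists_sub (F := F) (V := V) (d := 2) (by omega)
  have := exists_fl (F := F) (V := V) (a := 1) (b := 2) (by omega) (by omega)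
  have p1 := nO_pos K (Sub F V 1)
  have p2 := nO_pos K (Sub F V 2)
  have p3 := nO_pos K (Fl F V 1 2)
  have a0 := b1 0
  have a1 := b1 1
  have a2 := b1 2
  have a01 := b2 0 1 (by decide)
  have a02 := b2 0 2 (by decide)
  have a12 := b2 1 2 (by decide)
  have a23 := b2 2 3 (by decide)
  have a24 := b2 2 4 (by decide)
  simp only [a, Matrix.cons_val] at a0 a1 a2 a01 a02 a12 a23 a24
  by_cases q1 : nO K (Sub F V 1) = 1
  · by_cases q2 : nO K (Sub F V 2) = 1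
    · by_cases q3 : nO K (Fl F V 1 2) = 1
      · exact Or.inr (Or.inr ⟨q1, 1, Or.inl rfl, q2, q3⟩)
      · exact Or.inr (Or.inl ⟨q1, q2, by omega, by omega⟩)
    · exact Or.inr (Or.inr ⟨q1, 2, Or.inr rfl, by omega, by omega⟩)
  · exact Or.inl ⟨by omega, by omega⟩


end Cfsg.Agent.RK3
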