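import Cfsg.Agent.RK3.Inn
import Cfsg.Agent.RK3.DC
import Cfsg.Agent.RK3.GramC

/-! Project RK3 (notes/RK3.md, section DU). -/

set_option autoImplicit false
set_option linter.unusedSectionVars false

namespace Cfsg.Agent.RK3

open MulAction Module Submodule

variable {F : Type*} [Field F] [Fintype F] {V : Type*} [AddCommGroup V] [Module F V] [Finite V]

theorem du_two {b d k : ℕ} (h : ∀ l, l ≤ b ∧ l ≤ d ∧ b + d ≤ finrank F V + l ↔ l = k ∨ l = k + 1) :
    ip (pc (Sub F V b) : Gm F V → ℚ) (pc (Sub F V d)) = 2 := by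
  rw [pc_sub, pc_sub, ip_pc_pc, nO_fl]
  have : (Finset.range (0 + 1) ×ˢ Finset.range (0 + 1) ×ˢ Finset.range (0 + 1) ×ˢ Finset.range (b + 1)).filter
      (TabOK (finrank F V) 0 b 0 d) = {(0, 0, 0, k), (0, 0, 0, k + 1)} := by
    ext ⟨i, j, m, l⟩
    have := h l
    simp only [Finset.mem_filter, Finset.mem_product, Finset.mem_range, TabOK, Finset.mem_insert,
      Finset.mem_singleton, Prod.mk.injEq]
    omega
  rw [this, Finset.card_pair (by simp)]
  rfl

theorem du_pc (h2 : 2 ≤ finrank F V) :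
    (pc (Sub F V 1) : Gm F V → ℚ) = pc (Sub F V (finrank F V - 1)) := by
  refine sub_eq_zero.1 (eq_zero_of_ip ?_)
  rw [ip_sub_left, ip_sub_right, ip_sub_right, du_two (k := 0) fun l => by omega, du_two (k := 0) fun l => by omega,
    du_two (k := 0) fun l => by omega, du_two (k := finrank F V - 2) fun l => by omega]
  norm_num

theorem du (h2 : 2 ≤ finrank F V) (L : Subgroup (Gm F V)) :
    nO L (Sub F V (finrank F V - 1)) = nO L (Sub F V 1) := nO_congr L (du_pc h2).symm

end Cfsg.Agent.RK3
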