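import Cfsg.Agent.SNG.Defs
import Cfsg.Agent.H27.TvBasic

/-! Project RK3 (S2194): primitive rank 3 actions of `PSL_n(q)`, `n ≥ 5`.
Definitions and the basic interface; proofs in notes/RK3.md. -/

set_option autoImplicit false
set_option linter.unusedSectionVars false

namespace Cfsg.Agent.RK3

open MulAction Module Submodule

section Gen

/-- number of orbits -/
noncomputable def nO (G Y : Type*) [Group G] [MulAction G Y] : ℕ :=
  Nat.card (orbitRel.Quotient G Y)

/-- permutation character -/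
noncomputable def pc {G : Type*} [Group G] (Y : Type*) [MulAction G Y] (g : G) : ℚ :=
  (Nat.card (fixedBy Y g) : ℚ)

/-- inner product of rational functions on a finite group -/
noncomputable def ip {G : Type*} [Fintype G] (f h : G → ℚ) : ℚ :=
  (∑ g, f g * h g) / Fintype.card G

variable {G : Type*} [Fintype G]

theorem ip_comm (f h : G → ℚ) : ip f h = ip h f := by simp only [ip, mul_comm]
theorem ip_add_left (f f' h : G → ℚ) : ip (f + f') h = ip f h + ip f' h := by
  simp only [ip, Pi.add_apply, add_mul, Finset.sum_add_distrib, add_div]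
theorem ip_sub_left (f f' h : G → ℚ) : ip (f - f') h = ip f h - ip f' h := by
  simp only [ip, Pi.sub_apply, sub_mul, Finset.sum_sub_distrib, sub_div]
theorem ip_smul_left (c : ℚ) (f h : G → ℚ) : ip (c • f) h = c * ip f h := by
  simp only [ip, Pi.smul_apply, smul_eq_mul, mul_assoc, ← Finset.mul_sum, mul_div_assoc]
theorem ip_add_right (f h h' : G → ℚ) : ip f (h + h') = ip f h + ip f h' := by
  rw [ip_comm, ip_add_left, ip_comm h, ip_comm h']
theorem ip_sub_right (f h h' : G → ℚ) : ip f (h - h') = ip f h - ip f h' := by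
  rw [ip_comm, ip_sub_left, ip_comm h, ip_comm h']
theorem ip_smul_right (c : ℚ) (f h : G → ℚ) : ip f (c • h) = c * ip f h := by
  rw [ip_comm, ip_smul_left, ip_comm h]
theorem ip_zero_left (h : G → ℚ) : ip 0 h = 0 := by simp [ip]
theorem ip_zero_right (h : G → ℚ) : ip h 0 = 0 := by simp [ip]
theorem ip_nonneg (f : G → ℚ) : 0 ≤ ip f f :=
  div_nonneg (Finset.sum_nonneg fun _ _ => mul_self_nonneg _) (Nat.cast_nonneg _)
theorem eq_zero_of_ip {f : G → ℚ} (h : ip f f = 0) : f = 0 := by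
  funext g
  have hc : (Fintype.card G : ℚ) ≠ 0 := Nat.cast_ne_zero.2 (Fintype.card_pos_iff.2 ⟨g⟩).ne'
  rw [ip, div_eq_zero_iff, or_iff_left hc,
    Finset.sum_eq_zero_iff_of_nonneg fun _ _ => mul_self_nonneg _] at h
  exact mul_self_eq_zero.1 (h g (Finset.mem_univ _))
theorem ip_one_one [Nonempty G] : ip (1 : G → ℚ) 1 = 1 := by
  have hc : (Fintype.card G : ℚ) ≠ 0 := Nat.cast_ne_zero.2 Fintype.card_ne_zero
  simp [ip, hc]

/-- `[k, 1]_q = 1 + q + ... + q ^ (k - 1)` -/
def gq (q k : ℕ) : ℕ := ∑ i ∈ Finset.range k, q ^ i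

theorem gq_zero (q : ℕ) : gq q 0 = 0 := rfl
theorem gq_succ (q k : ℕ) : gq q (k + 1) = gq q k + q ^ k := Finset.sum_range_succ _ _
theorem gq_succ' (q k : ℕ) : gq q (k + 1) = q * gq q k + 1 := by
  simp only [gq, Finset.sum_range_succ', pow_zero, pow_succ', Finset.mul_sum]
theorem gq_mul {q : ℕ} (hq : 1 ≤ q) (k : ℕ) : gq q k * (q - 1) + 1 = q ^ k := by
  obtain ⟨r, rfl⟩ := Nat.exists_eq_add_of_le' hq
  induction k with
  | zero => simp [gq]
  | succ k ih => rw [gq_succ, pow_succ, ← ih]; simp only [Nat.add_sub_cancel]; ring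

end Gen

section Abs

variable {G : Type*} [Group G] [Fintype G] (X : Type*) [MulAction G X]
  {L : Type*} [MulAction G L] [Fintype L] (M : L → Subgroup G)

/-- on the `M l`-orbits, `N` has the same orbits as the stabiliser of `l` -/
def Tr (l : L) (N : Subgroup G) : Prop :=
  ∀ x : X, ∀ g ∈ stabilizer G l, ∃ n ∈ N, ∃ m ∈ M l, g • x = n • m • x

open Classical in
/-- number of `M l`-orbits fixed by `g` (for `g` fixing `l`) -/
noncomputable def tau (l : L) (g : G) : ℚ :=
  (∑ m ∈ Finset.univ.filter (· ∈ M l), pc X (g * m)) / Nat.card (M l)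

open Classical in
/-- the function induced from `tau - c` -/
noncomputable def Psi (c : ℕ) (g : G) : ℚ :=
  ∑ l ∈ Finset.univ.filter (fun l : L => g • l = l), (tau X M l g - c)

open Classical in
/-- the norm of `tau - c` on the stabiliser of `l` -/
noncomputable def wv (c : ℕ) (l : L) : ℚ :=
  (∑ g ∈ Finset.univ.filter (fun g : G => g • l = l), (tau X M l g - c) ^ 2) /
    Nat.card (stabilizer G l)

/-- hypotheses of the Mackey computation -/
structure PS (c : ℕ) : Prop where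
  trL : IsPretransitive G L
  le : ∀ l, M l ≤ stabilizer G l
  conj : ∀ (g : G) l m, m ∈ M l → g * m * g⁻¹ ∈ M (g • l)
  orb : ∀ l : L, nO (stabilizer G l) X = c
  h1 : ∀ l l', l ≠ l' → Tr X M l (stabilizer G l ⊓ M l')

end Abs

section Tab

/-- admissible tables `(dim A⊓C, dim A⊓D, dim B⊓C, dim B⊓D)` of two flags `A ≤ B`, `C ≤ D` of
types `(a, b)`, `(c, d)` in dimension `n` -/
def TabOK (n a b c d : ℕ) (t : ℕ × ℕ × ℕ × ℕ) : Prop :=
  t.1 ≤ t.2.1 ∧ t.2.1 ≤ a ∧ t.1 ≤ t.2.2.1 ∧ t.2.1 + t.2.2.1 ≤ t.2.2.2 + t.1 ∧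
  t.2.2.2 + a ≤ b + t.2.1 ∧ t.2.2.1 ≤ c ∧ c + t.2.2.2 ≤ d + t.2.2.1 ∧ b + d ≤ n + t.2.2.2

instance decTabOK (n a b c d : ℕ) (t : ℕ × ℕ × ℕ × ℕ) : Decidable (TabOK n a b c d t) := by
  unfold TabOK; infer_instance

end Tab

section Lin

variable (F : Type*) [Field F] (V : Type*) [AddCommGroup V] [Module F V]

/-- the special linear group of `V` -/
abbrev Gm := ↥(H27.SLV F V)

instance finite_aut [Finite V] : Finite (V ≃ₗ[F] V) :=
  Finite.of_injective (fun f => (f : V → V)) DFunLike.coe_injective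

noncomputable instance fintype_Gm [Finite V] : Fintype (Gm F V) := Fintype.ofFinite _

/-- subspaces of dimension `d` -/
def Sub (d : ℕ) := {A : Submodule F V // finrank F A = d}

/-- flags `A ≤ B` of type `(a, b)` -/
def Fl (a b : ℕ) :=
  {x : Submodule F V × Submodule F V // x.1 ≤ x.2 ∧ finrank F x.1 = a ∧ finrank F x.2 = b}

instance finite_sm [Finite V] : Finite (Submodule F V) :=
  Finite.of_injective (fun A => (A : Set V)) SetLike.coe_injective
noncomputable instance fintype_sm [Finite V] : Fintype (Submodule F V) := Fintype.ofFinite _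
instance finite_Sub [Finite V] (d : ℕ) : Finite (Sub F V d) := by unfold Sub; infer_instance
instance finite_Fl [Finite V] (a b : ℕ) : Finite (Fl F V a b) := by unfold Fl; infer_instance
noncomputable instance fintype_Sub [Finite V] (d : ℕ) : Fintype (Sub F V d) := Fintype.ofFinite _
noncomputable instance fintype_Fl [Finite V] (a b : ℕ) : Fintype (Fl F V a b) := Fintype.ofFinite _

variable {F V}

theorem gm_smul (g : Gm F V) (v : V) : g • v = (g : V ≃ₗ[F] V) v := rfl

theorem gm_ext {g h : Gm F V} (e : ∀ v : V, g • v = h • v) : g = h :=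
  Subtype.ext (LinearEquiv.ext e)

/-- image of a subspace -/
def im (g : Gm F V) (A : Submodule F V) : Submodule F V := A.map ((g : V ≃ₗ[F] V) : V →ₗ[F] V)

theorem mem_im {g : Gm F V} {A : Submodule F V} {v : V} : v ∈ im g A ↔ g⁻¹ • v ∈ A := by
  constructor
  · rintro ⟨w, hw, rfl⟩
    change g⁻¹ • g • w ∈ A
    rwa [inv_smul_smul]
  · exact fun h => ⟨g⁻¹ • v, h, smul_inv_smul g v⟩

theorem smul_mem_im {g : Gm F V} {A : Submodule F V} {v : V} : g • v ∈ im g A ↔ v ∈ A := by
  rw [mem_im, inv_smul_smul]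

theorem im_one (A : Submodule F V) : im 1 A = A := by ext v; rw [mem_im, inv_one, one_smul]
theorem im_mul (g h : Gm F V) (A : Submodule F V) : im (g * h) A = im g (im h A) := by
  ext v; simp only [mem_im, mul_inv_rev, mul_smul]
theorem rk_im (g : Gm F V) (A : Submodule F V) : finrank F (im g A) = finrank F A :=
  LinearEquiv.finrank_map_eq _ _
theorem im_le_im {g : Gm F V} {A B : Submodule F V} : im g A ≤ im g B ↔ A ≤ B :=
  ⟨fun h v hv => smul_mem_im.1 (h (smul_mem_im.2 hv)), fun h _ hv => mem_im.2 (h (mem_im.1 hv))⟩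
theorem im_inf (g : Gm F V) (A B : Submodule F V) : im g (A ⊓ B) = im g A ⊓ im g B := by
  ext v; simp only [mem_im, mem_inf]
theorem im_sup (g : Gm F V) (A B : Submodule F V) : im g (A ⊔ B) = im g A ⊔ im g B :=
  Submodule.map_sup _ _ _
theorem im_l1 (g : Gm F V) (a : V) : im g (span F {a}) = span F {g • a} := by
  ext v; rw [mem_im, ← SNG.smul_mem_l1 g, smul_inv_smul]
theorem im_l2 (g : Gm F V) (a b : V) : im g (span F {a, b}) = span F {g • a, g • b} := by
  ext v; rw [mem_im, ← SNG.smul_mem_l2 g, smul_inv_smul]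
theorem im_eq_of_le [FiniteDimensional F V] {g : Gm F V} {A B : Submodule F V}
    (h : ∀ v ∈ A, g • v ∈ B) (hr : finrank F B ≤ finrank F A) : im g A = B :=
  H27.map_eq_of_mapsTo h hr

instance actSub (d : ℕ) : MulAction (Gm F V) (Sub F V d) where
  smul g A := ⟨im g A.1, (rk_im g _).trans A.2⟩
  one_smul A := Subtype.ext (im_one A.1)
  mul_smul g h A := Subtype.ext (im_mul g h A.1)

instance actFl (a b : ℕ) : MulAction (Gm F V) (Fl F V a b) where
  smul g x := ⟨(im g x.1.1, im g x.1.2), im_le_im.2 x.2.1, (rk_im g _).trans x.2.2.1,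
    (rk_im g _).trans x.2.2.2⟩
  one_smul x := Subtype.ext (Prod.ext (im_one _) (im_one _))
  mul_smul g h x := Subtype.ext (Prod.ext (im_mul g h _) (im_mul g h _))

theorem sub_smul_val {d : ℕ} (g : Gm F V) (A : Sub F V d) : (g • A).1 = im g A.1 := rfl
theorem fl_smul_fst {a b : ℕ} (g : Gm F V) (x : Fl F V a b) : (g • x).1.1 = im g x.1.1 := rfl
theorem fl_smul_snd {a b : ℕ} (g : Gm F V) (x : Fl F V a b) : (g • x).1.2 = im g x.1.2 := rfl
theorem sub_smul_eq {d : ℕ} {g : Gm F V} {A B : Sub F V d} : g • A = B ↔ im g A.1 = B.1 :=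
  Subtype.ext_iff
theorem fl_smul_eq {a b : ℕ} {g : Gm F V} {x y : Fl F V a b} :
    g • x = y ↔ im g x.1.1 = y.1.1 ∧ im g x.1.2 = y.1.2 := Subtype.ext_iff.trans Prod.ext_iff

/-- the smaller member of a flag -/
def Fl.lo {a b : ℕ} (x : Fl F V a b) : Sub F V a := ⟨x.1.1, x.2.2.1⟩
/-- the larger member of a flag -/
def Fl.hi {a b : ℕ} (x : Fl F V a b) : Sub F V b := ⟨x.1.2, x.2.2.2⟩
/-- the point of a nonzero vector -/
def pt (a : V) (ha : a ≠ 0) : Sub F V 1 := ⟨span F {a}, finrank_span_singleton ha⟩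
/-- the point-line flag of two independent vectors -/
def fl2 [FiniteDimensional F V] (a b : V) (ha : a ≠ 0) (hb : b ∉ span F {a}) : Fl F V 1 2 :=
  ⟨(span F {a}, span F {a, b}), SNG.l1_le_l2 a b, finrank_span_singleton ha, SNG.rk_l2 ha hb⟩

/-- the table of two flags -/
noncomputable def tab {a b c d : ℕ} (x : Fl F V a b) (y : Fl F V c d) : ℕ × ℕ × ℕ × ℕ :=
  (finrank F (x.1.1 ⊓ y.1.1 : Submodule F V), finrank F (x.1.1 ⊓ y.1.2 : Submodule F V),
    finrank F (x.1.2 ⊓ y.1.1 : Submodule F V), finrank F (x.1.2 ⊓ y.1.2 : Submodule F V))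

/-- number of points of `O` in `A` -/
noncomputable def pts (O : Set (Sub F V 1)) (A : Submodule F V) : ℕ :=
  {x : Sub F V 1 | x ∈ O ∧ x.1 ≤ A}.ncard

open Classical in
/-- subspaces just above `A` inside `C` -/
noncomputable def ups [Finite V] (A C : Submodule F V) : Finset (Submodule F V) :=
  Finset.univ.filter fun B => A ⋖ B ∧ B ≤ C

theorem mem_ups [Finite V] {A B C : Submodule F V} : B ∈ ups A C ↔ A ⋖ B ∧ B ≤ C := by
  simp [ups]

open Classical in
/-- hyperplanes of `C` containing `A` -/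
noncomputable def downs [Finite V] (A C : Submodule F V) : Finset (Submodule F V) :=
  Finset.univ.filter fun B => A ≤ B ∧ B ⋖ C

theorem mem_downs [Finite V] {A B C : Submodule F V} : B ∈ downs A C ↔ A ≤ B ∧ B ⋖ C := by
  simp [downs]

open Classical in
/-- hyperplanes containing `A` and missing `x` -/
noncomputable def offs [Finite V] (A : Submodule F V) (x : V) : Finset (Submodule F V) :=
  Finset.univ.filter fun B => A ≤ B ∧ B ⋖ ⊤ ∧ x ∉ B

theorem mem_offs [Finite V] {A B : Submodule F V} {x : V} :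
    B ∈ offs A x ↔ A ≤ B ∧ B ⋖ ⊤ ∧ x ∉ B := by
  simp [offs]

/-- the transvection `v ↦ v + φ v • c` -/
noncomputable def tvE [FiniteDimensional F V] (c : V) (φ : V →ₗ[F] F) (h : φ c = 0) : Gm F V :=
  ⟨H27.tv c φ h, H27.tv_mem_SLV c φ h⟩

theorem tvE_smul [FiniteDimensional F V] (c : V) (φ : V →ₗ[F] F) (h : φ c = 0) (v : V) :
    tvE c φ h • v = v + φ v • c := H27.tv_apply c φ h v

theorem eq_top_of_tvE [FiniteDimensional F V] {K : Subgroup (Gm F V)}
    (h : ∀ (c : V) (φ : V →ₗ[F] F) (h : φ c = 0), tvE c φ h ∈ K) : K = ⊤ := by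
  have : H27.SLV F V ≤ K.map (H27.SLV F V).subtype := H27.SLV_le fun v φ hφ =>
    ⟨_, ⟨_, h v φ hφ, rfl⟩, fun x => H27.tv_apply v φ hφ x⟩
  refine top_unique fun g _ => ?_
  obtain ⟨k, hk, e⟩ := this g.2
  rwa [← Subtype.ext e]

/-- `g` is a transvection -/
def Tvn (g : Gm F V) : Prop :=
  ∃ (c : V) (ψ : V →ₗ[F] F), c ≠ 0 ∧ ψ ≠ 0 ∧ ψ c = 0 ∧ ∀ v, g • v = v + ψ v • c

/-- irreducibility -/
def Irr (K : Subgroup (Gm F V)) : Prop :=
  ∀ U : Submodule F V, (∀ k ∈ K, ∀ v ∈ U, k • v ∈ U) → U = ⊥ ∨ U = ⊤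

/-- `K` contains the scalars -/
def Cen (K : Subgroup (Gm F V)) : Prop := ∀ (g : Gm F V) (c : F), (∀ v : V, g • v = c • v) → g ∈ K

/-- `W` is `K`-equivariant -/
def Eqv (K : Subgroup (Gm F V)) (W : V → Submodule F V) : Prop :=
  ∀ k ∈ K, ∀ a b : V, b ∈ W a → k • b ∈ W (k • a)

/-- a `K`-invariant null polarity -/
structure Pol (K : Subgroup (Gm F V)) (W : V → Submodule F V) : Prop where
  cov : ∀ a, a ≠ 0 → W a ⋖ ⊤
  self : ∀ a, a ∈ W a
  symm : ∀ a b, b ≠ 0 → b ∈ W a → a ∈ W b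
  eqv : Eqv K W

/-- a `K`-invariant proper spread -/
structure Spd (K : Subgroup (Gm F V)) (W : V → Submodule F V) (e : ℕ) : Prop where
  par : SNG.Par W
  rk : ∀ a, a ≠ 0 → finrank F (W a) = e
  two : 2 ≤ e
  lt : e < finrank F V
  eqv : Eqv K W

/-- the double coset invariant -/
noncomputable def pI (W : V → Submodule F V) (g : Gm F V) : ℕ :=
  {x : V | x ≠ 0 ∧ ∀ v, v ∈ W x ↔ g • v ∈ W (g • x)}.ncard

/-- elements acting on `A` as scalars -/
def Msc (A : Submodule F V) : Subgroup (Gm F V) where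
  carrier := {g | ∃ c : F, ∀ v ∈ A, g • v = c • v}
  mul_mem' := by
    rintro g h ⟨c, hc⟩ ⟨d, hd⟩
    exact ⟨d * c, fun v hv => by rw [mul_smul, hd v hv, SNG.gs, hc v hv, mul_smul]⟩
  one_mem' := ⟨1, fun v _ => by rw [one_smul, one_smul]⟩
  inv_mem' := by
    rintro g ⟨c, hc⟩
    refine ⟨c⁻¹, fun v hv => ?_⟩
    by_cases c0 : c = 0
    · have : v = 0 := by
        by_contra h
        exact SNG.smul_ne (g := g) h (by rw [hc v hv, c0, zero_smul])
      rw [this, smul_zero, smul_zero]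
    · rw [inv_smul_eq_iff, SNG.gs, hc v hv, smul_smul, inv_mul_cancel₀ c0, one_smul]

theorem mem_Msc {A : Submodule F V} {g : Gm F V} :
    g ∈ Msc A ↔ ∃ c : F, ∀ v ∈ A, g • v = c • v := Iff.rfl

/-- the kernels of the line stabilisers on their lines -/
def ML (l : Sub F V 2) : Subgroup (Gm F V) := Msc l.1

/-- the affine maps induced on the line `⟨a, b⟩` minus the point `⟨a⟩` -/
def Eset (K : Subgroup (Gm F V)) (a b : V) : Set (F × F) :=
  {e | ∃ k ∈ K, ∃ c : F, c ≠ 0 ∧ k • a = c • a ∧ k • b = c • (e.1 • b + e.2 • a)}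

/-- the translations among them -/
def Etr (K : Subgroup (Gm F V)) (a b : V) : Set F := {β | ((1 : F), β) ∈ Eset K a b}

/-- the rank 3 hypothesis -/
structure R3 {X : Type*} [MulAction (Gm F V) X] (x₀ : X) (K : Subgroup (Gm F V)) : Prop where
  n5 : 5 ≤ finrank F V
  tr : IsPretransitive (Gm F V) X
  st : K = stabilizer (Gm F V) x₀
  max : IsCoatom K
  rk : nO K X = 3
  cen : Cen K

variable (F V)

/-- unipotent characters as combinations of permutation characters -/
noncomputable def r1 : Gm F V → ℚ := pc (Sub F V 1) - 1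
/-- see `r1` -/
noncomputable def r2 : Gm F V → ℚ := pc (Sub F V 2) - pc (Sub F V 1)
/-- see `r1` -/
noncomputable def r11 : Gm F V → ℚ := pc (Fl F V 1 2) - pc (Sub F V 2) - pc (Sub F V 1) + 1
/-- see `r1` -/
noncomputable def r3 : Gm F V → ℚ := pc (Sub F V 3) - pc (Sub F V 2)
/-- see `r1` -/
noncomputable def r21 : Gm F V → ℚ :=
  pc (Fl F V 1 3) - pc (Sub F V 3) - pc (Fl F V 1 2) + pc (Sub F V 1)
/-- the five functions as a family -/
noncomputable def rho : Fin 5 → Gm F V → ℚ := ![r1 F V, r2 F V, r11 F V, r3 F V, r21 F V]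

end Lin

end Cfsg.Agent.RK3
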