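import Cfsg.Agent.RK3.Ext
import Cfsg.Agent.RK3.Cnt

/-! Project RK3 (notes/RK3.md, section TwoW). -/

set_option autoImplicit false
set_option linter.unusedSectionVars false

namespace Cfsg.Agent.RK3

open MulAction Module Submodule

variable {F : Type*} [Field F] [Fintype F] {V : Type*} [AddCommGroup V] [Module F V] [Finite V]

open Classical in
/-- indicator of `A ≤ H` -/
noncomputable def twoW_I (A H : Submodule F V) : ℤ := if A ≤ H then 1 else 0

open Classical in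
/-- `O` as a finset -/
noncomputable def twoW_F (O : Set (Sub F V 1)) : Finset (Sub F V 1) :=
  Finset.univ.filter (· ∈ O)

theorem twoW_mem {O : Set (Sub F V 1)} {y : Sub F V 1} : y ∈ twoW_F O ↔ y ∈ O := by
  simp [twoW_F]

theorem twoW_mul (A B H : Submodule F V) : twoW_I A H * twoW_I B H = twoW_I (A ⊔ B) H := by
  unfold twoW_I
  by_cases h : A ≤ H <;> by_cases h' : B ≤ H <;> simp [h, h']

theorem twoW_pts (O : Set (Sub F V 1)) (H : Submodule F V) :
    (pts O H : ℤ) = ∑ y ∈ twoW_F O, twoW_I y.1 H := by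
  classical
  have : {x : Sub F V 1 | x ∈ O ∧ x.1 ≤ H} = ↑((twoW_F O).filter fun y => y.1 ≤ H) := by
    ext y; simp [twoW_mem]
  rw [pts, this, Set.ncard_coe_finset, Finset.card_filter]
  push_cast
  refine Finset.sum_congr rfl fun y _ => ?_
  unfold twoW_I
  split_ifs <;> rfl

theorem twoW_card (O : Set (Sub F V 1)) : ((twoW_F O).card : ℤ) = pts O ⊤ := by
  rw [twoW_pts]
  simp [twoW_I]

theorem twoW_N0 {x : V} {A : Submodule F V} (h : x ∈ A) :
    ∑ H ∈ offs (⊥ : Submodule F V) x, twoW_I A H = 0 := by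
  refine Finset.sum_eq_zero fun H hH => ?_
  unfold twoW_I
  exact if_neg fun hA => (mem_offs.1 hH).2.2 (hA h)

theorem twoW_N1 {x : V} {A : Submodule F V} (h : x ∉ A) :
    ∑ H ∈ offs (⊥ : Submodule F V) x, twoW_I A H =
      (Fintype.card F : ℤ) ^ (finrank F V - finrank F A - 1) := by
  classical
  have e : (offs (⊥ : Submodule F V) x).filter (fun H => A ≤ H) = offs A x := by
    ext H
    simp only [Finset.mem_filter, mem_offs, bot_le, true_and]
    tauto
  have := cnt_off h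
  rw [← e, Finset.card_filter] at this
  have h2 := congrArg (Nat.cast : ℕ → ℤ) this
  push_cast at h2
  rw [← h2]
  refine Finset.sum_congr rfl fun y _ => ?_
  unfold twoW_I
  split_ifs <;> rfl

theorem twoW_eq {y y' : Sub F V 1} (h : y.1 ≤ y'.1) : y = y' :=
  Subtype.ext (Submodule.eq_of_le_of_finrank_eq h (y.2.trans y'.2.symm))

theorem twoW_nm {x : V} (hx : x ≠ 0) {y : Sub F V 1} (hy : y ≠ pt x hx) : x ∉ y.1 :=
  fun h => hy (twoW_eq (y := pt x hx) (SNG.l1_le h)).symm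

theorem twoW_rk {y y' : Sub F V 1} (h : y ≠ y') :
    finrank F (y.1 ⊔ y'.1 : Submodule F V) = 2 := by
  obtain ⟨a, ha, rfl⟩ := exists_pt y'
  have := SNG.rk_adj (twoW_nm ha h)
  rw [y.2] at this
  exact this

open Classical in
theorem twoW_pair {m : ℕ} (hq : Fintype.card F = 4) (hn : finrank F V = m + 3) {x : V}
    (hx : x ≠ 0) {y : Sub F V 1} (hy : y ≠ pt x hx) (y' : Sub F V 1) :
    ∑ H ∈ offs (⊥ : Submodule F V) x, twoW_I (y.1 ⊔ y'.1) H =
      (if y' = y then 4 * 4 ^ m else 0) + 4 ^ m -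
        4 ^ m * twoW_I y'.1 (y.1 ⊔ (pt x hx).1) := by
  by_cases e : y' = y
  · subst e
    rw [sup_idem, twoW_N1 (twoW_nm hx hy), if_pos rfl, hn, y'.2, hq]
    have : twoW_I y'.1 (y'.1 ⊔ (pt x hx).1) = 1 := if_pos le_sup_left
    rw [this, show m + 3 - 1 - 1 = m + 1 by omega]
    push_cast
    ring
  · rw [if_neg e]
    have r1 := twoW_rk (Ne.symm e)
    have r2 := twoW_rk hy
    by_cases hl : y'.1 ≤ y.1 ⊔ (pt x hx).1
    · have e2 : y.1 ⊔ y'.1 = y.1 ⊔ (pt x hx).1 :=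
        Submodule.eq_of_le_of_finrank_eq (sup_le le_sup_left hl) (r1.trans r2.symm)
      have hxm : x ∈ y.1 ⊔ y'.1 := e2 ▸ mem_sup_right (SNG.self_l1 x)
      have : twoW_I y'.1 (y.1 ⊔ (pt x hx).1) = 1 := if_pos hl
      rw [twoW_N0 hxm, this]
      ring
    · have hxm : x ∉ y.1 ⊔ y'.1 := fun h => by
        have e2 : y.1 ⊔ (pt x hx).1 = y.1 ⊔ y'.1 :=
          Submodule.eq_of_le_of_finrank_eq (sup_le le_sup_left (SNG.l1_le h)) (r2.trans r1.symm)
        exact hl (e2 ▸ le_sup_right)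
      have : twoW_I y'.1 (y.1 ⊔ (pt x hx).1) = 0 := if_neg hl
      rw [twoW_N1 hxm, this, hn, r1, hq, show m + 3 - 2 - 1 = m by omega]
      push_cast
      ring

open Classical in
theorem twoW_star {m : ℕ} (hq : Fintype.card F = 4) (hn : finrank F V = m + 3) {x : V}
    (hx : x ≠ 0) (O : Set (Sub F V 1))
    (hl : ∀ l : Submodule F V, x ∈ l → finrank F l = 2 → pts O l = 2)
    {y : Sub F V 1} (hy : y ≠ pt x hx) :
    ∑ H ∈ offs (⊥ : Submodule F V) x, twoW_I y.1 H * pts O H =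
      (if y ∈ O then 4 * 4 ^ m else 0) + 4 ^ m * pts O ⊤ - 4 ^ m * 2 := by
  have h2 := hl (y.1 ⊔ (pt x hx).1) (mem_sup_right (SNG.self_l1 x)) (twoW_rk hy)
  have h3 := twoW_pts O (y.1 ⊔ (pt x hx).1)
  rw [h2] at h3
  simp only [twoW_pts O, Finset.mul_sum, twoW_mul]
  rw [Finset.sum_comm]
  simp only [twoW_pair hq hn hx hy]
  rw [Finset.sum_sub_distrib, Finset.sum_add_distrib, ← Finset.mul_sum, ← h3,
    Finset.sum_ite_eq', Finset.sum_const, ← Finset.mul_sum, ← twoW_pts, ← twoW_card]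
  simp only [twoW_mem, nsmul_eq_mul]
  push_cast
  ring

theorem twoW_tot {m : ℕ} (hq : Fintype.card F = 4) (hn : finrank F V = m + 3) {x : V}
    (hx : x ≠ 0) (O : Set (Sub F V 1)) (hO : pt x hx ∉ O)
    (hl : ∀ l : Submodule F V, x ∈ l → finrank F l = 2 → pts O l = 2) :
    pts O ⊤ = 2 * gq 4 (m + 2) := by
  have h0 : pts O (span F {x}) = 0 := by
    rw [pts, Set.ncard_eq_zero]
    refine Set.eq_empty_of_forall_notMem fun y hy => hO ?_
    rw [← twoW_eq (y' := pt x hx) hy.2]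
    exact hy.1
  have h1 := pts_part O (le_top : span F {x} ≤ ⊤)
  have h2 := cnt_up (le_top : span F {x} ≤ ⊤)
  rw [finrank_top, hn, finrank_span_singleton hx, hq] at h2
  rw [h0, Finset.sum_congr rfl (g := fun _ => (2 : ℤ)), Finset.sum_const, h2] at h1
  · simp only [nsmul_eq_mul, show m + 3 - 1 = m + 2 by omega] at h1
    omega
  · intro B hB
    have hc := SNG.covBy_iff.1 (mem_ups.1 hB).1
    rw [finrank_span_singleton hx] at hc
    rw [hl B (hc.1 (SNG.self_l1 x)) hc.2]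
    rfl

theorem twoW_ar {a b r : ℤ} {k : ℕ} (t : ℕ) (ht : 0 < t) (hr : r = 4 * t + 1)
    (h : r * (r + 1) - 2 * r * (a + b) + 4 * (a * b) = 0) (hk : (a - b) ^ 2 = 4 ^ k) : False := by
  have e : (a + b - r) ^ 2 + r = 4 ^ k := by rw [← hk]; linear_combination h
  generalize a + b - r = s at e
  rcases k with _ | k
  · nlinarith [sq_nonneg s]
  · rw [pow_succ (4 : ℤ) k, hr] at e
    generalize (4 : ℤ) ^ k = w at e
    obtain ⟨u, rfl | rfl⟩ := Int.even_or_odd' s
    · have : 4 * (u * u) + (4 * t + 1) = w * 4 := by linear_combination e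
      omega
    · have : 4 * (u * u) + 4 * u + 1 + (4 * t + 1) = w * 4 := by linear_combination e
      omega

theorem twoW (hq : Fintype.card F = 4) (h5 : 5 ≤ finrank F V) {x : V} (hx : x ≠ 0)
    (O : Set (Sub F V 1)) (hO : pt x hx ∉ O)
    (hl : ∀ l : Submodule F V, x ∈ l → finrank F l = 2 → pts O l = 2) {h₁ h₂ : ℕ}
    (hH : ∀ H ∈ offs (⊥ : Submodule F V) x, pts O H = h₁ ∨ pts O H = h₂) : False := by
  classical
  obtain ⟨m, hn⟩ : ∃ m, finrank F V = m + 3 := ⟨finrank F V - 3, by omega⟩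
  have htot := twoW_tot hq hn hx O hO hl
  have hr : gq 4 (m + 2) = 4 * gq 4 (m + 1) + 1 := gq_succ' 4 (m + 1)
  have ht : 0 < gq 4 (m + 1) := by rw [gq_succ']; omega
  have hc := pts_compl O ⊤
  rw [finrank_top, hn, hq, gq_succ', htot] at hc
  have hne : ∀ y ∈ O, y ≠ pt x hx := fun y hy e => hO (e ▸ hy)
  obtain ⟨y, hy⟩ : O.Nonempty := by
    apply Set.nonempty_of_ncard_ne_zero
    rw [← pts_top]; omega
  obtain ⟨y', hy', hy'x⟩ : ∃ y' ∈ Oᶜ, y' ≠ pt x hx := by
    apply Set.exists_ne_of_one_lt_ncard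
    rw [← pts_top]; omega
  have hN : ∀ z : Sub F V 1, z ≠ pt x hx →
      ∑ H ∈ offs (⊥ : Submodule F V) x, twoW_I z.1 H = 4 * 4 ^ m := fun z hz => by
    rw [twoW_N1 (twoW_nm hx hz), hn, z.2, hq, show m + 3 - 1 - 1 = m + 1 by omega]
    push_cast; ring
  -- the three sums
  have s0 : ((offs (⊥ : Submodule F V) x).card : ℤ) = 16 * 4 ^ m := by
    rw [cnt_off (by simpa using hx), finrank_bot, hn, hq, show m + 3 - 0 - 1 = m + 2 by omega]
    push_cast; ring
  have s1 : ∑ H ∈ offs (⊥ : Submodule F V) x, (pts O H : ℤ) = pts O ⊤ * (4 * 4 ^ m) := by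
    rw [Finset.sum_congr rfl fun H _ => twoW_pts O H, Finset.sum_comm,
      Finset.sum_congr rfl fun z hz => hN z (hne z (twoW_mem.1 hz)), Finset.sum_const,
      nsmul_eq_mul, twoW_card]
  have s2 : ∑ H ∈ offs (⊥ : Submodule F V) x, (pts O H : ℤ) * pts O H =
      pts O ⊤ * (4 * 4 ^ m + 4 ^ m * pts O ⊤ - 4 ^ m * 2) := by
    have : ∀ H : Submodule F V, (pts O H : ℤ) * pts O H =
        ∑ z ∈ twoW_F O, twoW_I z.1 H * pts O H := fun H => by
      rw [← Finset.sum_mul, ← twoW_pts]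
    rw [Finset.sum_congr rfl fun H _ => this H, Finset.sum_comm,
      Finset.sum_congr rfl fun z hz => (twoW_star hq hn hx O hl (hne z (twoW_mem.1 hz))).trans
        (by rw [if_pos (twoW_mem.1 hz)]), Finset.sum_const, nsmul_eq_mul, twoW_card]
  have s3 : ∑ H ∈ offs (⊥ : Submodule F V) x,
      ((pts O H : ℤ) * pts O H - (h₁ + h₂) * pts O H + h₁ * h₂) = 0 :=
    Finset.sum_eq_zero fun H hH' => by
      rcases hH H hH' with e | e <;> rw [e] <;> ring
  rw [Finset.sum_add_distrib, Finset.sum_sub_distrib, ← Finset.mul_sum, s1, s2,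
    Finset.sum_const, nsmul_eq_mul, s0, htot] at s3
  have hdv : ∀ z : Sub F V 1, z ≠ pt x hx → ((h₁ : ℤ) - h₂) ∣
      ∑ H ∈ offs (⊥ : Submodule F V) x, twoW_I z.1 H * pts O H - 4 * 4 ^ m * h₂ := by
    intro z hz
    rw [← hN z hz, Finset.sum_mul, ← Finset.sum_sub_distrib]
    refine Finset.dvd_sum fun H hH' => ?_
    rcases hH H hH' with e | e <;> rw [e]
    · exact ⟨twoW_I z.1 H, by ring⟩
    · exact ⟨0, by ring⟩
  have d1 := hdv y (hne y hy)
  have d2 := hdv y' hy'x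
  rw [twoW_star hq hn hx O hl (hne y hy), if_pos hy] at d1
  rw [twoW_star hq hn hx O hl hy'x, if_neg hy'] at d2
  have d3 : ((h₁ : ℤ) - h₂) ∣ ((2 ^ (2 * m + 2) : ℕ) : ℤ) := by
    refine (dvd_sub d1 d2).trans (dvd_of_eq ?_)
    push_cast
    rw [pow_add, pow_mul]
    ring
  obtain ⟨k, -, hk⟩ := (Nat.dvd_prime_pow Nat.prime_two).1 (Int.natAbs_dvd_natAbs.2 d3)
  have hk2 : ((h₁ : ℤ) - h₂) ^ 2 = 4 ^ k := by
    rw [← Int.natAbs_sq, hk]
    push_cast
    rw [← pow_mul, mul_comm, pow_mul]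
    rfl
  refine twoW_ar (r := gq 4 (m + 2)) (gq 4 (m + 1)) ht (by exact_mod_cast hr) ?_ hk2
  have hQ : (4 * 4 ^ m : ℤ) ≠ 0 := by positivity
  apply mul_left_cancel₀ hQ
  push_cast at s3
  linear_combination s3


end Cfsg.Agent.RK3
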