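import Cfsg.Agent.RK3.DC
import Cfsg.Agent.RK3.DU
import Cfsg.Agent.RK3.TwoW

/-! Project RK3 (notes/RK3.md, section Four). -/

set_option autoImplicit false
set_option linter.unusedSectionVars false

namespace Cfsg.Agent.RK3

open MulAction Module Submodule

variable {F : Type*} [Field F] [Fintype F] {V : Type*} [AddCommGroup V] [Module F V] [Finite V]
  {K : Subgroup (Gm F V)}

theorem four_nm {x b : V} (hb : b ∉ span F {x}) (β : F) : b + β • x ∉ span F {x} := fun h =>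
  hb ((Submodule.add_mem_iff_left _ (smul_mem _ β (SNG.self_l1 x))).1 h)

/-- the points of the line `⟨x, b⟩` different from `⟨x⟩` -/
def fourP {x b : V} (hb : b ∉ span F {x}) (β : F) : Sub F V 1 :=
  pt (b + β • x) (SNG.ne0_of_notMem (four_nm hb β))

theorem four_pt_eq {a a' : V} (ha : a ≠ 0) (ha' : a' ≠ 0) {g : Gm F V} {c : F} (hc : c ≠ 0)
    (e : g • a = c • a') : g • (pt a ha : Sub F V 1) = pt a' ha' := by
  refine sub_smul_eq.2 ?_
  change im g (span F {a}) = span F {a'}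
  rw [im_l1, e, span_singleton_smul_eq (Ne.isUnit hc)]

theorem four_fix {x : V} (hx : x ≠ 0) {k : Gm F V} (h : k • (pt x hx : Sub F V 1) = pt x hx) :
    ∃ c : F, c ≠ 0 ∧ k • x = c • x := by
  have e : im k (span F {x}) = span F {x} := sub_smul_eq.1 h
  obtain ⟨c, hc⟩ := mem_span_singleton.1 (e ▸ smul_mem_im.2 (SNG.self_l1 x) : k • x ∈ span F {x})
  refine ⟨c, ?_, hc.symm⟩
  rintro rfl
  exact SNG.smul_ne (g := k) hx (by rw [← hc, zero_smul])

theorem four_act {x b : V} (hb : b ∉ span F {x}) {k : Gm F V} {c s : F} (hc : c ≠ 0)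
    (e1 : k • x = c • x) (e2 : k • b = c • ((1 : F) • b + s • x)) (δ : F) :
    k • fourP hb δ = fourP hb (δ + s) :=
  four_pt_eq _ _ hc (by rw [smul_add, SNG.gs, e1, e2]; module)

theorem four_on {x b : V} (hx : x ≠ 0) (hb : b ∉ span F {x}) {y : Sub F V 1}
    (h : y.1 ≤ span F {x, b}) (hy : y ≠ pt x hx) : ∃ β, y = fourP hb β := by
  obtain ⟨a, ha, rfl⟩ := exists_pt y
  obtain ⟨u, v, e⟩ := mem_span_pair.1 (h (SNG.self_l1 a))
  have v0 : v ≠ 0 := by
    rintro rfl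
    rw [zero_smul, add_zero] at e
    refine hy ((one_smul (Gm F V) _).symm.trans (four_pt_eq ha hx (c := u) ?_ (by rw [one_smul, e])))
    rintro rfl
    exact ha (by rw [← e, zero_smul])
  refine ⟨v⁻¹ * u, (one_smul (Gm F V) _).symm.trans (four_pt_eq ha _ v0 ?_)⟩
  rw [one_smul, ← e, smul_add, smul_smul, mul_inv_cancel_left₀ v0, add_comm]

theorem four_inj {x b : V} (hx : x ≠ 0) (hb : b ∉ span F {x}) : Function.Injective (fourP hb) := by
  intro β β' e
  have e' : span F {b + β • x} = span F {b + β' • x} := congrArg Subtype.val e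
  obtain ⟨c, hc⟩ := mem_span_singleton.1 (e' ▸ SNG.self_l1 (b + β • x) : b + β • x ∈ span F {b + β' • x})
  obtain ⟨φ, h1, h2⟩ := SNG.sep2 hx hb (0 : F) 1
  obtain ⟨ψ, h3, h4⟩ := SNG.sep2 hx hb (1 : F) 0
  have k1 := congrArg φ hc
  have k2 := congrArg ψ hc
  simp only [map_smul, map_add, h1, h2, h3, h4, smul_eq_mul, mul_zero, add_zero, mul_one, zero_add] at k1 k2
  rw [← k2, k1, one_mul]

theorem four_ne {x b : V} (hx : x ≠ 0) (hb : b ∉ span F {x}) (β : F) : fourP hb β ≠ pt x hx := fun e => by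
  have e' : span F {b + β • x} = span F {x} := congrArg Subtype.val e
  exact four_nm hb β (e' ▸ SNG.self_l1 _)

theorem four_le {x b : V} (hb : b ∉ span F {x}) (β : F) : (fourP hb β).1 ≤ span F {x, b} :=
  SNG.l1_le (add_mem (SNG.right_l2 _ _) (smul_mem _ _ (SNG.left_l2 _ _)))

theorem four_line (h : nO K (Fl F V 1 2) = 1) {x b : V} (hx : x ≠ 0) (hb : b ∉ span F {x})
    {l : Submodule F V} (hl : x ∈ l) (h2 : finrank F l = 2) :
    ∃ k ∈ K ⊓ stabilizer (Gm F V) (pt x hx : Sub F V 1), im k (span F {x, b}) = l := by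
  obtain ⟨k, hk, e⟩ := nO_one h (fl2 x b hx hb)
    ⟨(span F {x}, l), SNG.l1_le hl, finrank_span_singleton hx, h2⟩
  exact ⟨k, ⟨hk, sub_smul_eq.2 (fl_smul_eq.1 e).1⟩, (fl_smul_eq.1 e).2⟩

theorem four_field (hq : Fintype.card F = 4) {S : Set F} (h2 : S.ncard = 2) (h0 : (0 : F) ∈ S) :
    ∃ γ : F, ∀ β : F, β ∈ S ∨ ∃ s ∈ S, β = γ + s := by
  classical
  have t : (2 : F) = 0 := by
    have := FiniteField.cast_card_eq_zero F
    rw [hq, show ((4 : ℕ) : F) = 2 * 2 by norm_num] at this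
    exact mul_self_eq_zero.1 this
  obtain ⟨σ, s0, rfl⟩ : ∃ σ, σ ≠ 0 ∧ S = {0, σ} := by
    obtain ⟨u, v, huv, rfl⟩ := Set.ncard_eq_two.1 h2
    rcases h0 with rfl | rfl
    · exact ⟨v, huv.symm, rfl⟩
    · exact ⟨u, huv, Set.pair_comm _ _⟩
  obtain ⟨γ, hγ⟩ : ∃ γ : F, γ ∉ ({0, σ} : Finset F) := by
    by_contra! H
    have := Finset.card_le_card (fun a _ => H a : (Finset.univ : Finset F) ⊆ {0, σ})
    have := Finset.card_le_two (a := (0 : F)) (b := σ)
    simp only [Finset.card_univ] at *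
    omega
  simp only [Finset.mem_insert, Finset.mem_singleton, not_or] at hγ
  have a1 : γ + σ ≠ 0 := fun e => hγ.2 (by linear_combination e - σ * t)
  have a2 : γ + σ ≠ σ := fun e => hγ.1 (by linear_combination e)
  have a3 : γ + σ ≠ γ := fun e => s0 (by linear_combination e)
  have u : ({0, σ, γ, γ + σ} : Finset F) = Finset.univ := Finset.eq_univ_of_card _ (by
    rw [hq, Finset.card_insert_of_notMem (by simp [s0.symm, Ne.symm hγ.1, a1.symm]),
      Finset.card_insert_of_notMem (by simp [Ne.symm hγ.2, s0, hγ.1]), Finset.card_pair a3.symm])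
  refine ⟨γ, fun β => ?_⟩
  have m : β ∈ ({0, σ, γ, γ + σ} : Finset F) := u ▸ Finset.mem_univ β
  simp only [Finset.mem_insert, Finset.mem_singleton] at m
  rcases m with rfl | rfl | rfl | rfl
  · exact Or.inl (Or.inl rfl)
  · exact Or.inl (Or.inr rfl)
  · exact Or.inr ⟨0, Or.inl rfl, (add_zero _).symm⟩
  · exact Or.inr ⟨σ, Or.inr rfl, rfl⟩

theorem four (hq : Fintype.card F = 4) (h5 : 5 ≤ finrank F V) (h : nO K (Fl F V 1 2) = 1)
    (hE : ∀ a b : V, a ≠ 0 → b ∉ span F {a} → (Eset K a b).ncard = 2 ∧ (Etr K a b).ncard = 2) :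
    False := by
  classical
  obtain ⟨z⟩ := exists_fl (F := F) (V := V) (a := 1) (b := 2) (by omega) (by omega)
  obtain ⟨x, b, hx, hb, -⟩ := exists_fl2 z
  obtain ⟨e1, e2⟩ := hE x b hx hb
  set L := K ⊓ stabilizer (Gm F V) (pt x hx : Sub F V 1) with hL
  have hs : (fun β => ((1 : F), β)) '' Etr K x b = Eset K x b :=
    Set.eq_of_subset_of_ncard_le (by rintro _ ⟨β, hβ, rfl⟩; exact hβ)
      (by rw [Set.ncard_image_of_injective _ fun a a' e => (Prod.ext_iff.1 e).2, e1, e2])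
  have tr : ∀ s ∈ Etr K x b, ∃ k ∈ L, ∀ δ, k • fourP hb δ = fourP hb (δ + s) := by
    rintro s ⟨k, hk, c, hc, k1, k2⟩
    exact ⟨k, ⟨hk, four_pt_eq hx hx hc k1⟩, four_act hb hc k1 k2⟩
  let O : Set (Sub F V 1) := {y | ∃ k ∈ L, k • fourP hb 0 = y}
  have Oi : ∀ k ∈ L, ∀ y, k • y ∈ O ↔ y ∈ O := fun k hk y =>
    ⟨fun ⟨g, hg, e⟩ => ⟨k⁻¹ * g, mul_mem (inv_mem hk) hg, by rw [mul_smul, e, inv_smul_smul]⟩,
      fun ⟨g, hg, e⟩ => ⟨k * g, mul_mem hk hg, by rw [mul_smul, e]⟩⟩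
  have Ox : pt x hx ∉ O := fun ⟨k, hk, e⟩ =>
    four_ne hx hb 0 (MulAction.injective k (e.trans (mem_stabilizer_iff.1 hk.2).symm))
  have l0 : {y : Sub F V 1 | y ∈ O ∧ y.1 ≤ span F {x, b}} = fourP hb '' Etr K x b := by
    ext y
    constructor
    · rintro ⟨⟨k, hk, rfl⟩, hy⟩
      obtain ⟨c, hc, k1⟩ := four_fix hx hk.2
      have m : k • (b + (0 : F) • x) ∈ span F {x, b} := hy (smul_mem_im.2 (SNG.self_l1 _))
      rw [zero_smul, add_zero] at m
      obtain ⟨u, v, e⟩ := mem_span_pair.1 m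
      have k2 : k • b = c • ((c⁻¹ * v) • b + (c⁻¹ * u) • x) := by
        rw [← e, smul_add, smul_smul, smul_smul, mul_inv_cancel_left₀ hc, mul_inv_cancel_left₀ hc, add_comm]
      obtain ⟨β, hβ, e'⟩ : (c⁻¹ * v, c⁻¹ * u) ∈ (fun β => ((1 : F), β)) '' Etr K x b :=
        hs ▸ ⟨k, hk.1, c, hc, k1, k2⟩
      obtain ⟨a1, a2⟩ := Prod.ext_iff.1 e'
      dsimp only at a1 a2
      rw [← a1, ← a2] at k2
      exact ⟨β, hβ, by rw [four_act hb hc k1 k2, zero_add]⟩
    · rintro ⟨s, hs', rfl⟩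
      obtain ⟨k, hk, e⟩ := tr s hs'
      exact ⟨⟨k, hk, by rw [e, zero_add]⟩, four_le hb s⟩
  have p2 : ∀ l : Submodule F V, x ∈ l → finrank F l = 2 → pts O l = 2 := fun l hl h2 => by
    obtain ⟨k, hk, rfl⟩ := four_line h hx hb hl h2
    rw [pts_smul O k (Oi k hk), pts, l0, Set.ncard_image_of_injective _ (four_inj hx hb), e2]
  obtain ⟨γ, hγ⟩ := four_field hq e2 ⟨1, one_mem _, 1, one_ne_zero, by simp, by simp⟩
  have n3 : nO L (Sub F V 1) ≤ 3 := nO_le_of_cover ![pt x hx, fourP hb 0, fourP hb γ] fun y => by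
    by_cases hy : y = pt x hx
    · exact ⟨0, 1, one_mem _, by rw [one_smul, hy]; rfl⟩
    obtain ⟨a, ha, rfl⟩ := exists_pt y
    have ax : a ∉ span F {x} := fun m => by
      obtain ⟨c, rfl⟩ := mem_span_singleton.1 m
      exact hy ((one_smul (Gm F V) _).symm.trans
        (four_pt_eq ha hx (c := c) (fun e => ha (by rw [e, zero_smul])) (one_smul _ _)))
    obtain ⟨k, hk, e⟩ := four_line h hx hb (SNG.left_l2 x a) (SNG.rk_l2 hx ax)
    have m : (k⁻¹ • pt a ha).1 ≤ span F {x, b} := by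
      rw [← im_le_im (g := k), e, ← sub_smul_val, smul_inv_smul]
      exact SNG.l1_le (SNG.right_l2 x a)
    obtain ⟨β, hβ⟩ := four_on hx hb m fun e => hy (by
      rw [inv_smul_eq_iff] at e
      exact e.trans hk.2)
    rw [inv_smul_eq_iff] at hβ
    rcases hγ β with m | ⟨s, m, rfl⟩
    · obtain ⟨g, hg, e⟩ := tr β m
      exact ⟨1, k * g, mul_mem hk hg, by rw [hβ, mul_smul]; exact congrArg _ ((e 0).trans (by rw [zero_add]))⟩
    · obtain ⟨g, hg, e⟩ := tr s m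
      exact ⟨2, k * g, mul_mem hk hg, by rw [hβ, mul_smul]; exact congrArg _ (e γ)⟩
  rw [← du (by omega)] at n3
  have rk : ∀ H : Submodule F V, H ⋖ ⊤ → finrank F H = finrank F V - 1 := fun H hH => by
    have := (SNG.covBy_iff.1 hH).2
    rw [finrank_top] at this
    omega
  by_cases H : ∃ h₁ h₂ : ℕ, ∀ H ∈ offs (⊥ : Submodule F V) x, pts O H = h₁ ∨ pts O H = h₂
  · obtain ⟨h₁, h₂, H⟩ := H
    exact twoW hq h5 hx O Ox p2 H
  push Not at H
  obtain ⟨H1, m1, -⟩ := H 0 0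
  obtain ⟨H2, m2, d21, -⟩ := H (pts O H1) 0
  obtain ⟨H3, m3, d31, d32⟩ := H (pts O H1) (pts O H2)
  obtain ⟨H0, m0⟩ : (downs (span F {x}) ⊤).Nonempty := by
    rw [← Finset.card_pos, cnt_down le_top, finrank_top, finrank_span_singleton hx,
      show finrank F V - 1 = finrank F V - 2 + 1 by omega, gq_succ']
    omega
  rw [mem_downs] at m0
  rw [mem_offs] at m1 m2 m3
  have x0 : x ∈ H0 := m0.1 (SNG.self_l1 x)
  obtain ⟨i, j, hij, k, hk, e⟩ := rel_of_lt (L := L) (Y := Sub F V (finrank F V - 1))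
    ![⟨H0, rk _ m0.2⟩, ⟨H1, rk _ m1.2.1⟩, ⟨H2, rk _ m2.2.1⟩, ⟨H3, rk _ m3.2.1⟩] (by omega)
  have inv : ∀ A B : Sub F V (finrank F V - 1), k • A = B → (x ∈ A.1 ↔ x ∈ B.1) ∧ pts O A.1 = pts O B.1 := by
    rintro A _ rfl
    obtain ⟨c, hc, k1⟩ := four_fix hx hk.2
    refine ⟨?_, (pts_smul O k (Oi k hk) _).symm⟩
    rw [← smul_mem_im (g := k), k1, Submodule.smul_mem_iff _ hc]
    rfl
  have := inv _ _ e
  have n1 := m1.2.2
  have n2 := m2.2.2
  have n3 := m3.2.2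
  fin_cases i <;> fin_cases j <;> simp_all

end Cfsg.Agent.RK3
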