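import Cfsg.Agent.RK3.Defs

/-! Project RK3 (notes/RK3.md, section Inn). -/

set_option autoImplicit false
set_option linter.unusedSectionVars false

namespace Cfsg.Agent.RK3

open MulAction Module Submodule

variable {G : Type*} [Group G] [Fintype G]

theorem pc_one (Y : Type*) [MulAction G Y] : pc Y (1 : G) = Nat.card Y := by
  rw [pc, fixedBy_one_eq_univ, Nat.card_univ]

theorem pc_congr {X Y : Type*} [MulAction G X] [MulAction G Y] (e : X ≃ Y)
    (he : ∀ (g : G) x, e (g • x) = g • e x) : (pc X : G → ℚ) = pc Y := by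
  funext g
  rw [pc, pc, Nat.card_congr (e.subtypeEquiv (q := (· ∈ fixedBy Y g)) fun x => ?_)]
  rw [mem_fixedBy, mem_fixedBy, ← he, e.apply_eq_iff_eq]

theorem inn_burn (Y : Type*) [MulAction G Y] [Finite Y] :
    ∑ g : G, pc Y g = (Fintype.card G : ℚ) * nO G Y := by
  classical
  haveI : ∀ g : G, Fintype (fixedBy Y g) := fun _ => Fintype.ofFinite _
  haveI : Fintype (orbitRel.Quotient G Y) := Fintype.ofFinite _
  have := sum_card_fixedBy_eq_card_orbits_mul_card_group G Y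
  simp only [pc, nO, Nat.card_eq_fintype_card]
  rw [mul_comm]
  exact_mod_cast this

open Classical in
theorem burn (L : Subgroup G) (Y : Type*) [MulAction G Y] [Finite Y] :
    ∑ k ∈ Finset.univ.filter (· ∈ L), pc Y k = (Nat.card L : ℚ) * nO L Y := by
  rw [Finset.sum_subtype (p := (· ∈ L)) _ (by simp), Nat.card_eq_fintype_card, ← inn_burn]
  rfl

theorem nO_top (Y : Type*) [MulAction G Y] : nO (⊤ : Subgroup G) Y = nO G Y := by
  refine Nat.card_congr (Quotient.congrRight fun a b => ?_)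
  rw [orbitRel_apply, orbitRel_apply]
  exact ⟨fun ⟨g, e⟩ => ⟨g.1, e⟩, fun ⟨g, e⟩ => ⟨⟨g, trivial⟩, e⟩⟩

theorem nO_congr (L : Subgroup G) {X Y : Type*} [MulAction G X] [MulAction G Y] [Finite X]
    [Finite Y] (h : (pc X : G → ℚ) = pc Y) : nO L X = nO L Y := by
  have h1 := burn L X
  rw [h, burn] at h1
  exact_mod_cast (mul_left_cancel₀ (Nat.cast_ne_zero.2 Nat.card_pos.ne') h1).symm

theorem ip_pc_one (Y : Type*) [MulAction G Y] [Finite Y] : ip (pc Y : G → ℚ) 1 = nO G Y := by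
  have hc : (Fintype.card G : ℚ) ≠ 0 := Nat.cast_ne_zero.2 Fintype.card_ne_zero
  simp only [ip, Pi.one_apply, mul_one]
  rw [inn_burn, mul_div_cancel_left₀ _ hc]

theorem ip_pc_pc (X Y : Type*) [MulAction G X] [MulAction G Y] [Finite X] [Finite Y] :
    ip (pc X : G → ℚ) (pc Y) = nO G (X × Y) := by
  rw [← ip_pc_one, ip, ip]
  congr 1
  refine Finset.sum_congr rfl fun g _ => ?_
  rw [Pi.one_apply, mul_one, pc, pc, pc, ← Nat.cast_mul, ← Nat.card_prod]
  exact congrArg _ (Nat.card_congr ⟨fun p => ⟨(p.1.1, p.2.1), Prod.ext p.1.2 p.2.2⟩,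
    fun p => (⟨p.1.1, congrArg Prod.fst p.2⟩, ⟨p.1.2, congrArg Prod.snd p.2⟩), fun _ => rfl, fun _ => rfl⟩)

theorem nO_prod {X : Type*} (Y : Type*) [MulAction G X] [MulAction G Y] [IsPretransitive G X]
    (x₀ : X) : nO G (X × Y) = nO (stabilizer G x₀) Y := by
  refine (Nat.card_congr (Equiv.ofBijective (α := orbitRel.Quotient (stabilizer G x₀) Y)
    (β := orbitRel.Quotient G (X × Y))
    (Quotient.map (fun y => (x₀, y)) fun a b ⟨g, e⟩ => ⟨g.1, Prod.ext g.2 e⟩) ⟨fun a b => ?_, fun p => ?_⟩)).symm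
  · refine Quotient.inductionOn₂ a b fun a b e => ?_
    obtain ⟨g, e⟩ := Quotient.exact e
    exact Quotient.sound ⟨⟨g, congrArg Prod.fst e⟩, congrArg Prod.snd e⟩
  · refine Quotient.inductionOn p fun p => ?_
    obtain ⟨g, e⟩ := exists_smul_eq G p.1 x₀
    exact ⟨Quotient.mk _ (g • p.2), Quotient.sound ⟨g, Prod.ext e rfl⟩⟩

theorem nO_stab_swap {X Y : Type*} [MulAction G X] [MulAction G Y] [IsPretransitive G X]
    [IsPretransitive G Y] (x₀ : X) (y₀ : Y) : nO (stabilizer G y₀) X = nO (stabilizer G x₀) Y := by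
  rw [← nO_prod, ← nO_prod]
  refine Nat.card_congr (Quotient.congr (Equiv.prodComm Y X) fun a b => ?_)
  rw [orbitRel_apply, orbitRel_apply]
  exact ⟨fun ⟨g, e⟩ => ⟨g, congrArg Prod.swap e⟩, fun ⟨g, e⟩ => ⟨g, congrArg Prod.swap e⟩⟩

theorem bes1 {φ ψ : G → ℚ} (hφ : ip φ φ = 2) (hψ : ip ψ ψ = 1) {a : ℤ} (ha : ip φ ψ = a) :
    a = 0 ∨ a = 1 ∨ a = -1 := by
  have h := ip_nonneg (φ - (a : ℚ) • ψ)
  simp only [ip_sub_left, ip_sub_right, ip_smul_left, ip_smul_right, ip_comm ψ φ, hφ, hψ, ha] at h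
  have h1 : a * a ≤ 2 := by
    have : (a : ℚ) * a ≤ 2 := by linarith
    exact_mod_cast this
  have h2 : a < 2 := by nlinarith
  have h3 : -2 < a := by nlinarith
  omega

theorem bes2 {φ ψ₁ ψ₂ : G → ℚ} (hφ : ip φ φ = 2) (h1 : ip ψ₁ ψ₁ = 1) (h2 : ip ψ₂ ψ₂ = 1)
    (h12 : ip ψ₁ ψ₂ = 0) {a b : ℤ} (ha : ip φ ψ₁ = a) (hb : ip φ ψ₂ = b) (a0 : a ≠ 0) (b0 : b ≠ 0) :
    φ = (a : ℚ) • ψ₁ + (b : ℚ) • ψ₂ := by
  refine sub_eq_zero.1 (eq_zero_of_ip ?_)
  simp only [ip_sub_left, ip_sub_right, ip_add_left, ip_add_right, ip_smul_left, ip_smul_right, ip_comm ψ₁ φ,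
    ip_comm ψ₂ φ, ip_comm ψ₂ ψ₁, hφ, h1, h2, h12, ha, hb]
  rcases (bes1 hφ h1 ha).resolve_left a0 with rfl | rfl <;>
    rcases (bes1 hφ h2 hb).resolve_left b0 with rfl | rfl <;> norm_num


end Cfsg.Agent.RK3
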