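import Cfsg.Agent.RK3.DC
import Cfsg.Agent.RK3.Ext
import Cfsg.Agent.RK3.Cnt

/-! Project RK3 (notes/RK3.md, section LineA). -/

set_option autoImplicit false
set_option linter.unusedSectionVars false

namespace Cfsg.Agent.RK3

open MulAction Module Submodule

theorem lineA_idx {G α : Type*} [Group G] (M D : Subgroup G) (φ : D → α)
    (h : ∀ x y : D, φ x = φ y ↔ (x : G)⁻¹ * y ∈ M) : M.relIndex D = (Set.range φ).ncard := by
  have hr : ∀ x y : D, (QuotientGroup.leftRel (M.subgroupOf D)) x y ↔ φ x = φ y := by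
    intro x y
    rw [QuotientGroup.leftRel_apply, Subgroup.mem_subgroupOf, h]
    rfl
  let f : D ⧸ M.subgroupOf D → α := Quotient.lift φ fun x y e => (hr x y).1 e
  have hf : Function.Injective f := by
    intro x y
    induction x using Quotient.inductionOn
    induction y using Quotient.inductionOn
    exact fun e => Quotient.sound ((hr _ _).2 e)
  have e : Set.range f = Set.range φ := by
    ext t
    constructor
    · rintro ⟨x, rfl⟩
      induction x using Quotient.inductionOn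
      exact ⟨_, rfl⟩
    · rintro ⟨x, rfl⟩
      exact ⟨Quotient.mk _ x, rfl⟩
  rw [← e, Set.ncard_range_of_injective hf]
  rfl

variable {F : Type*} [Field F] [Fintype F] {V : Type*} [AddCommGroup V] [Module F V] [Finite V]
  {K : Subgroup (Gm F V)}

theorem lineA_sc {g : Gm F V} {A B : Submodule F V} (hg : g ∈ Msc B) (h : A ≤ B) :
    im g A = A := by
  obtain ⟨c, hc⟩ := mem_Msc.1 hg
  exact im_eq_of_le (fun v hv => by rw [hc v (h hv)]; exact A.smul_mem c hv) le_rfl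

theorem ML_le_fl (z : Fl F V 1 2) : ML z.hi ≤ stabilizer (Gm F V) z := by
  intro g hg
  exact mem_stabilizer_iff.2 (fl_smul_eq.2 ⟨lineA_sc hg z.2.1, lineA_sc hg le_rfl⟩)

theorem fl_le_hi (z : Fl F V 1 2) : stabilizer (Gm F V) z ≤ stabilizer (Gm F V) z.hi := by
  intro g hg
  exact mem_stabilizer_iff.2 (sub_smul_eq.2 (fl_smul_eq.1 (mem_stabilizer_iff.1 hg)).2)

theorem lineA_ind {a b : V} (ha : a ≠ 0) (hb : b ∉ span F {a}) {x y x' y' : F}
    (h : x • b + y • a = x' • b + y' • a) : x = x' ∧ y = y' := by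
  obtain ⟨φ, h1, h2⟩ := SNG.sep2 ha hb (0 : F) 1
  obtain ⟨ψ, h3, h4⟩ := SNG.sep2 ha hb (1 : F) 0
  have e1 := congrArg φ h
  have e2 := congrArg ψ h
  simp only [map_add, map_smul, h1, h2, h3, h4, smul_eq_mul, mul_one, mul_zero, add_zero,
    zero_add] at e1 e2
  exact ⟨e1, e2⟩

theorem lineA_ex {a b : V} (ha : a ≠ 0) (hb : b ∉ span F {a}) {k : Gm F V}
    (hk : k ∈ stabilizer (Gm F V) (fl2 a b ha hb)) :
    ∃ e : F × F, ∃ c : F, c ≠ 0 ∧ k • a = c • a ∧ k • b = c • (e.1 • b + e.2 • a) := by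
  obtain ⟨h1, h2⟩ := fl_smul_eq.1 (mem_stabilizer_iff.1 hk)
  change im k (span F {a}) = span F {a} at h1
  change im k (span F {a, b}) = span F {a, b} at h2
  have m1 : k • a ∈ span F {a} := h1 ▸ smul_mem_im.2 (SNG.self_l1 a)
  have m2 : k • b ∈ span F {a, b} := h2 ▸ smul_mem_im.2 (SNG.right_l2 a b)
  obtain ⟨c, hc⟩ := mem_span_singleton.1 m1
  obtain ⟨x, y, hxy⟩ := mem_span_pair.1 m2
  have c0 : c ≠ 0 := by
    rintro rfl
    exact SNG.smul_ne (g := k) ha (by rw [← hc, zero_smul])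
  refine ⟨(c⁻¹ * y, c⁻¹ * x), c, c0, hc.symm, ?_⟩
  rw [← hxy, smul_add, smul_smul, smul_smul, mul_inv_cancel_left₀ c0, mul_inv_cancel_left₀ c0,
    add_comm]

theorem lineA_mem {a b : V} (ha : a ≠ 0) (hb : b ∉ span F {a}) {k : Gm F V} {c x y : F}
    (h1 : k • a = c • a) (h2 : k • b = c • (x • b + y • a)) :
    k ∈ stabilizer (Gm F V) (fl2 a b ha hb) := by
  refine mem_stabilizer_iff.2 (fl_smul_eq.2 ⟨?_, ?_⟩)
  · change im k (span F {a}) = span F {a}
    refine im_eq_of_le (fun v hv => ?_) le_rfl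
    obtain ⟨d, rfl⟩ := mem_span_singleton.1 hv
    rw [SNG.gs, h1]
    exact smul_mem _ _ (smul_mem _ _ (SNG.self_l1 a))
  · change im k (span F {a, b}) = span F {a, b}
    refine im_eq_of_le (fun v hv => ?_) le_rfl
    obtain ⟨d, d', rfl⟩ := mem_span_pair.1 hv
    rw [smul_add, SNG.gs, SNG.gs, h1, h2]
    exact add_mem (smul_mem _ _ (smul_mem _ _ (SNG.left_l2 a b)))
      (smul_mem _ _ (smul_mem _ _ (add_mem (smul_mem _ _ (SNG.right_l2 a b))
        (smul_mem _ _ (SNG.left_l2 a b)))))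

theorem lineA_uniq {a b : V} (ha : a ≠ 0) (hb : b ∉ span F {a}) {k : Gm F V} {c c' : F}
    {e e' : F × F} (c0 : c ≠ 0) (h1 : k • a = c • a) (h2 : k • b = c • (e.1 • b + e.2 • a))
    (h1' : k • a = c' • a) (h2' : k • b = c' • (e'.1 • b + e'.2 • a)) : e = e' := by
  have cc : c = c' := smul_left_injective F ha (h1.symm.trans h1')
  subst cc
  have := smul_right_injective V c0 (h2.symm.trans h2')
  exact Prod.ext (lineA_ind ha hb this).1 (lineA_ind ha hb this).2

theorem lineA {a b : V} (ha : a ≠ 0) (hb : b ∉ span F {a}) (K : Subgroup (Gm F V)) :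
    (ML (fl2 a b ha hb).hi).relIndex (stabilizer (Gm F V) (fl2 a b ha hb) ⊓ K) =
      (Eset K a b).ncard := by
  have hex : ∀ k : ↥(stabilizer (Gm F V) (fl2 a b ha hb) ⊓ K), ∃ e : F × F, ∃ c : F, c ≠ 0 ∧
      (k : Gm F V) • a = c • a ∧ (k : Gm F V) • b = c • (e.1 • b + e.2 • a) :=
    fun k => lineA_ex ha hb (Subgroup.mem_inf.1 k.2).1
  choose φ c c0 h1 h2 using hex
  rw [lineA_idx _ _ φ]
  · congr 1
    ext e
    constructor
    · rintro ⟨k, rfl⟩
      exact ⟨k, (Subgroup.mem_inf.1 k.2).2, c k, c0 k, h1 k, h2 k⟩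
    · rintro ⟨k, hk, d, d0, e1, e2⟩
      let k' : ↥(stabilizer (Gm F V) (fl2 a b ha hb) ⊓ K) :=
        ⟨k, Subgroup.mem_inf.2 ⟨lineA_mem ha hb e1 e2, hk⟩⟩
      exact ⟨k', lineA_uniq ha hb (c0 k') (h1 k') (h2 k') e1 e2⟩
  · intro x y
    change _ ↔ _ ∈ Msc (span F {a, b})
    rw [mem_Msc]
    constructor
    · intro e
      refine ⟨c y * (c x)⁻¹, fun v hv => ?_⟩
      obtain ⟨d, d', rfl⟩ := mem_span_pair.1 hv
      rw [mul_smul, inv_smul_eq_iff, SNG.gs, smul_add, smul_add, SNG.gs, SNG.gs, SNG.gs, SNG.gs,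
        h1, h1, h2, h2, e]
      have := c0 x
      match_scalars <;> field_simp
    · rintro ⟨d, hd⟩
      have ea := hd a (SNG.left_l2 a b)
      have eb := hd b (SNG.right_l2 a b)
      rw [mul_smul, inv_smul_eq_iff, SNG.gs, h1 x, smul_smul] at ea
      rw [mul_smul, inv_smul_eq_iff, SNG.gs, h2 x, smul_smul] at eb
      exact (lineA_uniq ha hb (c0 y) (h1 y) (h2 y) ea eb).symm

theorem lineA_top (h3 : 3 ≤ finrank F V) {a b : V} (ha : a ≠ 0) (hb : b ∉ span F {a}) :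
    Eset (⊤ : Subgroup (Gm F V)) a b = {x : F | x ≠ 0} ×ˢ (Set.univ : Set F) := by
  ext e
  simp only [Set.mem_prod, Set.mem_setOf_eq, Set.mem_univ, and_true]
  constructor
  · rintro ⟨k, -, c, c0, h1, h2⟩ e0
    apply hb
    rw [← SNG.smul_mem_l1 k, h1, h2, e0, zero_smul, zero_add, smul_smul, mul_comm, ← smul_smul]
    exact smul_mem _ _ (SNG.self_l1 _)
  · intro e0
    have hb' : e.1 • b + e.2 • a ∉ span F {a} := by
      intro h
      apply hb
      have := sub_mem h (smul_mem _ e.2 (SNG.self_l1 (F := F) a))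
      rw [add_sub_cancel_right] at this
      exact (smul_mem_iff _ e0).1 this
    obtain ⟨g, g1, g2⟩ := ext_pair h3 ha hb ha hb'
    exact ⟨g, trivial, 1, one_ne_zero, by rw [g1, one_smul], by rw [g2, one_smul]⟩

theorem line_top (h3 : 3 ≤ finrank F V) (z : Fl F V 1 2) :
    (ML z.hi).relIndex (stabilizer (Gm F V) z) = Fintype.card F * (Fintype.card F - 1) := by
  obtain ⟨a, b, ha, hb, rfl⟩ := exists_fl2 z
  have h := lineA ha hb ⊤
  rw [inf_top_eq] at h
  rw [h, lineA_top h3 ha hb, Set.ncard_prod, Set.ncard_univ, Nat.card_eq_fintype_card, mul_comm]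
  congr 1
  have : {x : F | x ≠ 0} = Set.univ \ {0} := by ext x; simp
  rw [this, Set.ncard_diff_singleton_of_mem (Set.mem_univ _), Set.ncard_univ,
    Nat.card_eq_fintype_card]

theorem lineH (h : nO K (Fl F V 1 2) = 1) {a b : V} (ha : a ≠ 0) (hb : b ∉ span F {a}) :
    (ML (fl2 a b ha hb).hi).relIndex (stabilizer (Gm F V) (fl2 a b ha hb).hi ⊓ K) =
      (Fintype.card F + 1) * (Eset K a b).ncard := by
  rw [← lineA ha hb K]
  generalize fl2 a b ha hb = z
  have h1 := Subgroup.relIndex_inf_mul_relIndex (ML z.hi) (stabilizer (Gm F V) z)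
    (stabilizer (Gm F V) z.hi ⊓ K)
  rw [inf_eq_left.2 (ML_le_fl z), ← inf_assoc, inf_eq_left.2 (fl_le_hi z)] at h1
  rw [← h1, mul_comm]
  congr 1
  rw [lineA_idx _ (stabilizer (Gm F V) z.hi ⊓ K) (fun k => (k : Gm F V) • z.lo)]
  · have hp := pts_univ (F := F) z.1.2
    rw [z.2.2.2] at hp
    have hq : gq (Fintype.card F) 2 = Fintype.card F + 1 := by
      rw [gq_succ', gq_succ', gq_zero]; ring
    rw [← hq, ← hp, pts]
    congr 1
    ext x
    simp only [Set.mem_range, Set.mem_setOf_eq, Set.mem_univ, true_and]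
    constructor
    · rintro ⟨k, rfl⟩
      have hk := sub_smul_eq.1 (mem_stabilizer_iff.1 (Subgroup.mem_inf.1 k.2).1)
      change im k z.1.2 = z.1.2 at hk
      rw [sub_smul_val, ← hk]
      exact im_le_im.2 z.2.1
    · intro hx
      obtain ⟨k, hk, e⟩ := nO_one h z ⟨(x.1, z.1.2), hx, x.2, z.2.2.2⟩
      obtain ⟨e1, e2⟩ := fl_smul_eq.1 e
      exact ⟨⟨k, Subgroup.mem_inf.2 ⟨mem_stabilizer_iff.2 (sub_smul_eq.2 e2), hk⟩⟩,
        sub_smul_eq.2 e1⟩
  · intro x y
    have hk := sub_smul_eq.1 (mem_stabilizer_iff.1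
      (Subgroup.mem_inf.1 (mul_mem (inv_mem x.2) y.2)).1)
    rw [mem_stabilizer_iff, fl_smul_eq, eq_comm, ← inv_smul_eq_iff, ← mul_smul, sub_smul_eq]
    exact ⟨fun e => ⟨e, hk⟩, fun e => e.1⟩


end Cfsg.Agent.RK3
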