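import Cfsg.Agent.RK3.DC
import Cfsg.Agent.RK3.Ext

/-! Project RK3 (notes/RK3.md, section LineB). -/

set_option autoImplicit false
set_option linter.unusedSectionVars false

namespace Cfsg.Agent.RK3

open MulAction Module Submodule

variable {F : Type*} [Field F] [Fintype F] {V : Type*} [AddCommGroup V] [Module F V] [Finite V]
  {K : Subgroup (Gm F V)}

namespace LineB

theorem one (a b : V) : ((1 : F), (0 : F)) ∈ Eset K a b :=
  ⟨1, one_mem _, 1, one_ne_zero, by simp, by simp⟩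

theorem mul {a b : V} {α β α' β' : F} (h : (α, β) ∈ Eset K a b) (h' : (α', β') ∈ Eset K a b) :
    (α * α', α' * β + β') ∈ Eset K a b := by
  obtain ⟨k, hk, c, c0, h1, h2⟩ := h
  obtain ⟨k', hk', c', c0', h1', h2'⟩ := h'
  refine ⟨k * k', K.mul_mem hk hk', c * c', mul_ne_zero c0 c0', ?_, ?_⟩
  · rw [mul_smul, h1', SNG.gs, h1]; module
  · rw [mul_smul, h2', SNG.gs, smul_add, SNG.gs, SNG.gs, h1, h2]; module

theorem ne {a b : V} (hb : b ∉ span F {a}) {α β : F} (h : (α, β) ∈ Eset K a b) : α ≠ 0 := by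
  rintro rfl
  obtain ⟨k, -, c, -, h1, h2⟩ := h
  refine hb (mem_span_singleton.2 ⟨β, SNG.smul_inj (g := k) ?_⟩)
  rw [SNG.gs, h1, h2]; module

theorem inv {a b : V} (hb : b ∉ span F {a}) {α β : F} (h : (α, β) ∈ Eset K a b) :
    (α⁻¹, -(α⁻¹ * β)) ∈ Eset K a b := by
  have a0 := ne hb h
  obtain ⟨k, hk, c, c0, h1, h2⟩ := h
  refine ⟨k⁻¹, K.inv_mem hk, c⁻¹, inv_ne_zero c0, ?_, ?_⟩
  · rw [inv_smul_eq_iff, SNG.gs, h1, smul_smul, inv_mul_cancel₀ c0, one_smul]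
  · rw [inv_smul_eq_iff, SNG.gs, smul_add, SNG.gs, SNG.gs, h1, h2]
    match_scalars <;> field_simp
    ring

theorem sub {a b : V} (hb : b ∉ span F {a}) {α β β' : F} (h : (α, β) ∈ Eset K a b) (h' : (α, β') ∈ Eset K a b) :
    ((1 : F), β' - β) ∈ Eset K a b := by
  have a0 := ne hb h
  have := mul (inv hb h) h'
  rwa [inv_mul_cancel₀ a0, mul_neg, mul_inv_cancel_left₀ a0, neg_add_eq_sub] at this

theorem conj {a b : V} (hb : b ∉ span F {a}) {α β σ : F} (h : (α, β) ∈ Eset K a b)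
    (h' : ((1 : F), σ) ∈ Eset K a b) : ((1 : F), α * σ) ∈ Eset K a b := by
  have := sub hb h (by simpa using mul h' h : (α, α * σ + β) ∈ Eset K a b)
  rwa [add_sub_cancel_right] at this

/-- the translations -/
def S {a b : V} (hb : b ∉ span F {a}) (K : Subgroup (Gm F V)) : AddSubgroup F where
  carrier := Etr K a b
  zero_mem' := one a b
  add_mem' := fun {x y} hx hy => show ((1 : F), x + y) ∈ Eset K a b by simpa using mul hx hy
  neg_mem' := fun {x} hx => show ((1 : F), -x) ∈ Eset K a b by simpa using inv hb hx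

/-- the multipliers -/
def A {a b : V} (hb : b ∉ span F {a}) (K : Subgroup (Gm F V)) : Subgroup Fˣ where
  carrier := {u | ∃ β, ((u : F), β) ∈ Eset K a b}
  one_mem' := ⟨0, one a b⟩
  mul_mem' := fun ⟨_, hx⟩ ⟨_, hy⟩ => ⟨_, mul hx hy⟩
  inv_mem' := fun ⟨_, hx⟩ => ⟨_, by simpa using inv hb hx⟩

theorem card_E {a b : V} (hb : b ∉ span F {a}) :
    (Eset K a b).ncard = (Etr K a b).ncard * Nat.card (A hb K) := by
  choose β hβ using fun u : A hb K => (u.2 : ∃ β, ((u.1 : F), β) ∈ Eset K a b)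
  rw [← Nat.card_coe_set_eq, ← Nat.card_coe_set_eq, ← Nat.card_prod]
  refine (Nat.card_eq_of_bijective (fun x : Etr K a b × A hb K => (⟨((x.2.1 : F), β x.2 + x.1.1), by
    simpa using mul (hβ x.2) x.1.2⟩ : Eset K a b)) ⟨?_, ?_⟩).symm
  · rintro ⟨σ, u⟩ ⟨σ', u'⟩ e
    obtain ⟨e1, e2⟩ := Prod.ext_iff.1 (Subtype.ext_iff.1 e)
    obtain rfl : u = u' := Subtype.ext (Units.ext e1)
    exact Prod.ext (Subtype.ext (add_left_cancel e2)) rfl
  · rintro ⟨⟨α, γ⟩, h⟩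
    let u : A hb K := ⟨Units.mk0 α (ne hb h), γ, h⟩
    exact ⟨(⟨γ - β u, sub hb (hβ u) h⟩, u), Subtype.ext (Prod.ext rfl (add_sub_cancel _ _))⟩

theorem dvd_S {a b : V} (hb : b ∉ span F {a}) : Nat.card (A hb K) ∣ (Etr K a b).ncard - 1 := by
  let T : Set Fˣ := {u | (u : F) ∈ Etr K a b}
  have e1 : (QuotientGroup.mk ⁻¹' ((QuotientGroup.mk : Fˣ → Fˣ ⧸ A hb K) '' T)) = T := by
    refine Set.Subset.antisymm ?_ (Set.subset_preimage_image _ _)
    rintro x ⟨y, hy, e⟩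
    obtain ⟨β, h⟩ := QuotientGroup.eq.1 e
    have := conj hb h hy
    rwa [← Units.val_mul, mul_comm, mul_inv_cancel_left] at this
  have e2 : Units.val '' T = Etr K a b \ {0} := by
    ext x
    exact ⟨by rintro ⟨u, hu, rfl⟩; exact ⟨hu, u.ne_zero⟩, fun h => ⟨Units.mk0 x h.2, h.1, rfl⟩⟩
  rw [← Set.ncard_diff_singleton_of_mem (show (0 : F) ∈ Etr K a b from one a b), ← e2,
    Set.ncard_image_of_injective _ Units.val_injective, ← Nat.card_coe_set_eq, ← e1, QuotientGroup.card_preimage_mk]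
  exact dvd_mul_right _ _

theorem le (h : nO K (Fl F V 1 2) = 1) {a b a' b' : V} (ha : a ≠ 0) (hb : b ∉ span F {a})
    (ha' : a' ≠ 0) (hb' : b' ∉ span F {a'}) :
    (Eset K a' b').ncard ≤ (Eset K a b).ncard ∧ (Etr K a' b').ncard ≤ (Etr K a b).ncard := by
  obtain ⟨k, hk, e⟩ := nO_one h (fl2 a b ha hb) (fl2 a' b' ha' hb')
  obtain ⟨e1, e2⟩ := fl_smul_eq.1 e
  obtain ⟨l, hl⟩ := mem_span_singleton.1 (show k • a ∈ span F {a'} from
    e1.le (smul_mem_im.2 (SNG.self_l1 a)))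
  obtain ⟨n, m, hm⟩ := mem_span_pair.1 (show k • b ∈ span F {a', b'} from
    e2.le (smul_mem_im.2 (SNG.right_l2 a b)))
  have l0 : l ≠ 0 := by
    rintro rfl
    exact SNG.smul_ne ha (by rw [← hl, zero_smul])
  have m0 : m ≠ 0 := by
    rintro rfl
    refine hb (mem_span_singleton.2 ⟨n / l, SNG.smul_inj (g := k) ?_⟩)
    rw [SNG.gs, ← hl, ← hm, smul_smul, div_mul_cancel₀ _ l0, zero_smul, add_zero]
  have key : ∀ α β : F, (α, β) ∈ Eset K a' b' → (α, (m * β + n - α * n) / l) ∈ Eset K a b := by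
    rintro α β ⟨g, hg, c, c0, h1, h2⟩
    refine ⟨k⁻¹ * g * k, K.mul_mem (K.mul_mem (K.inv_mem hk) hg) hk, c, c0, ?_, ?_⟩
    · rw [mul_smul, mul_smul, inv_smul_eq_iff, SNG.gs, ← hl, SNG.gs, h1]; module
    · rw [mul_smul, mul_smul, inv_smul_eq_iff, SNG.gs, smul_add, SNG.gs, SNG.gs, ← hl, ← hm, smul_add, SNG.gs,
        SNG.gs, h1, h2]
      match_scalars <;> field_simp
      ring
  constructor
  · refine Set.ncard_le_ncard_of_injOn (fun x => (x.1, (m * x.2 + n - x.1 * n) / l)) (fun x hx => key _ _ hx) ?_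
    rintro ⟨α, β⟩ - ⟨α', β'⟩ - e
    obtain ⟨rfl, e⟩ := Prod.ext_iff.1 e
    have := (div_left_inj' l0).1 e
    exact Prod.ext rfl (mul_left_cancel₀ m0 (by linear_combination this))
  · refine Set.ncard_le_ncard_of_injOn (fun x => (m * x + n - 1 * n) / l) (fun x hx => key _ _ hx) ?_
    intro β _ β' _ e
    have := (div_left_inj' l0).1 e
    exact mul_left_cancel₀ m0 (by linear_combination this)

end LineB

theorem lineB (p : ℕ) [Fact p.Prime] [CharP F p] {a b : V} (ha : a ≠ 0) (hb : b ∉ span F {a}) :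
    ∃ i m : ℕ, (Etr K a b).ncard = p ^ i ∧ (Eset K a b).ncard = p ^ i * m ∧ m ∣ p ^ i - 1 ∧
      m ∣ Fintype.card F - 1 := by
  obtain ⟨n, hp, hn⟩ := FiniteField.card F p
  have d := AddSubgroup.card_addSubgroup_dvd_card (LineB.S hb K)
  rw [Nat.card_eq_fintype_card (α := F), hn] at d
  obtain ⟨i, -, hi⟩ := (Nat.dvd_prime_pow hp).1 d
  have hi' : (Etr K a b).ncard = p ^ i := (Nat.card_coe_set_eq _).symm.trans hi
  refine ⟨i, Nat.card (LineB.A hb K), hi', by rw [← hi', LineB.card_E hb], hi' ▸ LineB.dvd_S hb, ?_⟩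
  rw [← Nat.card_eq_fintype_card, ← Nat.card_units]
  exact Subgroup.card_subgroup_dvd_card _

theorem eset_tr (h : nO K (Fl F V 1 2) = 1) {a b a' b' : V} (ha : a ≠ 0) (hb : b ∉ span F {a})
    (ha' : a' ≠ 0) (hb' : b' ∉ span F {a'}) :
    (Eset K a b).ncard = (Eset K a' b').ncard ∧ (Etr K a b).ncard = (Etr K a' b').ncard :=
  ⟨le_antisymm (LineB.le h ha' hb' ha hb).1 (LineB.le h ha hb ha' hb').1,
    le_antisymm (LineB.le h ha' hb' ha hb).2 (LineB.le h ha hb ha' hb').2⟩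

theorem zero_mem_Etr (a b : V) : (0 : F) ∈ Etr K a b := LineB.one a b


end Cfsg.Agent.RK3
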