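import Cfsg.Agent.RK3.Defs

/-! Project RK3 (notes/RK3.md, section Num). -/

set_option autoImplicit false
set_option linter.unusedSectionVars false

namespace Cfsg.Agent.RK3

open MulAction Module Submodule

theorem num_gq {q : ℕ} (hq : 1 ≤ q) (k : ℕ) : (gq q k : ℤ) * (q - 1) = q ^ k - 1 := by
  have := congrArg (Nat.cast : ℕ → ℤ) (gq_mul hq k)
  push_cast [Nat.cast_sub hq] at this
  linear_combination this

theorem num_no {q a Z : ℤ} (h0 : 0 < a) (h1 : a < q ^ 4) (h : a = q ^ 4 * Z) : False :=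
  absurd (Int.le_of_dvd h0 ⟨Z, h⟩) (not_le.2 h1)

theorem num1 {q n x s J : ℕ} (hq : 2 ≤ q) (hn : 5 ≤ n) (hx : q ^ (n - 1) ∣ x)
    (hs : s * (q + 1) = gq q n * gq q (n - 1)) (h1 : 1 ≤ J) (h2 : J < 2 * (q * (q - 1)))
    (h : x + gq q n = 1 + s * J) : False := by
  obtain ⟨k, rfl⟩ : ∃ k, n = k + 5 := ⟨n - 5, by omega⟩
  obtain ⟨y, rfl⟩ := hx
  have q1 : 1 ≤ q := by omega
  have hA := num_gq q1 (k + 5)
  have hB := num_gq q1 (k + 4)
  rw [show k + 5 - 1 = k + 4 from rfl] at hs h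
  zify [q1] at hs h h1 h2 hq
  rw [pow_add] at hA hB h
  generalize (gq q (k + 5) : ℤ) = A at *
  generalize (gq q (k + 4) : ℤ) = B at *
  generalize (q : ℤ) ^ k = w at *
  generalize (q : ℤ) = q at *
  have e1 : (q - 1) ^ 2 * (A * B) = (w * q ^ 5 - 1) * (w * q ^ 4 - 1) := by rw [← hA, ← hB]; ring
  obtain ⟨r, rfl⟩ : ∃ r, q = r + 2 := ⟨q - 2, by ring⟩
  have r0 : 0 ≤ r := by linarith
  refine num_no (q := r + 2) (a := J + (r + 2) ^ 3 - (r + 2)) (by nlinarith [pow_nonneg r0 2, pow_nonneg r0 3])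
    (by nlinarith [pow_nonneg r0 2, pow_nonneg r0 3, pow_nonneg r0 4])
    (Z := (r + 3) * (r + 1) ^ 2 * w * y + ((r + 2) ^ 2 - 1) * (r + 2) * w - J * ((r + 2) ^ 5 * w ^ 2 - (r + 2) * w - w)) ?_
  linear_combination -J * e1 - J * (r + 1) ^ 2 * hs - (r + 3) * (r + 1) ^ 2 * h + ((r + 2) ^ 2 - 1) * hA

theorem num2 {q n x s j : ℕ} (hq : 2 ≤ q) (hn : 5 ≤ n) (hx : q ^ (n - 1) ∣ x)
    (hs : s * (q + 1) = gq q n * gq q (n - 1)) (h1 : 1 ≤ j) (h2 : j ≤ q * (q - 1))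
    (h : x = 1 + s * (j - 1)) : False := by
  obtain ⟨k, rfl⟩ : ∃ k, n = k + 5 := ⟨n - 5, by omega⟩
  obtain ⟨y, hy⟩ := hx
  rw [hy] at h
  have q1 : 1 ≤ q := by omega
  have hA := num_gq q1 (k + 5)
  have hB := num_gq q1 (k + 4)
  rw [show k + 5 - 1 = k + 4 from rfl] at hs h
  zify [q1, h1] at hs h h2 hq
  zify at h1
  rw [pow_add] at hA hB h
  clear hy
  generalize (gq q (k + 5) : ℤ) = A at *
  generalize (gq q (k + 4) : ℤ) = B at *
  generalize (q : ℤ) ^ k = w at *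
  generalize (q : ℤ) = q at *
  have e1 : (q - 1) ^ 2 * (A * B) = (w * q ^ 5 - 1) * (w * q ^ 4 - 1) := by rw [← hA, ← hB]; ring
  obtain ⟨r, rfl⟩ : ∃ r, q = r + 2 := ⟨q - 2, by ring⟩
  have r0 : 0 ≤ r := by linarith
  refine num_no (q := r + 2) (a := j - 1 + (r + 3) * (r + 1) ^ 2) (by nlinarith [pow_nonneg r0 2, pow_nonneg r0 3])
    (by nlinarith [pow_nonneg r0 2, pow_nonneg r0 3, pow_nonneg r0 4])
    (Z := (r + 3) * (r + 1) ^ 2 * w * y - (j - 1) * ((r + 2) ^ 5 * w ^ 2 - (r + 2) * w - w)) ?_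
  linear_combination -(j - 1) * e1 - (j - 1) * (r + 1) ^ 2 * hs - (r + 3) * (r + 1) ^ 2 * h

theorem num_last {m b g W D r : ℤ} (hm : 0 < m) (hb : 0 < b) (hW : 0 < W) (hr : 0 ≤ r)
    (hg : g * (m * b) = W - 1) (hD : D + 1 = (m * b + 1) * b * ((m * b + 1) * ((m * b + 1) * g + 1) + 1))
    (h : (W * (m * b + 1) ^ 2 + 1) * m = D * r) : W = 1 ∧ b = 1 ∧ m = 1 := by
  obtain ⟨t, ht⟩ : ∃ t, t = m * b + 1 := ⟨_, rfl⟩
  rw [← ht] at hD h
  have mt : m + 1 ≤ t := by nlinarith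
  have hmD : m * D = W * t ^ 3 - t - m := by
    have : m * b = t - 1 := by linarith
    rw [this] at hg
    linear_combination m * hD + t * (t * (t * g + 1) + 1) * this + t ^ 3 * hg
  have e : r * (W * t ^ 3 - t - m) = (W * t ^ 2 + 1) * m ^ 2 := by linear_combination -r * hmD - m * h
  have d : t ^ 2 ∣ r - (t - m) := ⟨(b * t + 1) * (b * (t * g + 1) * r - W * m) + b ^ 2 * r - 1, by
    linear_combination (b * t + 1) * h + (b * t + 1) * r * hD + t * ht⟩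
  have lt : r < t ^ 2 := by
    by_contra! c
    obtain ⟨a, rfl⟩ : ∃ a, t = a + 2 := ⟨t - 2, by ring⟩
    obtain ⟨V, rfl⟩ : ∃ V, W = V + 1 := ⟨W - 1, by ring⟩
    have a0 : 0 ≤ a := by linarith
    have V0 : 0 ≤ V := by linarith
    have h1 : (a + 2) ^ 2 * ((V + 1) * (a + 2) ^ 3 - 2 * (a + 2) + 1) ≤ r * ((V + 1) * (a + 2) ^ 3 - (a + 2) - m) :=
      mul_le_mul c (by linarith) (by ring_nf; positivity) hr
    have h2 : ((V + 1) * (a + 2) ^ 2 + 1) * m ^ 2 ≤ ((V + 1) * (a + 2) ^ 2 + 1) * (a + 1) ^ 2 :=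
      mul_le_mul_of_nonneg_left (pow_le_pow_left₀ hm.le (by linarith) 2) (by positivity)
    have h3 : 0 < (a + 2) ^ 2 * ((V + 1) * (a + 2) ^ 3 - 2 * (a + 2) + 1) - ((V + 1) * (a + 2) ^ 2 + 1) * (a + 1) ^ 2 := by
      ring_nf; positivity
    linarith
  have er : r = t - m := sub_eq_zero.1 (Int.eq_zero_of_abs_lt_dvd d (abs_lt.2 ⟨by nlinarith, by linarith⟩))
  have t0 : t ^ 2 ≠ 0 := pow_ne_zero 2 (by linarith : 0 < t).ne'
  have e2 : W * (t * (t - m) - m ^ 2) = 1 := mul_left_cancel₀ t0 (by rw [er] at e; linear_combination e)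
  have W1 : W = 1 := Int.eq_one_of_mul_eq_one_right hW.le e2
  rw [W1, ht] at e2
  have e3 : m * (b ^ 2 - b - 1) = 1 - 2 * b := mul_left_cancel₀ hm.ne' (by linear_combination e2)
  have b1 : b = 1 := by
    by_contra c
    have : 2 ≤ b := by omega
    nlinarith [mul_pos hm (by nlinarith : 0 < b ^ 2 - b - 1)]
  rw [b1] at e3
  exact ⟨W1, b1, by linarith⟩

theorem num3 {p f i m j : ℕ} (hp : p.Prime) (h0 : 0 < i) (hi : i < f) (h1 : m ∣ p ^ i - 1)
    (h2 : m ∣ p ^ f - 1) (h3 : j * (p ^ i * m) = p ^ f * (p ^ f - 1))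
    (h4 : (j - 1) ∣ (p ^ f + 1) * (p ^ i * m)) : p ^ f = 4 ∧ p ^ i = 2 ∧ m = 1 := by
  have hm := Nat.dvd_gcd h1 h2
  rw [Nat.pow_sub_one_gcd_pow_sub_one] at hm
  have d0 : 0 < Nat.gcd i f := Nat.gcd_pos_of_pos_left _ h0
  obtain ⟨v, hv⟩ := Nat.gcd_dvd_left i f
  obtain ⟨u, hu⟩ := Nat.gcd_dvd_right i f
  generalize Nat.gcd i f = d at *
  subst hv hu
  have t2 : 2 ≤ p ^ d := Nat.one_lt_pow d0.ne' hp.one_lt
  rw [pow_mul, pow_mul] at *
  generalize p ^ d = t at *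
  have v0 : 0 < v := Nat.pos_of_mul_pos_left h0
  obtain ⟨e, rfl⟩ : ∃ e, u = v + 1 + e := Nat.exists_eq_add_of_le (Nat.lt_of_mul_lt_mul_left hi)
  obtain ⟨k, rfl⟩ : ∃ k, v = k + 1 := ⟨v - 1, by omega⟩
  obtain ⟨b, hb⟩ := hm
  have m0 : 0 < m := Nat.pos_of_mul_pos_right (a := m) (b := b) (by omega)
  have b0 : 0 < b := Nat.pos_of_mul_pos_left (a := m) (b := b) (by omega)
  have hG := gq_mul (q := t) (by omega) (k + 1 + 1 + e)
  have ej : j = t * (t ^ e * b * gq t (k + 1 + 1 + e)) :=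
    Nat.eq_of_mul_eq_mul_right (by positivity : 0 < t ^ (k + 1) * m) (by
      rw [h3, show t ^ (k + 1 + 1 + e) - 1 = gq t (k + 1 + 1 + e) * (m * b) by rw [← hb]; omega]; ring)
  have G0 : t ^ (k + 1 + e) ≤ gq t (k + 1 + 1 + e) := by
    rw [show k + 1 + 1 + e = k + 1 + e + 1 by ring, gq_succ]; omega
  have j0 : 0 < j := by
    have : 0 < gq t (k + 1 + 1 + e) := lt_of_lt_of_le (by positivity) G0
    rw [ej]; positivity
  obtain ⟨D, rfl⟩ : ∃ D, j = D + 1 := ⟨j - 1, by omega⟩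
  have cp : Nat.Coprime D t := Nat.Coprime.coprime_dvd_right ⟨_, ej⟩ (by simp)
  rw [Nat.add_sub_cancel, mul_left_comm] at h4
  have h5 := (cp.pow_right (k + 1)).dvd_of_dvd_mul_left h4
  have ht : t = m * b + 1 := by omega
  rcases e with _ | e
  · obtain ⟨r, hr⟩ := h5
    have hg := gq_mul (q := t) (by omega) k
    rw [add_zero, gq_succ', gq_succ'] at ej
    rw [hb] at hg
    obtain ⟨a1, a2, a3⟩ := num_last (m := m) (b := b) (g := gq t k) (W := t ^ k) (D := D) (r := r) (by positivity)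
      (by positivity) (by positivity) (by positivity) (by zify at hg; linear_combination hg)
      (by zify at ej ht; rw [← ht]; linear_combination ej) (by zify at hr ht; rw [← ht]; linear_combination hr)
    obtain rfl : b = 1 := by exact_mod_cast a2
    obtain rfl : m = 1 := by exact_mod_cast a3
    have a4 : t ^ k = 1 := by exact_mod_cast a1
    rw [add_zero, pow_succ, pow_succ, a4, ht]
    exact ⟨rfl, rfl, rfl⟩
  · exfalso
    have l1 := Nat.le_of_dvd (by positivity) h5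
    have l2 : m ≤ m * b := Nat.le_mul_of_pos_right _ b0
    have l3 : t * (t * 1 * t ^ (k + 1 + (e + 1))) ≤ D + 1 := by
      rw [ej]
      exact Nat.mul_le_mul_left _ (Nat.mul_le_mul (Nat.mul_le_mul (Nat.le_self_pow (by omega) t) b0) G0)
    have l4 : t ≤ t ^ (k + 1 + (e + 1)) := Nat.le_self_pow (by omega) t
    rw [show t ^ (k + 1 + 1 + (e + 1)) = t * t ^ (k + 1 + (e + 1)) by ring] at l1
    generalize t ^ (k + 1 + (e + 1)) = T at *
    have l5 : (t * T + 1) * m ≤ (t * T + 1) * (m * b) := Nat.mul_le_mul_left _ l2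
    generalize m * b = c at *
    subst ht
    nlinarith

theorem num4 {q j : ℕ} (hq : 2 ≤ q) (h3 : j = q * (q - 1)) (h4 : (j - 1) ∣ q + 1) : q = 2 := by
  by_contra c
  obtain ⟨r, rfl⟩ : ∃ r, q = r + 3 := ⟨q - 3, by omega⟩
  have := Nat.le_of_dvd (by omega) h4
  rw [h3, show r + 3 - 1 = r + 2 from rfl] at this
  have : (r + 3) * (r + 2) ≤ r + 5 := by omega
  nlinarith

end Cfsg.Agent.RK3
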