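import Cfsg.Agent.RK3.Ext
import Cfsg.Agent.RK3.Cnt
import Cfsg.Agent.RK3.Card

/-! Project RK3 (notes/RK3.md, section NoPol). -/

set_option autoImplicit false
set_option linter.unusedSectionVars false

namespace Cfsg.Agent.RK3

open MulAction Module Submodule

variable {F : Type*} [Field F] [Fintype F] {V : Type*} [AddCommGroup V] [Module F V] [Finite V]

open Classical in
theorem noPol_cnt [Fintype V] (U : Submodule F V) (hU : 0 < finrank F U) :
    ∑ y : {v : V // v ≠ 0}, (if y.1 ∈ U then (1 : F) else 0) = -1 := by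
  have h1 := Fintype.sum_eq_add_sum_subtype_ne (fun y : V => if y ∈ U then (1 : F) else 0) 0
  have h2 : ∑ y : V, (if y ∈ U then (1 : F) else 0) = 0 := by
    rw [Finset.sum_boole, ← Fintype.card_subtype, Module.card_eq_pow_finrank (K := F) (V := U),
      Nat.cast_pow, FiniteField.cast_card_eq_zero, zero_pow hU.ne']
  rw [h2, if_pos U.zero_mem] at h1
  rw [eq_neg_iff_add_eq_zero, add_comm]
  convert h1.symm

theorem noPol (h3 : 3 ≤ finrank F V) (H : V → Submodule F V) (cov : ∀ a, a ≠ 0 → H a ⋖ ⊤)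
    (nm : ∀ a, a ≠ 0 → a ∉ H a) (symm : ∀ a b, a ≠ 0 → b ≠ 0 → b ∈ H a → a ∈ H b) : False := by
  classical
  have := Fintype.ofFinite V
  have rk : ∀ a, a ≠ 0 → finrank F (H a) + 1 = finrank F V := fun a ha => by
    have := (SNG.covBy_iff.1 (cov a ha)).2
    rw [finrank_top] at this
    exact this.symm
  let B : Matrix {v : V // v ≠ 0} {v : V // v ≠ 0} F := fun x y => -(if y.1 ∈ H x.1 then 1 else 0)
  let K : Matrix {v : V // v ≠ 0} {v : V // v ≠ 0} F := fun _ _ => -1
  have h1 : B * B = K := by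
    ext x y
    have e : 0 < finrank F (H x.1 ⊓ H y.1 : Submodule F V) := by
      have e1 := finrank_sup_add_finrank_inf_eq (H x.1) (H y.1)
      have e2 := finrank_le (H x.1 ⊔ H y.1)
      have e3 := rk _ x.2
      have e4 := rk _ y.2
      omega
    rw [Matrix.mul_apply]
    refine Eq.trans (Finset.sum_congr rfl fun z _ => ?_) (noPol_cnt _ e)
    have e5 : y.1 ∈ H z.1 ↔ z.1 ∈ H y.1 := ⟨symm _ _ z.2 y.2, symm _ _ y.2 z.2⟩
    by_cases a : z.1 ∈ H x.1 <;> by_cases b : z.1 ∈ H y.1 <;> simp [B, e5, a, b]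
  have h2 : B * K = K := by
    ext x y
    have e : 0 < finrank F (H x.1) := by
      have e3 := rk _ x.2
      omega
    rw [Matrix.mul_apply]
    refine Eq.trans (Finset.sum_congr rfl fun z _ => ?_) (noPol_cnt _ e)
    simp [B, K]
  have h4 : ∀ k, B ^ (k + 2) = K := fun k => by
    induction k with
    | zero => rw [zero_add, sq, h1]
    | succ k ih => rw [show k + 1 + 2 = k + 2 + 1 from rfl, pow_succ', ih, h2]
  have h5 := FiniteField.trace_pow_card B
  obtain ⟨k, hk⟩ : ∃ k, Fintype.card F = k + 2 := ⟨Fintype.card F - 2, by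
    have := Fintype.one_lt_card (α := F)
    omega⟩
  have h6 : B.trace = 0 := Finset.sum_eq_zero fun x _ => by simp [B, Matrix.diag, nm _ x.2]
  have h7 : K.trace = 1 := by
    have := noPol_cnt (⊤ : Submodule F V) (by rw [finrank_top]; omega)
    simp only [mem_top, if_true] at this
    have e : K.trace = -∑ _y : {v : V // v ≠ 0}, (1 : F) := by
      rw [← Finset.sum_neg_distrib]
      rfl
    rw [e]
    exact neg_eq_iff_eq_neg.2 (by convert this)
  rw [hk, h4, h6, h7, zero_pow (by omega)] at h5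
  exact one_ne_zero h5


end Cfsg.Agent.RK3
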