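import Cfsg.Agent.RK3.DC
import Cfsg.Agent.RK3.Ext
import Cfsg.Agent.RK3.NoPol

/-! Project RK3 (notes/RK3.md, section PP). -/

set_option autoImplicit false
set_option linter.unusedSectionVars false

namespace Cfsg.Agent.RK3

open MulAction Module Submodule

variable {F : Type*} [Field F] [Fintype F] {V : Type*} [AddCommGroup V] [Module F V] [Finite V]
  {X : Type*} [MulAction (Gm F V) X] [Finite X] {x₀ : X} {K : Subgroup (Gm F V)}

/-- the endomorphism of an element -/
private def pp_end : Gm F V →* Module.End F V where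
  toFun g := ((g : V ≃ₗ[F] V) : V →ₗ[F] V)
  map_one' := rfl
  map_mul' _ _ := rfl

private theorem pp_end_apply (g : Gm F V) (v : V) : pp_end g v = g • v := rfl

private theorem pp_nil {N : Module.End F V} (h : ∀ b, N (N b) = 0 → N b = 0) (k : ℕ) :
    ∀ b, (N ^ (k + 1)) b = 0 → N b = 0 := by
  induction k with
  | zero => exact fun b e => by simpa using e
  | succ k ih => exact fun b e => h b (ih (N b) (by rwa [pow_succ, Module.End.mul_apply] at e))

theorem pp1 (p : ℕ) [Fact p.Prime] [CharP F p]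
    (hs : ∀ a b : V, a ≠ 0 → b ∉ span F {a} → ∀ β ∈ Etr K a b, β = 0) : ¬ p ∣ Nat.card K := by
  intro hd
  have hp : p.Prime := Fact.out
  obtain ⟨g, hg⟩ := exists_prime_orderOf_dvd_card' p hd
  have g1 : (g : Gm F V) ≠ 1 := fun e => by
    rw [show g = 1 from Subtype.ext e, orderOf_one] at hg
    exact hp.one_lt.ne hg
  have gp : (g : Gm F V) ^ p = 1 := by rw [← hg, ← Subgroup.coe_pow, pow_orderOf_eq_one, Subgroup.coe_one]
  haveI : Nontrivial V := by
    by_contra hV
    rw [not_nontrivial_iff_subsingleton] at hV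
    exact g1 (gm_ext fun v => Subsingleton.elim _ _)
  haveI : CharP (Module.End F V) p := charP_of_injective_algebraMap' F p
  have hN : (pp_end (g : Gm F V) - 1) ^ p = 0 := by
    rw [sub_pow_char_of_commute p (Commute.one_right _), ← map_pow, gp, map_one, one_pow, sub_self]
  obtain ⟨k, rfl⟩ := Nat.exists_eq_add_of_le' hp.one_lt.le
  refine g1 (gm_ext fun v => ?_)
  have := pp_nil (N := pp_end (g : Gm F V) - 1) (fun b e => ?_) k v (by rw [hN]; rfl)
  · rw [one_smul]
    exact sub_eq_zero.1 this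
  · by_contra h0
    refine one_ne_zero (hs _ b h0 (fun hb => ?_) 1 ⟨g, g.2, 1, one_ne_zero, ?_, ?_⟩)
    · obtain ⟨c, hc⟩ := mem_span_singleton.1 hb
      exact h0 (by rw [← hc, map_smul, e, smul_zero])
    · rw [one_smul]
      exact sub_eq_zero.1 e
    · simp only [one_smul]
      exact (add_sub_cancel b _).symm

theorem odd3 (h : R3 x₀ K) (hK : ¬ 2 ∣ Nat.card K) : ¬ 2 ∣ Nat.card X := by
  classical
  haveI := Fintype.ofFinite (orbitRel.Quotient K X)
  have ho : ∀ ω : orbitRel.Quotient K X, Odd (Nat.card ω.orbit) := fun ω => by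
    induction ω using Quotient.inductionOn' with
    | h x =>
      rw [← Nat.not_even_iff_odd, even_iff_two_dvd]
      refine fun e => hK (e.trans ?_)
      have : Nat.card (orbitRel.Quotient.orbit (Quotient.mk'' x : orbitRel.Quotient K X)) =
          (stabilizer K x).index := by
        rw [index_stabilizer, orbitRel.Quotient.orbit_mk, Nat.card_coe_set_eq]
      rw [this]
      exact Subgroup.index_dvd_card _
  rw [← even_iff_two_dvd, Nat.not_even_iff_odd, Nat.card_congr (selfEquivSigmaOrbits' K X), Nat.card_sigma,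
    Finset.odd_sum_iff_odd_card_odd, Finset.filter_true_of_mem fun ω _ => ho ω, Finset.card_univ,
    ← Nat.card_eq_fintype_card]
  have := h.rk
  unfold nO at this
  rw [this]
  decide

private theorem pp_fun (p : ℕ) [CharP F p] (hK : ¬ p ∣ Nat.card K) {a : V} (ha : a ≠ 0) :
    ∃ φ : V →ₗ[F] F, φ a ≠ 0 ∧ ∀ k ∈ K, ∀ c : F, k • a = c • a → ∀ v, φ v = 0 → φ (k • v) = 0 := by
  classical
  obtain ⟨ψ, hψ⟩ := SNG.sep0 (F := F) ha
  let L : Subgroup (Gm F V) := K ⊓ Msc (span F {a})
  haveI := Fintype.ofFinite L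
  have hL : ∀ k : L, (k : Gm F V) • a = ψ ((k : Gm F V) • a) • a := fun k => by
    obtain ⟨c, hc⟩ := k.2.2
    rw [hc a (mem_span_singleton_self a), map_smul, hψ, smul_eq_mul, mul_one]
  have h0 : ∀ k : L, ψ ((k : Gm F V) • a) ≠ 0 := fun k e =>
    SNG.smul_ne (g := (k : Gm F V)) ha (by rw [hL k, e, zero_smul])
  refine ⟨∑ k : L, (ψ ((k : Gm F V) • a))⁻¹ • ψ ∘ₗ pp_end (k : Gm F V), ?_, fun k hk c hc v hv => ?_⟩
  · simp only [LinearMap.sum_apply, LinearMap.smul_apply, LinearMap.comp_apply, pp_end_apply, smul_eq_mul,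
      inv_mul_cancel₀ (h0 _), Finset.sum_const, Finset.card_univ, nsmul_eq_mul, mul_one]
    rw [Ne, CharP.cast_eq_zero_iff F p, ← Nat.card_eq_fintype_card]
    exact fun e => hK (e.trans (Subgroup.card_dvd_of_le inf_le_left))
  · have kL : k ∈ L := ⟨hk, c, fun w hw => by
      obtain ⟨d, rfl⟩ := mem_span_singleton.1 hw
      rw [SNG.gs, hc, smul_comm]⟩
    have c0 : c ≠ 0 := fun e => SNG.smul_ne (g := k) ha (by rw [hc, e, zero_smul])
    simp only [LinearMap.sum_apply, LinearMap.smul_apply, LinearMap.comp_apply, pp_end_apply, smul_eq_mul] at hv ⊢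
    rw [← Equiv.sum_comp (Equiv.mulRight (⟨k, kL⟩ : L))] at hv
    simp only [Equiv.coe_mulRight, Subgroup.coe_mul, mul_smul, hc, SNG.gs, map_smul, smul_eq_mul, mul_inv,
      mul_assoc, ← Finset.mul_sum] at hv
    exact (mul_eq_zero.1 hv).resolve_left (inv_ne_zero c0)

theorem pp2 (h3 : 3 ≤ finrank F V)
    (hs : ∀ a b : V, a ≠ 0 → b ∉ span F {a} → ∀ β ∈ Etr K a b, β = 0)
    (hE : ∀ a b : V, a ≠ 0 → b ∉ span F {a} → 1 < (Eset K a b).ncard) : False := by
  haveI : Fact (ringChar F).Prime := ⟨CharP.char_is_prime F _⟩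
  have hK := pp1 (ringChar F) hs
  have hφ : ∀ a : V, ∃ φ : V →ₗ[F] F, a ≠ 0 →
      φ a ≠ 0 ∧ ∀ k ∈ K, ∀ c : F, k • a = c • a → ∀ v, φ v = 0 → φ (k • v) = 0 := fun a => by
    by_cases ha : a = 0
    · exact ⟨0, fun h => absurd ha h⟩
    · exact (pp_fun (ringChar F) hK ha).imp fun _ h _ => h
  choose φ hφ using hφ
  refine noPol h3 (fun a => LinearMap.ker (φ a)) (fun a ha => ?_) (fun a ha => (hφ a ha).1) fun a y ha hy e => ?_
  · refine (LinearMap.isCoatom_ker_of_surjective fun t => ⟨(t / φ a a) • a, ?_⟩).covBy_top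
    rw [map_smul, smul_eq_mul, div_mul_cancel₀ _ (hφ a ha).1]
  · rw [LinearMap.mem_ker] at e ⊢
    have hb : y ∉ span F {a} := fun hb => by
      obtain ⟨c, rfl⟩ := mem_span_singleton.1 hb
      rw [map_smul, smul_eq_mul, mul_eq_zero, or_iff_left (hφ a ha).1] at e
      exact hy (by rw [e, zero_smul])
    obtain ⟨⟨α, β⟩, ⟨k, hk, c, c0, h1, h2⟩, hne⟩ := Set.exists_ne_of_one_lt_ncard (hE a y ha hb) (1, 0)
    have b0 : β = 0 := by
      have := (hφ a ha).2 k hk c h1 y e
      simpa [h2, e, c0, (hφ a ha).1] using this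
    subst b0
    have a1 : α ≠ 1 := fun h => hne (by rw [h])
    simp only [zero_smul, add_zero, smul_smul] at h2
    have := (hφ y hy).2 k hk _ h2 (φ y y • a - φ y a • y) (by simp [mul_comm])
    rw [smul_sub, SNG.gs, SNG.gs, h1, h2] at this
    simp only [map_sub, map_smul, smul_eq_mul] at this
    have h4 : (1 - α) * (c * (φ y y * φ y a)) = 0 := by linear_combination this
    simpa [sub_ne_zero.2 a1.symm, c0, (hφ y hy).1] using h4


end Cfsg.Agent.RK3
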