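import Cfsg.Agent.RK3.Inn

/-! Project RK3 (notes/RK3.md, section PsiA). -/

set_option autoImplicit false
set_option linter.unusedSectionVars false

namespace Cfsg.Agent.RK3

open MulAction Module Submodule

variable {G : Type*} [Group G] [Fintype G] {X : Type*} [MulAction G X] [Finite X]
  {L : Type*} [MulAction G L] [Fintype L] {M : L → Subgroup G} {c : ℕ}

open Classical in
/-- sum over a subgroup -/
noncomputable def psiA_S (N : Subgroup G) (f : G → ℚ) : ℚ := ∑ g ∈ Finset.univ.filter (· ∈ N), f g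

section S
variable {N N' P : Subgroup G} {f f' : G → ℚ}

theorem psiA_congr (e : ∀ g ∈ N, f g = f' g) : psiA_S N f = psiA_S N f' :=
  Finset.sum_congr rfl fun g hg => e g (by simpa using hg)

theorem psiA_equiv (e : G ≃ G) (he : ∀ g, g ∈ N ↔ e g ∈ N') (f : G → ℚ) :
    psiA_S N (fun g => f (e g)) = psiA_S N' f :=
  Finset.sum_equiv e (fun g => by simpa using he g) fun _ _ => rfl

theorem psiA_left {n : G} (hn : n ∈ N) (f : G → ℚ) : psiA_S N (fun g => f (n * g)) = psiA_S N f :=
  psiA_equiv (Equiv.mulLeft n) (fun _ => (N.mul_mem_cancel_left hn).symm) f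

theorem psiA_right {n : G} (hn : n ∈ N) (f : G → ℚ) : psiA_S N (fun g => f (g * n)) = psiA_S N f :=
  psiA_equiv (Equiv.mulRight n) (fun _ => (N.mul_mem_cancel_right hn).symm) f

theorem psiA_const (N : Subgroup G) (a : ℚ) : psiA_S N (fun _ => a) = Nat.card N * a := by
  classical
  rw [psiA_S, Finset.sum_const, nsmul_eq_mul, Nat.card_eq_fintype_card, Fintype.card_subtype]

theorem psiA_mul (N : Subgroup G) (a : ℚ) (f : G → ℚ) : psiA_S N (fun g => a * f g) = a * psiA_S N f :=
  (Finset.mul_sum _ _ _).symm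

theorem psiA_add (N : Subgroup G) (f f' : G → ℚ) :
    psiA_S N (fun g => f g + f' g) = psiA_S N f + psiA_S N f' := Finset.sum_add_distrib

theorem psiA_sub (N : Subgroup G) (f f' : G → ℚ) :
    psiA_S N (fun g => f g - f' g) = psiA_S N f - psiA_S N f' := Finset.sum_sub_distrib _ _

theorem psiA_sum {I : Type*} (N : Subgroup G) (s : Finset I) (f : G → I → ℚ) :
    psiA_S N (fun g => ∑ i ∈ s, f g i) = ∑ i ∈ s, psiA_S N (fun g => f g i) := Finset.sum_comm

theorem psiA_avg (h : N ≤ P) (f : G → ℚ) :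
    psiA_S P (fun g => psiA_S N fun n => f (g * n)) = Nat.card N * psiA_S P f := by
  rw [← psiA_const]
  exact (psiA_sum P _ fun g n => f (g * n)).trans (psiA_congr fun n hn => psiA_right (h hn) f)

open Classical in
theorem psiA_inf (N N' : Subgroup G) (f : G → ℚ) :
    psiA_S N (fun g => if g ∈ N' then f g else 0) = psiA_S (N ⊓ N') f := by
  rw [psiA_S, psiA_S, ← Finset.sum_filter, Finset.filter_filter]
  refine Finset.sum_congr ?_ fun _ _ => rfl
  ext g
  simp

theorem psiA_card_ne (N : Subgroup G) : (Nat.card N : ℚ) ≠ 0 := Nat.cast_ne_zero.2 Nat.card_pos.ne'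

end S

open Classical in
theorem psiA_pc (Y : Type*) [MulAction G Y] [Fintype Y] (g : G) :
    pc Y g = ∑ y : Y, if g • y = y then 1 else 0 := by
  rw [pc, Finset.sum_boole, Nat.card_eq_fintype_card, Fintype.card_subtype]
  simp only [mem_fixedBy]

theorem psiA_pc_conj (k g : G) : pc X (k * g * k⁻¹) = pc X g := by
  classical
  have := Fintype.ofFinite X
  rw [psiA_pc, psiA_pc]
  refine (Fintype.sum_equiv (MulAction.toPerm k) _ _ fun x => ?_).symm
  simp [mul_smul]

theorem psiA_tau (l : L) (g : G) :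
    Nat.card (M l) * tau X M l g = psiA_S (M l) fun m => pc X (g * m) :=
  mul_div_cancel₀ _ (psiA_card_ne _)

theorem psiA_tau_mul (l : L) (g : G) {m : G} (hm : m ∈ M l) : tau X M l (g * m) = tau X M l g := by
  refine mul_left_cancel₀ (psiA_card_ne (M l)) ?_
  rw [psiA_tau, psiA_tau, ← psiA_left hm fun m => pc X (g * m)]
  simp only [mul_assoc]

theorem psiA_conj_iff (h : PS X M c) (k : G) (l : L) (m : G) : m ∈ M l ↔ k * m * k⁻¹ ∈ M (k • l) :=
  ⟨h.conj k l m, fun e => by simpa [mul_assoc] using h.conj k⁻¹ _ _ e⟩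

theorem psiA_tau_conj (h : PS X M c) (k : G) (l : L) (g : G) :
    tau X M (k • l) (k * g * k⁻¹) = tau X M l g := by
  have e := psiA_equiv (MulAut.conj k).toEquiv (psiA_conj_iff h k l)
  have e1 : (Nat.card (M l) : ℚ) = Nat.card (M (k • l)) := by
    simpa only [psiA_const, mul_one] using e fun _ => 1
  refine mul_left_cancel₀ (psiA_card_ne (M l)) ?_
  rw [psiA_tau, e1, psiA_tau, ← e]
  refine psiA_congr fun m _ => ?_
  rw [← psiA_pc_conj k (g * m)]
  congr 1
  simp [mul_assoc]

theorem psiA_indep (h : PS X M c) {l : L} {N : Subgroup G} (hN : N ≤ stabilizer G l) (hT : Tr X M l N)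
    {g : G} (hg : g ∈ stabilizer G l) : psiA_S N (fun n => tau X M l (g * n)) = psiA_S N (tau X M l) := by
  classical
  have := Fintype.ofFinite X
  refine mul_left_cancel₀ (psiA_card_ne (M l)) ?_
  rw [← psiA_mul, ← psiA_mul]
  simp only [psiA_tau, psiA_pc, psiA_sum]
  refine Finset.sum_congr rfl fun x _ => ?_
  obtain ⟨n₀, hn, m₀, hm, e⟩ := hT x g⁻¹ (inv_mem hg)
  rw [← psiA_left hn]
  refine psiA_congr fun n hn' => ?_
  have h1 : n⁻¹ * m₀ * n ∈ M l := by
    have := h.conj n⁻¹ l m₀ hm
    rwa [inv_inv, mem_stabilizer_iff.1 (inv_mem (hN hn'))] at this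
  rw [← psiA_left h1]
  refine psiA_congr fun m _ => ?_
  have h2 : g * (n₀ * n) * (n⁻¹ * m₀ * n * m) = g * n₀ * m₀ * (n * m) := by group
  have h3 : (g * n₀ * m₀) • x = x := by rw [mul_smul, mul_smul, ← e, smul_inv_smul]
  have h4 : (g * n₀ * m₀ * (n * m)) • x = x ↔ (n * m) • x = x := by
    rw [mul_smul]
    nth_rewrite 2 [← h3]
    exact smul_left_cancel_iff _
  simp only [h2, h4]

/-- the key vanishing -/
theorem psiA_T (h : PS X M c) {l : L} {N : Subgroup G} (hN : N ≤ stabilizer G l) (hT : Tr X M l N)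
    {g : G} (hg : g ∈ stabilizer G l) : psiA_S N (fun n => tau X M l (g * n) - c) = 0 := by
  have h1 : psiA_S (stabilizer G l) (tau X M l) = Nat.card (stabilizer G l) * c := by
    refine mul_left_cancel₀ (psiA_card_ne (M l)) ?_
    rw [← psiA_mul]
    simp only [psiA_tau]
    rw [psiA_avg (h.le l), ← h.orb l]
    exact congrArg _ (burn _ X)
  have h2 := psiA_avg hN (tau X M l)
  rw [psiA_congr fun g hg => psiA_indep h hN hT hg, psiA_const, h1] at h2
  rw [psiA_sub, psiA_indep h hN hT hg, psiA_const, sub_eq_zero]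
  exact mul_left_cancel₀ (psiA_card_ne (stabilizer G l)) (by linear_combination h2)

theorem psiA_T1 (h : PS X M c) {l : L} {N : Subgroup G} (hN : N ≤ stabilizer G l) (hT : Tr X M l N) :
    psiA_S N (fun n => tau X M l n - c) = 0 := by
  simpa only [one_mul] using psiA_T h hN hT (one_mem _)

theorem psiA_tr (l : L) : Tr X M l (stabilizer G l) := fun x g hg => ⟨g, hg, 1, one_mem _, by rw [one_smul]⟩

theorem psiA_ip (φ : G → ℚ) : ip (Psi X M c) φ =
    (∑ l : L, psiA_S (stabilizer G l) fun g => (tau X M l g - c) * φ g) / Fintype.card G := by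
  classical
  rw [ip]
  congr 1
  simp only [Psi, psiA_S, Finset.sum_filter, Finset.sum_mul, mem_stabilizer_iff, ite_mul, zero_mul]
  rw [Finset.sum_comm]

theorem psiA_wv (l : L) : psiA_S (stabilizer G l) (fun g => (tau X M l g - c) ^ 2) =
    Nat.card (stabilizer G l) * wv X M c l := by
  rw [wv, mul_div_cancel₀ _ (psiA_card_ne _), psiA_S]
  congr!

theorem psiA_diag (h : PS X M c) (l : L) :
    (∑ l' : L, psiA_S (stabilizer G l') fun g => (tau X M l' g - c) ^ 2) / Fintype.card G = wv X M c l := by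
  have := h.trL
  have h1 : ∀ l' : L, psiA_S (stabilizer G l') (fun g => (tau X M l' g - c) ^ 2) =
      Nat.card (stabilizer G l) * wv X M c l := fun l' => by
    obtain ⟨k, rfl⟩ := exists_smul_eq G l l'
    rw [← psiA_wv, ← psiA_equiv (N := stabilizer G l) (MulAut.conj k).toEquiv fun g => by
      simp [mul_smul]]
    exact psiA_congr fun g _ => by rw [← psiA_tau_conj h k l g]; rfl
  have h2 : (Fintype.card L : ℚ) * Nat.card (stabilizer G l) = Fintype.card G := by
    rw [← Nat.card_eq_fintype_card, ← Nat.card_eq_fintype_card, ← index_stabilizer_of_transitive G l,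
      ← Nat.cast_mul, Subgroup.index_mul_card]
  have h3 : (Fintype.card G : ℚ) ≠ 0 := Nat.cast_ne_zero.2 Fintype.card_ne_zero
  rw [Finset.sum_congr rfl fun l' _ => h1 l', Finset.sum_const, Finset.card_univ, nsmul_eq_mul, ← mul_assoc, h2,
    mul_div_cancel_left₀ _ h3]

theorem psi_orth (h : PS X M c) (Y : Type*) [MulAction G Y] [Finite Y]
    (hY : ∀ (l : L) (y : Y), Tr X M l (stabilizer G l ⊓ stabilizer G y)) :
    ip (Psi X M c) (pc Y) = 0 := by
  classical
  have := Fintype.ofFinite Y
  rw [psiA_ip, Finset.sum_eq_zero fun l _ => ?_, zero_div]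
  simp only [psiA_pc, Finset.mul_sum, psiA_sum]
  refine Finset.sum_eq_zero fun y _ => ?_
  refine Eq.trans ?_ (psiA_T1 h inf_le_left (hY l y))
  rw [← psiA_inf]
  refine psiA_congr fun g _ => ?_
  simp [mem_stabilizer_iff]

theorem psi_one (h : PS X M c) : ip (Psi X M c) 1 = 0 := by
  rw [psiA_ip, Finset.sum_eq_zero fun l _ => ?_, zero_div]
  simpa only [Pi.one_apply, mul_one] using psiA_T1 h le_rfl (psiA_tr l)

theorem psi_self (h : PS X M c) (l : L) : ip (Psi X M c) (Psi X M c) = wv X M c l := by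
  classical
  rw [psiA_ip, ← psiA_diag h l]
  congr 1
  refine Finset.sum_congr rfl fun l _ => ?_
  have h1 : psiA_S (stabilizer G l) (fun g => (tau X M l g - c) * Psi X M c g) =
      ∑ l' : L, psiA_S (stabilizer G l ⊓ stabilizer G l') fun g => (tau X M l' g - c) * (tau X M l g - c) := by
    simp only [← psiA_inf, ← psiA_sum]
    refine psiA_congr fun g _ => ?_
    simp only [Psi, Finset.sum_filter, Finset.mul_sum, mem_stabilizer_iff, mul_ite, mul_zero]
    simp only [mul_comm]
  rw [h1, Finset.sum_eq_single l (fun l' _ hl => ?_) (by simp), inf_idem]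
  · simp only [sq]
  · refine mul_left_cancel₀ (psiA_card_ne (stabilizer G l ⊓ M l')) ?_
    rw [← psiA_avg (inf_le_inf_left _ (h.le l')), mul_zero]
    refine (psiA_congr (f' := fun _ => 0) fun g hg => ?_).trans (by rw [psiA_const, mul_zero])
    rw [psiA_congr fun n hn => by rw [psiA_tau_mul l' g hn.2], psiA_mul,
      psiA_T h inf_le_left (h.h1 l l' hl.symm) hg.1, mul_zero]

theorem psi_pc (h : PS X M c) (l : L) : ip (pc X) (Psi X M c) = wv X M c l := by
  rw [ip_comm, psiA_ip, ← psiA_diag h l]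
  congr 1
  refine Finset.sum_congr rfl fun l _ => mul_left_cancel₀ (psiA_card_ne (M l)) ?_
  have h1 : psiA_S (stabilizer G l) (fun g => (tau X M l g - c) ^ 2) =
      psiA_S (stabilizer G l) (fun g => (tau X M l g - c) * tau X M l g) := by
    rw [← add_zero (psiA_S _ fun g => _ ^ 2), ← mul_zero (c : ℚ), ← psiA_T1 h le_rfl (psiA_tr l), ← psiA_mul,
      ← psiA_add]
    exact psiA_congr fun g _ => by ring
  rw [← psiA_avg (h.le l), h1, ← psiA_mul]
  refine psiA_congr fun g _ => ?_
  rw [psiA_congr fun m hm => by rw [psiA_tau_mul l g hm], psiA_mul, ← psiA_tau]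
  ring

theorem psi_at_one (h : PS X M c) (l : L) :
    Psi X M c 1 = (Nat.card L : ℚ) * ((nO (M l) X : ℚ) - c) := by
  have := h.trL
  have h1 : ∀ l' : L, tau X M l' 1 = nO (M l) X := fun l' => by
    obtain ⟨k, rfl⟩ := exists_smul_eq G l l'
    have e := psiA_tau_conj h k l 1
    rw [mul_one, mul_inv_cancel] at e
    refine e.trans (mul_left_cancel₀ (psiA_card_ne (M l)) ?_)
    rw [psiA_tau, ← burn]
    simp only [one_mul]
    rfl
  simp only [Psi, one_smul, Finset.filter_true, h1, Finset.sum_const, Finset.card_univ, nsmul_eq_mul,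
    Nat.card_eq_fintype_card]


end Cfsg.Agent.RK3
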