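import Cfsg.Agent.RK3.Inn
import Cfsg.Agent.RK3.DC

/-! Project RK3 (notes/RK3.md, section PsiB). -/

set_option autoImplicit false
set_option linter.unusedSectionVars false

namespace Cfsg.Agent.RK3

open MulAction Module Submodule

variable {G : Type*} [Group G] [Fintype G] {X : Type*} [MulAction G X] [Finite X]
  {L : Type*} [MulAction G L] [Fintype L] {M : L → Subgroup G} {c : ℕ}

namespace PsiB

/-- the orbits of `N`, acted on by `P` -/
def Zq (P N : Subgroup G) (_ : ∀ g ∈ P, ∀ m ∈ N, g * m * g⁻¹ ∈ N) (X : Type*) [MulAction G X] :=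
  orbitRel.Quotient N X

variable {P N : Subgroup G} (h : ∀ g ∈ P, ∀ m ∈ N, g * m * g⁻¹ ∈ N)

def cl (x : X) : Zq P N h X := Quotient.mk'' x

theorem mk_eq {x y : X} : cl h x = cl h y ↔ ∃ m ∈ N, x = m • y :=
  Quotient.eq''.trans (orbitRel_apply.trans
    ⟨fun ⟨m, e⟩ => ⟨m, m.2, e.symm⟩, fun ⟨m, hm, e⟩ => ⟨⟨m, hm⟩, e.symm⟩⟩)

theorem mk_sur (z : Zq P N h X) : ∃ x, cl h x = z := Quotient.exists_rep z

instance act : MulAction P (Zq P N h X) where
  smul g := Quotient.map' (fun x => (g : G) • x) fun x y e => by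
    obtain ⟨m, rfl⟩ := orbitRel_apply.1 e
    exact orbitRel_apply.2 ⟨⟨_, h g g.2 m m.2⟩, by simp [Subgroup.smul_def, mul_smul]⟩
  one_smul z := Quotient.inductionOn' z fun x => congrArg (cl h) (one_smul G x)
  mul_smul a b z := Quotient.inductionOn' z fun x => congrArg (cl h) (mul_smul (a : G) b x)

theorem smul_mk (g : P) (x : X) : g • cl h x = cl h ((g : G) • x) := rfl

instance fin : Finite (Zq P N h X) := Quotient.finite _

open Classical in
theorem pc_sum {H : Type*} [Group H] (Y : Type*) [MulAction H Y] [Fintype Y] (g : H) :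
    pc Y g = ∑ y : Y, if g • y = y then 1 else 0 := by
  rw [Finset.sum_boole, pc, Nat.card_eq_fintype_card, Fintype.card_subtype]
  rfl

open Classical in
/-- the number of elements of `N` taking `x` to `y` -/
noncomputable def cc (N : Subgroup G) (x y : X) : ℕ := (Finset.univ.filter fun m : G => m ∈ N ∧ m • x = y).card

theorem cc_eq (x : X) {a b : G} (ha : a ∈ N) (hb : b ∈ N) : cc N (a • x) (b • x) = cc N x x := by
  classical
  refine Finset.card_bijective (fun m => b⁻¹ * m * a) ((Equiv.mulLeft b⁻¹).trans (Equiv.mulRight a)).bijective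
    fun m => ?_
  simp only [Finset.mem_filter, Finset.mem_univ, true_and, mul_smul, inv_smul_eq_iff]
  rw [mul_mem_cancel_right ha, mul_mem_cancel_left (inv_mem hb)]

open Classical in
theorem cc_sum [Fintype X] (x : X) :
    ∑ y ∈ Finset.univ.filter (fun y => cl h y = cl h x), cc N x y = Nat.card N := by
  rw [Nat.card_eq_fintype_card, Fintype.card_subtype, Finset.card_eq_sum_card_fiberwise (f := fun m : G => m • x)
    (t := Finset.univ.filter (fun y => cl h y = cl h x)) fun m hm => by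
      simpa using (mk_eq h).2 ⟨m, by simpa using hm, rfl⟩]
  exact Finset.sum_congr rfl fun y _ => by rw [Finset.filter_filter]; rfl

open Classical in
theorem key (g : P) :
    ∑ m ∈ Finset.univ.filter (· ∈ N), pc X ((g : G) * m) = Nat.card N * pc (Zq P N h X) g := by
  letI := Fintype.ofFinite X
  letI := Fintype.ofFinite (Zq P N h X)
  simp only [pc_sum]
  rw [Finset.sum_comm, ← Finset.sum_fiberwise _ (cl h), Finset.mul_sum]
  refine Finset.sum_congr rfl fun z _ => ?_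
  obtain ⟨x, rfl⟩ := mk_sur h z
  have e : ∀ y : X, (∑ m ∈ Finset.univ.filter (· ∈ N), if ((g : G) * m) • y = y then (1 : ℚ) else 0) =
      cc N y ((g : G)⁻¹ • y) := fun y => by
    rw [Finset.sum_boole, Finset.filter_filter, cc]
    simp only [mul_smul, eq_inv_smul_iff]
  simp only [e]
  split_ifs with k
  · rw [mul_one, ← cc_sum h x, Nat.cast_sum]
    refine Finset.sum_congr rfl fun y hy => ?_
    have hy' : cl h y = cl h x := (Finset.mem_filter.1 hy).2
    obtain ⟨b, hb, e1⟩ := (mk_eq h).1 (show cl h ((g : G)⁻¹ • y) = cl h x from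
      (smul_mk h g⁻¹ y).symm.trans (by rw [hy', inv_smul_eq_iff, k]))
    obtain ⟨a, ha, rfl⟩ := (mk_eq h).1 hy'
    rw [e1, cc_eq x ha hb, ← cc_eq x (one_mem N) ha, one_smul]
  · rw [mul_zero]
    refine Finset.sum_eq_zero fun y hy => Nat.cast_eq_zero.2 (Finset.card_eq_zero.2
      (Finset.filter_eq_empty_iff.2 fun m _ hm => k ?_))
    rw [← (Finset.mem_filter.1 hy).2, ← eq_inv_smul_iff]
    exact ((mk_eq h).2 ⟨m, hm.1, hm.2.symm⟩).symm

theorem nO_Zq (hN : N ≤ P) : nO P (Zq P N h X) = nO P X := by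
  refine (Nat.card_eq_of_bijective (Quotient.map' (cl h) fun x y e => ?_) ⟨fun a b => ?_, fun a => ?_⟩).symm
  · obtain ⟨g, rfl⟩ := orbitRel_apply.1 e
    exact orbitRel_apply.2 ⟨g, rfl⟩
  · refine Quotient.inductionOn₂' a b fun x y e => Quotient.sound' ?_
    obtain ⟨g, e1⟩ := orbitRel_apply.1 (Quotient.exact' e)
    obtain ⟨m, hm, rfl⟩ := (mk_eq h).1 ((smul_mk h g y).symm.trans e1).symm
    exact orbitRel_apply.2 ⟨⟨m, hN hm⟩ * g, mul_smul _ _ _⟩
  · refine Quotient.inductionOn' a fun z => ?_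
    obtain ⟨x, rfl⟩ := mk_sur h z
    exact ⟨Quotient.mk'' x, rfl⟩

omit h in
theorem nrm (h : PS X M c) (l : L) : ∀ g ∈ stabilizer G l, ∀ m ∈ M l, g * m * g⁻¹ ∈ M l := fun g hg m hm => by
  have := h.conj g l m hm
  rwa [mem_stabilizer_iff.1 hg] at this

omit h in
theorem wv_ip (h : PS X M c) (l : L) [Fintype (stabilizer G l)] :
    wv X M c l = ip (pc (Zq _ _ (nrm h l) X) - (c : ℚ) • (1 : stabilizer G l → ℚ))
      (pc (Zq _ _ (nrm h l) X) - (c : ℚ) • 1) := by
  classical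
  rw [wv, ip, Nat.card_eq_fintype_card,
    Finset.sum_subtype (p := (· ∈ stabilizer G l)) _ (fun g => by simp [mem_stabilizer_iff])]
  congr 1
  refine Finset.sum_congr rfl fun g _ => ?_
  have e : tau X M l g = pc (Zq _ _ (nrm h l) X) g := by
    rw [tau, key (nrm h l) g, mul_div_cancel_left₀ _ (Nat.cast_ne_zero.2 Nat.card_pos.ne')]
  simp [e, sq]

omit h in
theorem wv_eq (h : PS X M c) (l : L) :
    wv X M c l = nO (stabilizer G l) (Zq _ _ (nrm h l) X × Zq _ _ (nrm h l) X) - (c : ℚ) ^ 2 := by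
  letI := Fintype.ofFinite (stabilizer G l)
  rw [wv_ip h l, ip_sub_left, ip_sub_right, ip_sub_right, ip_smul_left, ip_smul_left, ip_smul_right, ip_smul_right,
    ip_pc_pc, ip_comm 1 (pc _), ip_pc_one, ip_one_one, nO_Zq _ (h.le l), h.orb]
  ring

end PsiB

open PsiB

theorem wv_nat (h : PS X M c) (l : L) : ∃ w : ℕ, wv X M c l = w := by
  letI := Fintype.ofFinite (stabilizer G l)
  have e : 0 ≤ wv X M c l := wv_ip h l ▸ ip_nonneg _
  rw [wv_eq h l] at e ⊢
  exact ⟨_ - c ^ 2, by rw [Nat.cast_sub (by exact_mod_cast sub_nonneg.1 e), Nat.cast_pow]⟩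

theorem wv_zero (h : PS X M c) (l : L) (h0 : wv X M c l = 0) :
    ∀ x : X, ∀ g ∈ stabilizer G l, ∃ m ∈ M l, g • x = m • x := by
  intro x g hg
  letI := Fintype.ofFinite (stabilizer G l)
  have e := sub_eq_zero.1 (eq_zero_of_ip ((wv_ip h l).symm.trans h0))
  have e1 : pc (Zq _ _ (nrm h l) X) (⟨g, hg⟩ : stabilizer G l) = pc (Zq _ _ (nrm h l) X) (1 : stabilizer G l) := by
    rw [e]; rfl
  rw [pc_one, pc, Nat.cast_inj, Nat.card_coe_set_eq, ← Set.ncard_univ] at e1
  have e2 := Set.eq_of_subset_of_ncard_le (Set.subset_univ _) e1.ge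
  exact (mk_eq (nrm h l)).1 (show cl (nrm h l) x ∈ fixedBy _ (⟨g, hg⟩ : stabilizer G l) from e2 ▸ Set.mem_univ _)

theorem wv_one (h : PS X M 1) (l : L) (h1 : wv X M 1 l = 1) (x : X) :
    2 ≤ nO (M l) X ∧ (nO (M l) X - 1) ∣ (M l).relIndex (stabilizer G l ⊓ stabilizer G x) := by
  letI := Fintype.ofFinite (stabilizer G l)
  have n := nrm h l
  haveI : IsPretransitive (stabilizer G l) (Zq _ _ n X) := ⟨fun z z' => by
    obtain ⟨y, rfl⟩ := mk_sur n z
    obtain ⟨y', rfl⟩ := mk_sur n z'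
    obtain ⟨k, hk, rfl⟩ := nO_one (h.orb l) y y'
    exact ⟨⟨k, hk⟩, rfl⟩⟩
  have e : nO (stabilizer (stabilizer G l) (cl n x)) (Zq _ _ n X) = 2 := by
    rw [wv_eq h l, nO_prod _ (cl n x), sub_eq_iff_eq_add] at h1
    exact_mod_cast h1
  have two : 2 ≤ Nat.card (Zq _ _ n X) := e ▸ Nat.card_le_card_of_surjective _ Quotient.mk''_surjective
  refine ⟨two, ?_⟩
  haveI := Finite.one_lt_card_iff_nontrivial.1 two
  obtain ⟨z', hz'⟩ := exists_ne (cl n x)
  have tr : ∀ z, z ≠ cl n x → ∃ k ∈ stabilizer (stabilizer G l) (cl n x), k • z' = z := fun z hz => by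
    obtain ⟨i, j, ij, k, hk, e1⟩ := rel_of_lt (L := stabilizer (stabilizer G l) (cl n x)) ![cl n x, z', z]
      (by rw [e]; decide)
    have f1 : k • cl n x = cl n x := hk
    have f2 : ∀ w, k • w = cl n x → w = cl n x := fun w e2 => MulAction.injective k (e2.trans f1.symm)
    fin_cases i <;> fin_cases j
    · exact absurd rfl ij
    · exact absurd (e1.symm.trans f1) hz'
    · exact absurd (e1.symm.trans f1) hz
    · exact absurd (f2 _ e1) hz'
    · exact absurd rfl ij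
    · exact ⟨k, hk, e1⟩
    · exact absurd (f2 _ e1) hz
    · exact ⟨k⁻¹, inv_mem hk, inv_smul_eq_iff.2 (Eq.symm e1)⟩
    · exact absurd rfl ij
  have n' : ∀ g ∈ stabilizer G l ⊓ stabilizer G x, ∀ m ∈ M l, g * m * g⁻¹ ∈ M l := fun g hg => n g hg.1
  obtain ⟨y, rfl⟩ := mk_sur n z'
  have o : orbit ↥(stabilizer G l ⊓ stabilizer G x) (cl n' y) = {cl n' x}ᶜ := by
    ext z
    refine ⟨fun ⟨k, e1⟩ e2 => hz' (MulAction.injective k (a₁ := cl n' y) (a₂ := cl n' x) ?_), fun hz => ?_⟩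
    · exact (e1.trans e2).trans (congrArg (cl n') k.2.2).symm
    · obtain ⟨k, hk, e1⟩ := tr z hz
      obtain ⟨m, hm, e2⟩ := (mk_eq n (x := (k : G) • x)).1 hk
      refine ⟨⟨m⁻¹ * k, Subgroup.mem_inf.2 ⟨mul_mem (inv_mem (h.le l hm)) k.2, ?_⟩⟩, Eq.trans ?_ e1⟩
      · show (m⁻¹ * k) • x = x
        rw [mul_smul, e2, inv_smul_smul]
      · exact (mk_eq n).2 ⟨m⁻¹, inv_mem hm, mul_smul _ _ _⟩
  have e1 : nO (M l) X - 1 = (stabilizer ↥(stabilizer G l ⊓ stabilizer G x) (cl n' y)).index := by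
    rw [index_stabilizer, o, Set.ncard_compl, Set.ncard_singleton]
    rfl
  rw [e1]
  exact Subgroup.index_dvd_of_le fun k hk => (mk_eq n').2 ⟨k, hk, rfl⟩

end Cfsg.Agent.RK3
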