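import Cfsg.Agent.RK3.Inn
import Cfsg.Agent.RK3.DC
import Cfsg.Agent.RK3.Ext

/-! Project RK3 (notes/RK3.md, section PsiC). -/

set_option autoImplicit false
set_option linter.unusedSectionVars false

namespace Cfsg.Agent.RK3

open MulAction Module Submodule

variable {F : Type*} [Field F] [Fintype F] {V : Type*} [AddCommGroup V] [Module F V] [Finite V]
  {X : Type*} [MulAction (Gm F V) X] [Finite X] {x₀ : X} {K : Subgroup (Gm F V)}

/-- gluing an element on `A` with a scalar on `B` -/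
theorem psiC_ext {A B : Submodule F V} (hAB : A ⊔ B ≠ ⊤) (b : Gm F V) (hb : ∀ v ∈ A, b • v ∈ A) {c : F}
    (hc : c ≠ 0) (h : ∀ v ∈ A, v ∈ B → b • v = c • v) :
    ∃ n : Gm F V, (∀ v ∈ A, n • v = b • v) ∧ ∀ v ∈ B, n • v = c • v := by
  let f : V →ₗ.[F] V := ⟨A, ((b : V ≃ₗ[F] V) : V →ₗ[F] V).comp A.subtype⟩
  let g : V →ₗ.[F] V := ⟨B, c • B.subtype⟩
  have H : ∀ (x : f.domain) (y : g.domain), (x : V) = y → f x = g y := fun x y e => by
    change b • (x : V) = c • (y : V)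
    rw [← e]
    exact h x x.2 (e ▸ y.2)
  obtain ⟨φ, ap⟩ : ∃ φ : ↥(A ⊔ B) →ₗ[F] V, ∀ u ∈ A, ∀ w ∈ B, ∀ z : ↥(A ⊔ B), u + w = z →
      φ z = b • u + c • w :=
    ⟨(f.sup g H).toFun, fun u hu w hw z e => LinearPMap.sup_apply H ⟨u, hu⟩ ⟨w, hw⟩ z e⟩
  obtain ⟨n, hn⟩ := ext1 hAB φ (by
    rw [← LinearMap.ker_eq_bot, LinearMap.ker_eq_bot']
    intro z hz
    obtain ⟨u, hu, w, hw, e⟩ := mem_sup.1 z.2
    rw [ap u hu w hw z e] at hz
    have hwA : w ∈ A := by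
      have : c • w ∈ A := by
        rw [eq_neg_of_add_eq_zero_right hz]
        exact neg_mem (hb u hu)
      exact (smul_mem_iff A hc).1 this
    rw [← h w hwA hw, ← smul_add, e] at hz
    by_contra z0
    exact SNG.smul_ne (g := b) (fun k => z0 (Subtype.ext k)) hz)
  refine ⟨n, fun v hv => ?_, fun v hv => ?_⟩
  · have := hn ⟨v, mem_sup_left hv⟩
    rw [ap v hv 0 (zero_mem _) ⟨v, mem_sup_left hv⟩ (add_zero v), smul_zero, add_zero] at this
    exact this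
  · have := hn ⟨v, mem_sup_right hv⟩
    rw [ap 0 (zero_mem _) v hv ⟨v, mem_sup_right hv⟩ (zero_add v), smul_zero, zero_add] at this
    exact this

theorem psiC_le {d : ℕ} {A : Submodule F V} (y : Sub F V d) (h : y.1 ≤ A) :
    Msc A ≤ stabilizer (Gm F V) y := by
  rintro g ⟨c, hc⟩
  exact sub_smul_eq.2 (im_eq_of_le (fun v hv => by rw [hc v (h hv)]; exact smul_mem _ c hv) le_rfl)

theorem psiC_mono {l : Sub F V 2} {N N' : Subgroup (Gm F V)} (h : Tr X ML l N) (hN : N ≤ N') :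
    Tr X ML l N' := fun x g hg => by
  obtain ⟨n, hn, e⟩ := h x g hg
  exact ⟨n, hN hn, e⟩

theorem psiC_orb (h : R3 x₀ K) {c : ℕ} (h2 : nO K (Sub F V 2) = c) (l : Sub F V 2) :
    nO (stabilizer (Gm F V) l) X = c := by
  have := h.tr
  have := sub_trans (F := F) (V := V) 2
  rw [nO_stab_swap x₀ l, ← h.st, h2]

theorem tr_flag (h : R3 x₀ K) {c : ℕ} (h2 : nO K (Sub F V 2) = c) (h3 : nO K (Fl F V 1 2) = c)
    (z : Fl F V 1 2) : Tr X ML z.hi (stabilizer (Gm F V) z) := by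
  have := h.tr
  have := fl_trans (F := F) (V := V) 1 2
  intro x g hg
  have hle : stabilizer (Gm F V) z ≤ stabilizer (Gm F V) z.hi := fun a ha =>
    sub_smul_eq.2 (fl_smul_eq.1 ha).2
  obtain ⟨a, ha, e⟩ := orb_eq_of_nO hle
    (by rw [nO_stab_swap x₀ z, ← h.st, h3, psiC_orb h h2]) x g hg
  exact ⟨a, ha, 1, one_mem _, by rw [one_smul, e]⟩

/-- two distinct lines meet inside a point of the first -/
theorem psiC_pt {l l' : Sub F V 2} (hne : l ≠ l') :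
    ∃ a : V, a ≠ 0 ∧ a ∈ l.1 ∧ ∀ v ∈ l.1, v ∈ l'.1 → v ∈ span F {a} := by
  by_cases hb : l.1 ⊓ l'.1 = ⊥
  · obtain ⟨a, ha, a0⟩ := SNG.exists_notMem (A := (⊥ : Submodule F V)) (B := l.1) (by rw [l.2]; simp)
    refine ⟨a, by simpa using a0, ha, fun v hv hv' => ?_⟩
    have : v ∈ l.1 ⊓ l'.1 := ⟨hv, hv'⟩
    rw [hb, mem_bot] at this
    rw [this]
    exact zero_mem _
  · obtain ⟨a, ha, a0⟩ := (Submodule.ne_bot_iff _).1 hb
    refine ⟨a, a0, ha.1, fun v hv hv' => ?_⟩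
    have hlt : l.1 ⊓ l'.1 < l.1 := lt_of_le_of_ne inf_le_left fun e =>
      hne (Subtype.ext (eq_of_le_of_finrank_eq (inf_eq_left.1 e) (l.2.trans l'.2.symm)))
    have h1 := finrank_lt_finrank_of_lt hlt
    rw [l.2] at h1
    rw [eq_of_le_of_finrank_le (SNG.l1_le ha) (by rw [finrank_span_singleton a0]; omega)]
    exact ⟨hv, hv'⟩

theorem psiC_h1 (h : R3 x₀ K) {c : ℕ} (h2 : nO K (Sub F V 2) = c) (h3 : nO K (Fl F V 1 2) = c)
    (l l' : Sub F V 2) (hne : l ≠ l') : Tr X ML l (stabilizer (Gm F V) l ⊓ ML l') := by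
  intro x g hg
  obtain ⟨a, a0, ha, hp⟩ := psiC_pt hne
  let z : Fl F V 1 2 := ⟨(span F {a}, l.1), SNG.l1_le ha, finrank_span_singleton a0, l.2⟩
  obtain ⟨b, hb, m, hm, e⟩ := tr_flag h h2 h3 z x g hg
  obtain ⟨b1, b2⟩ := fl_smul_eq.1 hb
  change im b (span F {a}) = span F {a} at b1
  change im b l.1 = l.1 at b2
  have hbl : ∀ v ∈ l.1, b • v ∈ l.1 := fun v hv => b2 ▸ smul_mem_im.2 hv
  obtain ⟨t, ht⟩ := mem_span_singleton.1 (b1 ▸ smul_mem_im.2 (SNG.self_l1 a) : b • a ∈ span F {a})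
  have t0 : t ≠ 0 := fun k => SNG.smul_ne (g := b) a0 (by rw [← ht, k, zero_smul])
  have hT : l.1 ⊔ l'.1 ≠ ⊤ := fun k => by
    have h1 := finrank_add_le_finrank_add_finrank l.1 l'.1
    have h5 := h.n5
    rw [k, finrank_top, l.2, l'.2] at h1
    omega
  obtain ⟨n, n1, n2⟩ := psiC_ext hT b hbl t0 fun v hv hv' => by
    obtain ⟨s, rfl⟩ := mem_span_singleton.1 (hp v hv hv')
    rw [SNG.gs, ← ht, smul_comm]
  refine ⟨n, ⟨sub_smul_eq.2 (im_eq_of_le (fun v hv => by rw [n1 v hv]; exact hbl v hv) le_rfl), t, n2⟩,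
    n⁻¹ * b * m, mul_mem ⟨1, fun v hv => ?_⟩ hm, ?_⟩
  · rw [mul_smul, ← n1 v hv, inv_smul_smul, one_smul]
  · rw [e, mul_smul, mul_smul, smul_inv_smul]

theorem psiC (h : R3 x₀ K) {c : ℕ} (h2 : nO K (Sub F V 2) = c) (h3 : nO K (Fl F V 1 2) = c) :
    PS X (ML : Sub F V 2 → _) c ∧
    (∀ (l : Sub F V 2) (y : Sub F V 1),
      Tr X ML l (stabilizer (Gm F V) l ⊓ stabilizer (Gm F V) y)) ∧
    ∀ (l : Sub F V 2) (y : Sub F V 2), Tr X ML l (stabilizer (Gm F V) l ⊓ stabilizer (Gm F V) y) := by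
  refine ⟨⟨sub_trans 2, fun l => psiC_le l le_rfl, ?_, psiC_orb h h2, psiC_h1 h h2 h3⟩, fun l y => ?_,
    fun l y => ?_⟩
  · rintro g l m ⟨t, ht⟩
    refine ⟨t, fun v hv => ?_⟩
    rw [mul_smul, mul_smul, ht _ (mem_im.1 hv), SNG.gs, smul_inv_smul]
  · obtain ⟨a, a0, rfl⟩ := exists_pt y
    obtain ⟨v, -, hv⟩ := SNG.exists_notMem (A := l.1 ⊔ span F {a}) (B := ⊤) (by
      have h1 := finrank_add_le_finrank_add_finrank l.1 (span F {a})
      have h5 := h.n5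
      rw [l.2, finrank_span_singleton a0] at h1
      rw [finrank_top]
      omega)
    have hv1 : v ∉ span F {a} := fun k => hv (mem_sup_right k)
    refine psiC_mono (psiC_h1 h h2 h3 l ⟨span F {a, v}, SNG.rk_l2 a0 hv1⟩ fun k => hv (mem_sup_left ?_))
      (inf_le_inf_left _ (psiC_le _ (SNG.l1_le_l2 a v)))
    rw [k]
    exact SNG.right_l2 a v
  · by_cases e : l = y
    · subst e
      exact fun x g hg => ⟨g, ⟨hg, hg⟩, 1, one_mem _, by rw [one_smul]⟩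
    · exact psiC_mono (psiC_h1 h h2 h3 l y e) (inf_le_inf_left _ (psiC_le y le_rfl))

end Cfsg.Agent.RK3
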