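import Cfsg.Agent.RK3.Inn
import Cfsg.Agent.RK3.DC

/-! Project RK3 (notes/RK3.md, section PsiE). -/

set_option autoImplicit false
set_option linter.unusedSectionVars false

namespace Cfsg.Agent.RK3

open MulAction Module Submodule

variable {G : Type*} [Group G] [Fintype G] {X : Type*} [MulAction G X] [Finite X]
  {L : Type*} [MulAction G L] [Fintype L] {M : L → Subgroup G} {c : ℕ}

theorem PsiE_mk {A : Subgroup G} {x y : X} :
    (Quotient.mk'' x : orbitRel.Quotient A X) = Quotient.mk'' y ↔ ∃ a ∈ A, a • y = x := by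
  rw [Quotient.eq'', orbitRel_apply]
  exact ⟨fun ⟨a, e⟩ => ⟨a, a.2, e⟩, fun ⟨a, m, e⟩ => ⟨⟨a, m⟩, e⟩⟩

theorem PsiE_conj (h : PS X M c) {l : L} {g m : G} (hg : g ∈ stabilizer G l) (hm : m ∈ M l) :
    g * m * g⁻¹ ∈ M l := by
  have := h.conj g l m hm
  rwa [mem_stabilizer_iff.1 hg] at this

theorem PsiE_shift (h : PS X M c) {l : L} {g m : G} (hg : g ∈ stabilizer G l) (hm : m ∈ M l) (x : X) :
    (Quotient.mk'' (g • m • x) : orbitRel.Quotient (M l) X) = Quotient.mk'' (g • x) :=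
  PsiE_mk.2 ⟨_, PsiE_conj h hg hm, by rw [mul_smul, mul_smul, inv_smul_smul]⟩

theorem le_j (h : PS X M c) (l : L) : c ≤ nO (M l) X := by
  rw [← h.orb l]
  refine Nat.card_le_card_of_surjective
    (Quotient.map' id fun a b e => ?_ : orbitRel.Quotient (M l) X → orbitRel.Quotient (stabilizer G l) X) ?_
  · obtain ⟨m, e⟩ := orbitRel_apply.1 e
    exact orbitRel_apply.2 ⟨⟨m, h.le l m.2⟩, e⟩
  · intro q
    induction q using Quotient.inductionOn' with
    | h x => exact ⟨Quotient.mk'' x, rfl⟩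

theorem j_le (h : PS X M c) (l : L) {B : Subgroup G} (h1 : M l ≤ B) (h2 : B ≤ stabilizer G l)
    (h3 : Tr X M l B) : nO (M l) X ≤ c * (M l).relIndex B := by
  obtain ⟨f, hf, -⟩ := reps (h.orb l)
  let φ : Fin c × (B ⧸ (M l).subgroupOf B) → orbitRel.Quotient (M l) X := fun p =>
    Quotient.liftOn' p.2 (fun b : B => Quotient.mk'' ((b : G) • f p.1)) fun a b e => by
      have e0 : a⁻¹ * b ∈ (M l).subgroupOf B := QuotientGroup.leftRel_apply.1 e
      have e' : (a : G)⁻¹ * b ∈ M l := e0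
      rw [← PsiE_shift h (h2 a.2) e', ← mul_smul, mul_inv_cancel_left]
  have hs : Function.Surjective φ := fun q => by
    induction q using Quotient.inductionOn' with
    | h y =>
      obtain ⟨i, k, hk, rfl⟩ := hf y
      obtain ⟨n, hn, m, hm, e⟩ := h3 (f i) k hk
      refine ⟨(i, ((⟨n, hn⟩ : B) : B ⧸ (M l).subgroupOf B)), ?_⟩
      rw [e, PsiE_shift h (h2 hn) hm]
      rfl
  have := Nat.card_le_card_of_surjective φ hs
  rwa [Nat.card_prod, Nat.card_fin] at this

theorem PsiE_index {B Z : Type*} [Group B] (S : Subgroup B) (F : B → Z)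
    (h : ∀ b b', F b = F b' ↔ b⁻¹ * b' ∈ S) (hs : Function.Surjective F) : S.index = Nat.card Z := by
  refine Nat.card_eq_of_bijective (fun q : B ⧸ S => Quotient.liftOn' q F fun a b e =>
    (h a b).2 (QuotientGroup.leftRel_apply.1 e)) ⟨fun p q e => ?_, fun z => ?_⟩
  · induction p using Quotient.inductionOn' with
    | h a =>
      induction q using Quotient.inductionOn' with
      | h b => exact Quotient.sound' (QuotientGroup.leftRel_apply.2 ((h a b).1 e))
  · obtain ⟨b, rfl⟩ := hs z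
    exact ⟨(b : B ⧸ S), rfl⟩

theorem PsiE_rel {A D E : Subgroup G} (h : D ≤ E) (k : ∀ b ∈ E, ∃ d ∈ D, b⁻¹ * d ∈ A) :
    A.relIndex D = A.relIndex E := by
  refine Nat.card_eq_of_bijective (Subgroup.quotientSubgroupOfEmbeddingOfLE A h)
    ⟨(Subgroup.quotientSubgroupOfEmbeddingOfLE A h).injective, fun q => ?_⟩
  induction q using QuotientGroup.induction_on with
  | H b =>
    obtain ⟨d, hd, e⟩ := k b b.2
    refine ⟨((⟨d, hd⟩ : D) : D ⧸ A.subgroupOf D), ?_⟩
    rw [Subgroup.quotientSubgroupOfEmbeddingOfLE_apply_mk]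
    have e' : b⁻¹ * Subgroup.inclusion h ⟨d, hd⟩ ∈ A.subgroupOf E := e
    exact (QuotientGroup.eq.2 e').symm

theorem j_mul (h : PS X M 1) (l : L) {B : Subgroup G} (h1 : M l ≤ B) (h2 : B ≤ stabilizer G l)
    (h3 : Tr X M l B) (x : X) :
    nO (M l) X * (M l).relIndex (B ⊓ stabilizer G x) = (M l).relIndex B := by
  let B' : Subgroup G :=
    { carrier := {b | b ∈ B ∧ ∃ m ∈ M l, m • x = b • x}
      one_mem' := ⟨B.one_mem, 1, (M l).one_mem, rfl⟩
      mul_mem' := by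
        rintro a b ⟨ha, m, hm, e⟩ ⟨hb, m', hm', e'⟩
        refine ⟨B.mul_mem ha hb, a * m' * a⁻¹ * m, (M l).mul_mem (PsiE_conj h (h2 ha) hm') hm, ?_⟩
        rw [mul_smul, e, mul_smul, inv_smul_smul, mul_smul, e', mul_smul]
      inv_mem' := by
        rintro a ⟨ha, m, hm, e⟩
        refine ⟨B.inv_mem ha, a⁻¹ * m⁻¹ * a⁻¹⁻¹,
          PsiE_conj h (h2 (B.inv_mem ha)) ((M l).inv_mem hm), ?_⟩
        rw [inv_inv, mul_smul, ← e, mul_smul, inv_smul_smul] }
  have l1 : M l ≤ B' := fun m hm => ⟨h1 hm, m, hm, rfl⟩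
  have l2 : B' ≤ B := fun b hb => hb.1
  have e1 : (M l).relIndex (B ⊓ stabilizer G x) = (M l).relIndex B' := by
    refine PsiE_rel (fun b hb => ⟨hb.1, 1, (M l).one_mem, ?_⟩) ?_
    · rw [one_smul]
      exact (mem_stabilizer_iff.1 hb.2).symm
    · rintro b ⟨hb, m, hm, e⟩
      refine ⟨m⁻¹ * b, ⟨B.mul_mem (B.inv_mem (h1 hm)) hb, ?_⟩, ?_⟩
      · show (m⁻¹ * b) • x = x
        rw [mul_smul, ← e, inv_smul_smul]
      · have := PsiE_conj h (h2 (B.inv_mem hb)) ((M l).inv_mem hm)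
        rwa [inv_inv, mul_assoc] at this
  have e2 : B'.relIndex B = nO (M l) X := by
    refine PsiE_index _ (fun b : B => (Quotient.mk'' ((b : G) • x) : orbitRel.Quotient (M l) X))
      (fun a b => ?_) fun q => ?_
    · rw [eq_comm, PsiE_mk]
      constructor
      · rintro ⟨m, hm, e⟩
        refine ⟨(a⁻¹ * b).2, (a : G)⁻¹ * m * (a : G)⁻¹⁻¹, PsiE_conj h (h2 (B.inv_mem a.2)) hm, ?_⟩
        show _ = ((a : G)⁻¹ * b) • x
        rw [inv_inv, mul_smul, mul_smul, e, mul_smul]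
      · rintro ⟨-, m, hm, e⟩
        refine ⟨_, PsiE_conj h (h2 a.2) hm, ?_⟩
        have e' : m • x = ((a : G)⁻¹ * b) • x := e
        rw [mul_smul, inv_smul_smul, mul_smul, e', mul_smul, smul_inv_smul]
    · induction q using Quotient.inductionOn' with
      | h y =>
        obtain ⟨k, hk, rfl⟩ := nO_one (h.orb l) x y
        obtain ⟨n, hn, m, hm, e⟩ := h3 x k hk
        exact ⟨⟨n, hn⟩, by rw [e, PsiE_shift h (h2 hn) hm]⟩
  rw [e1, ← e2, mul_comm]
  exact Subgroup.relIndex_mul_relIndex _ _ _ l1 l2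


end Cfsg.Agent.RK3
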