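import Cfsg.Agent.RK3.CharU
import Cfsg.Agent.RK3.PsiA
import Cfsg.Agent.RK3.PsiB
import Cfsg.Agent.RK3.PsiE
import Cfsg.Agent.RK3.PsiC
import Cfsg.Agent.RK3.LineA

/-! Project RK3 (notes/RK3.md, section PsiD). -/

set_option autoImplicit false
set_option linter.unusedSectionVars false

namespace Cfsg.Agent.RK3

open MulAction Module Submodule

variable {F : Type*} [Field F] [Fintype F] {V : Type*} [AddCommGroup V] [Module F V] [Finite V]
  {X : Type*} [MulAction (Gm F V) X] [Finite X] {x₀ : X} {K : Subgroup (Gm F V)}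

theorem psiD_zero (h : R3 x₀ K) {c : ℕ} (ps : PS X (ML : Sub F V 2 → Subgroup (Gm F V)) c)
    (h0 : ip (Psi X (ML : Sub F V 2 → Subgroup (Gm F V)) c) (Psi X (ML : Sub F V 2 → _) c) = 0)
    (a b : V) (ha : a ≠ 0) (hb : b ∉ span F {a}) (β : F) : β ∈ Etr K a b := by
  have hb' : b + β • a ∉ span F {a} := fun m =>
    hb (by simpa using sub_mem m (smul_mem _ β (SNG.self_l1 a)))
  obtain ⟨g, ga, gb⟩ := ext_pair (by have := h.n5; omega) ha hb ha hb'
  have ml : b + β • a ∈ span F {a, b} := add_mem (SNG.right_l2 a b) (smul_mem _ β (SNG.left_l2 a b))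
  have gs : g ∈ stabilizer (Gm F V) (fl2 a b ha hb).hi := by
    rw [mem_stabilizer_iff, sub_smul_eq]
    show im g (span F {a, b}) = span F {a, b}
    rw [im_l2, ga, gb]
    refine Submodule.eq_of_le_of_finrank_eq (SNG.l2_le (SNG.left_l2 a b) ml) ?_
    rw [SNG.rk_l2 ha hb, SNG.rk_l2 ha hb']
  obtain ⟨m, hm, e⟩ := wv_zero ps _ ((psi_self ps _).symm.trans h0) x₀ g gs
  obtain ⟨d, hd⟩ := mem_Msc.1 (inv_mem hm)
  have ka : (m⁻¹ * g) • a = d • a := by rw [mul_smul, ga]; exact hd a (SNG.left_l2 a b)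
  refine ⟨m⁻¹ * g, ?_, d, fun d0 => ?_, ka, ?_⟩
  · rw [h.st, mem_stabilizer_iff, mul_smul, e, inv_smul_smul]
  · exact SNG.smul_ne (g := m⁻¹ * g) ha (by rw [ka, d0, zero_smul])
  · rw [mul_smul, gb, one_smul]; exact hd _ ml

theorem psiD (h : R3 x₀ K) (h1 : nO K (Sub F V 1) = 1) {c : ℕ} (hc : c = 1 ∨ c = 2)
    (h2 : nO K (Sub F V 2) = c) (h3 : nO K (Fl F V 1 2) = c) :
    (∀ a b : V, a ≠ 0 → b ∉ span F {a} → ∀ β, β ∈ Etr K a b) ∨
    (∃ J, 1 ≤ J ∧ J < 2 * (Fintype.card F * (Fintype.card F - 1)) ∧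
      Nat.card X + Nat.card (Sub F V 1) = 1 + Nat.card (Sub F V 2) * J) ∨
    (∃ j, 1 ≤ j ∧ j ≤ Fintype.card F * (Fintype.card F - 1) ∧
      Nat.card X = 1 + Nat.card (Sub F V 2) * (j - 1)) ∨
    (c = 1 ∧ ∃ (a b : V) (j : ℕ), a ≠ 0 ∧ b ∉ span F {a} ∧ 2 ≤ j ∧
      j * (Eset K a b).ncard = Fintype.card F * (Fintype.card F - 1) ∧
      (j - 1) ∣ (Fintype.card F + 1) * (Eset K a b).ncard) := by
  obtain ⟨ps, t1, t2⟩ := psiC h h2 h3
  have n5 := h.n5
  obtain ⟨z⟩ := exists_fl (F := F) (V := V) (a := 1) (b := 2) (by omega) (by omega)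
  obtain ⟨a, b, ha, hb, hz⟩ := exists_fl2 z
  obtain ⟨w, hw⟩ := wv_nat ps z.hi
  set Ψ := Psi X (ML : Sub F V 2 → Subgroup (Gm F V)) c with hΨ
  set φ : Gm F V → ℚ := pc X - 1 with hφ
  have a1 : ip φ φ = 2 := (phi_norm h).1
  have a3 : ip Ψ Ψ = w := (psi_self ps _).trans hw
  have a2 : ip φ Ψ = w := by
    rw [hφ, ip_sub_left, psi_pc ps z.hi, ip_comm, psi_one ps, hw, sub_zero]
  have r0 : ip Ψ (r2 F V) = 0 := by
    rw [r2, ip_sub_right, psi_orth ps _ t1, psi_orth ps _ t2, sub_zero]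
  have r1' : ip (r2 F V) 1 = 0 := (gram n5).1 1
  have rr : ip (r2 F V) (r2 F V) = 1 := (gram n5).2.2.1 1 (by decide)
  have rp : ip φ (r2 F V) = c - 1 := by
    rw [hφ, ip_sub_left, ip_comm 1, r1', r2, ip_sub_right, ip_pc_nO h, ip_pc_nO h, h1, h2]; simp
  have nd : ip (φ - Ψ) (φ - Ψ) = 2 - w := by
    rw [ip_sub_left φ Ψ, ip_sub_right φ φ Ψ, ip_sub_right Ψ φ Ψ, ip_comm Ψ φ, a1, a2, a3]; ring
  have w2 : w ≤ 2 := by
    have := ip_nonneg (φ - Ψ)
    rw [nd] at this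
    exact_mod_cast sub_nonneg.1 this
  have j1 := le_j ps z.hi
  have tf := tr_flag h h2 h3 z
  have lt := line_top (F := F) (V := V) (by omega) z
  have j2 := j_le ps z.hi (ML_le_fl z) (fl_le_hi z) tf
  rw [lt] at j2
  have e1 : Ψ 1 = _ := psi_at_one ps z.hi
  set j := nO (ML z.hi) X with hj
  have f1 : φ 1 = Nat.card X - 1 := by rw [hφ, Pi.sub_apply, pc_one]; rfl
  obtain rfl | rfl | rfl : w = 0 ∨ w = 1 ∨ w = 2 := by omega
  · exact Or.inl (psiD_zero h ps (by simpa using a3))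
  · rcases hc with rfl | rfl
    · obtain ⟨k1, k2⟩ := wv_one ps z.hi (by simpa using hw) x₀
      have k3 := j_mul ps z.hi (ML_le_fl z) (fl_le_hi z) tf x₀
      rw [lt, ← h.st] at k3
      rw [← h.st] at k2
      subst hz
      rw [lineA] at k3
      rw [lineH h3] at k2
      exact Or.inr (Or.inr (Or.inr ⟨rfl, a, b, j, ha, hb, k1, k3, k2⟩))
    · have e : φ - Ψ - r2 F V = 0 := eq_zero_of_ip (by
        rw [ip_sub_left (φ - Ψ) (r2 F V), ip_sub_right (φ - Ψ) (φ - Ψ) (r2 F V),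
          ip_sub_right (r2 F V) (φ - Ψ) (r2 F V), ip_comm (r2 F V) (φ - Ψ), nd, rr,
          ip_sub_left φ Ψ, rp, r0]; norm_num)
      have e2 := congrFun e 1
      simp only [Pi.sub_apply, Pi.zero_apply, r2, pc_one] at e2
      rw [f1, e1] at e2
      refine Or.inr (Or.inl ⟨j - 1, by omega, by omega, ?_⟩)
      have : ((Nat.card X + Nat.card (Sub F V 1) : ℕ) : ℚ) = (1 + Nat.card (Sub F V 2) * (j - 1) : ℕ) := by
        push_cast [Nat.cast_sub (show 1 ≤ j by omega)] at e2 ⊢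
        linarith
      exact_mod_cast this
  · have e : φ - Ψ = 0 := eq_zero_of_ip (by rw [nd]; norm_num)
    have c1 : c = 1 := by
      rw [sub_eq_zero.1 e, r0] at rp
      exact_mod_cast (sub_eq_zero.1 rp.symm)
    subst c1
    have e2 := congrFun e 1
    simp only [Pi.sub_apply, Pi.zero_apply] at e2
    rw [f1, e1] at e2
    refine Or.inr (Or.inr (Or.inl ⟨j, j1, by omega, ?_⟩))
    have : ((Nat.card X : ℕ) : ℚ) = (1 + Nat.card (Sub F V 2) * (j - 1) : ℕ) := by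
      push_cast [Nat.cast_sub j1] at e2 ⊢
      linarith
    exact_mod_cast this

end Cfsg.Agent.RK3
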