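import Cfsg.Agent.RK3.Defs

/-! Project RK3 (notes/RK3.md, section TvC). -/

set_option autoImplicit false
set_option linter.unusedSectionVars false

namespace Cfsg.Agent.RK3

open MulAction Module Submodule

variable {F : Type*} [Field F] [Fintype F] {V : Type*} [AddCommGroup V] [Module F V] [Finite V]
  {X : Type*} [MulAction (Gm F V) X] [Finite X] {x₀ : X} {K : Subgroup (Gm F V)}

theorem tvC_add (g : Gm F V) (v w : V) : g • (v + w) = g • v + g • w := by
  simp only [gm_smul, map_add]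

theorem tvC_sm (g : Gm F V) (a : F) (v : V) : g • (a • v) = a • g • v := by
  simp only [gm_smul, map_smul]

theorem Tvn.conj {t : Gm F V} (h : Tvn t) (g : Gm F V) : Tvn (g * t * g⁻¹) := by
  obtain ⟨c, ψ, hc, hψ, h0, ht⟩ := h
  refine ⟨g • c, ψ ∘ₗ (((g⁻¹ : Gm F V) : V ≃ₗ[F] V) : V →ₗ[F] V), ?_, ?_, ?_, ?_⟩
  · intro e
    apply hc
    have : g⁻¹ • g • c = g⁻¹ • (0 : V) := by rw [e]
    rwa [inv_smul_smul, gm_smul, map_zero] at this
  · intro e
    apply hψ
    ext v
    have : ψ (g⁻¹ • g • v) = 0 := LinearMap.congr_fun e (g • v)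
    rwa [inv_smul_smul] at this
  · change ψ (g⁻¹ • g • c) = 0
    rwa [inv_smul_smul]
  · intro v
    change (g * t * g⁻¹) • v = v + ψ (g⁻¹ • v) • g • c
    rw [mul_smul, mul_smul, ht, tvC_add, smul_inv_smul, tvC_sm]

theorem Tvn.ne_one {t : Gm F V} (h : Tvn t) : t ≠ 1 := by
  obtain ⟨c, ψ, hc, hψ, -, ht⟩ := h
  rintro rfl
  apply hψ
  ext v
  have := ht v
  rw [one_smul, left_eq_add, smul_eq_zero] at this
  exact this.resolve_right hc

/-- transvections with centre `c`, and the identity -/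
def tvC_Q (F : Type*) [Field F] {V : Type*} [AddCommGroup V] [Module F V] (c : V) :
    Subgroup (Gm F V) where
  carrier := {g | ∃ ψ : V →ₗ[F] F, ψ c = 0 ∧ ∀ v, g • v = v + ψ v • c}
  mul_mem' := by
    rintro g h ⟨φ, hφ, hg⟩ ⟨ψ, hψ, hh⟩
    refine ⟨φ + ψ, by rw [LinearMap.add_apply, hφ, hψ, add_zero], fun v => ?_⟩
    rw [mul_smul, hg, hh, map_add, map_smul, hφ, smul_zero, add_zero, LinearMap.add_apply, add_smul]
    abel
  one_mem' := ⟨0, rfl, fun v => by rw [one_smul, LinearMap.zero_apply, zero_smul, add_zero]⟩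
  inv_mem' := by
    rintro g ⟨φ, hφ, hg⟩
    refine ⟨-φ, by rw [LinearMap.neg_apply, hφ, neg_zero], fun v => ?_⟩
    rw [inv_smul_eq_iff, hg, map_add, map_smul, hφ, smul_zero, add_zero, LinearMap.neg_apply,
      neg_smul]
    abel

theorem tvC_mem_Q {c : V} {g : Gm F V} :
    g ∈ tvC_Q F c ↔ ∃ ψ : V →ₗ[F] F, ψ c = 0 ∧ ∀ v, g • v = v + ψ v • c := Iff.rfl

theorem tvC_tvn {c : V} (hc : c ≠ 0) {g : Gm F V} (hg : g ∈ tvC_Q F c) (h1 : g ≠ 1) : Tvn g := by
  obtain ⟨ψ, hψ, h⟩ := hg
  refine ⟨c, ψ, hc, ?_, hψ, h⟩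
  rintro rfl
  exact h1 (gm_ext fun v => by rw [h, one_smul, LinearMap.zero_apply, zero_smul, add_zero])

theorem tvC_ker {c : V} (hc : c ≠ 0) :
    Nat.card {ψ : V →ₗ[F] F // ψ c = 0} = Fintype.card F ^ (finrank F V - 1) := by
  haveI : Finite (V →ₗ[F] F) := Finite.of_injective _ DFunLike.coe_injective
  let e : (V →ₗ[F] F) →ₗ[F] F := LinearMap.applyₗ c
  have hr : LinearMap.range e = ⊤ := by
    obtain ⟨φ, -, hφ⟩ := SNG.sep (F := F) (U := (⊥ : Submodule F V)) (v := c) (by simpa using hc)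
    refine top_unique fun a _ => ⟨a • φ, ?_⟩
    change (a • φ) c = a
    rw [LinearMap.smul_apply, hφ, smul_eq_mul, mul_one]
  have h1 := LinearMap.finrank_range_add_finrank_ker e
  rw [hr, finrank_top, finrank_self, Module.finrank_linearMap, finrank_self, mul_one] at h1
  have h2 : finrank F (LinearMap.ker e) = finrank F V - 1 := by omega
  rw [← h2, ← SNG.card_eq_pow]
  rfl

theorem tvC_card_Q {c : V} (hc : c ≠ 0) :
    Nat.card (tvC_Q F c) = Fintype.card F ^ (finrank F V - 1) := by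
  rw [← tvC_ker hc]
  symm
  refine Nat.card_eq_of_bijective
    (fun ψ : {ψ : V →ₗ[F] F // ψ c = 0} =>
      (⟨tvE c ψ.1 ψ.2, ψ.1, ψ.2, tvE_smul c ψ.1 ψ.2⟩ : tvC_Q F c)) ⟨?_, ?_⟩
  · intro φ ψ e
    have e' : tvE c φ.1 φ.2 = tvE c ψ.1 ψ.2 := congrArg Subtype.val e
    refine Subtype.ext (LinearMap.ext fun v => ?_)
    have := tvE_smul c φ.1 φ.2 v
    rw [e', tvE_smul, add_right_inj] at this
    exact (smul_left_injective F hc this).symm
  · rintro ⟨g, ψ, hψ, hg⟩
    exact ⟨⟨ψ, hψ⟩, Subtype.ext (gm_ext fun v => by rw [hg]; exact tvE_smul c ψ hψ v)⟩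

theorem card_tvn : {g : Gm F V | Tvn g}.ncard =
    gq (Fintype.card F) (finrank F V) * (Fintype.card F ^ (finrank F V - 1) - 1) := by
  classical
  letI : Fintype V := Fintype.ofFinite V
  have hq : 1 < Fintype.card F := Fintype.one_lt_card
  have key := Finset.card_mul_eq_card_mul (s := (Finset.univ : Finset V).erase 0)
    (t := Finset.univ.filter fun g : Gm F V => Tvn g)
    (m := Fintype.card F ^ (finrank F V - 1) - 1) (n := Fintype.card F - 1)
    (fun (c : V) (g : Gm F V) => g ∈ tvC_Q F c) ?_ ?_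
  · have hV : Fintype.card V = Fintype.card F ^ finrank F V := Module.card_eq_pow_finrank
    rw [Finset.card_erase_of_mem (Finset.mem_univ _), Finset.card_univ, hV,
      ← gq_mul hq.le (finrank F V), Nat.add_sub_cancel] at key
    have e : {g : Gm F V | Tvn g}.ncard = (Finset.univ.filter fun g : Gm F V => Tvn g).card := by
      rw [← Set.ncard_coe_finset]
      congr 1
      ext g
      simp
    rw [e]
    refine Nat.eq_of_mul_eq_mul_right (by omega : 0 < Fintype.card F - 1) ?_
    rw [← key]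
    ring
  · intro c hc
    have hc0 : c ≠ 0 := Finset.ne_of_mem_erase hc
    rw [← tvC_card_Q hc0]
    have e : Finset.bipartiteAbove (fun (c : V) (g : Gm F V) => g ∈ tvC_Q F c)
        (Finset.univ.filter fun g : Gm F V => Tvn g) c =
        (Finset.univ.filter fun g : Gm F V => g ∈ tvC_Q F c).erase 1 := by
      ext g
      simp only [Finset.mem_bipartiteAbove, Finset.mem_filter, Finset.mem_univ, true_and,
        Finset.mem_erase]
      exact ⟨fun h => ⟨h.1.ne_one, h.2⟩, fun h => ⟨tvC_tvn hc0 h.2 h.1, h.2⟩⟩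
    rw [e, Finset.card_erase_of_mem (by simp)]
    congr 1
    rw [Nat.card_eq_fintype_card, Fintype.card_subtype]
  · intro g hg
    obtain ⟨c, ψ, hc, hψ, h0, ht⟩ : Tvn g := (Finset.mem_filter.1 hg).2
    have e : Finset.bipartiteBelow (fun (c : V) (g : Gm F V) => g ∈ tvC_Q F c)
        ((Finset.univ : Finset V).erase 0) g =
        ((Finset.univ : Finset F).erase 0).image fun a => a • c := by
      ext d
      simp only [Finset.mem_bipartiteBelow, Finset.mem_erase, Finset.mem_univ, and_true,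
        Finset.mem_image]
      constructor
      · rintro ⟨hd, φ, -, hφ⟩
        obtain ⟨v, hv⟩ : ∃ v, ψ v ≠ 0 := by
          by_contra! h
          exact hψ (LinearMap.ext h)
        have h1 := hφ v
        rw [ht, add_right_inj] at h1
        have h2 : φ v ≠ 0 := by
          intro h
          rw [h, zero_smul, smul_eq_zero] at h1
          exact h1.elim hv hc
        refine ⟨(φ v)⁻¹ * ψ v, mul_ne_zero (inv_ne_zero h2) hv, ?_⟩
        rw [mul_smul, h1, smul_smul, inv_mul_cancel₀ h2, one_smul]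
      · rintro ⟨a, ha, rfl⟩
        refine ⟨smul_ne_zero ha hc, a⁻¹ • ψ, ?_, fun v => ?_⟩
        · rw [map_smul, LinearMap.smul_apply, h0, smul_zero, smul_zero]
        · rw [ht, LinearMap.smul_apply, smul_smul, smul_eq_mul, mul_right_comm,
            inv_mul_cancel₀ ha, one_mul]
    rw [e, Finset.card_image_of_injective _ (smul_left_injective F hc),
      Finset.card_erase_of_mem (Finset.mem_univ _), Finset.card_univ]

theorem tvC_free {G Y : Type*} [Group G] [Finite G] [MulAction G Y] [Finite Y]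
    (h : ∀ (g : G) (y : Y), g • y = y → g = 1) : Nat.card G ∣ Nat.card Y := by
  classical
  letI : Fintype G := Fintype.ofFinite G
  letI : Fintype Y := Fintype.ofFinite Y
  letI : Fintype (orbitRel.Quotient G Y) := Fintype.ofFinite _
  letI : ∀ g : G, Fintype (fixedBy Y g) := fun g => Fintype.ofFinite _
  have key := MulAction.sum_card_fixedBy_eq_card_orbits_mul_card_group G Y
  rw [← Finset.add_sum_erase _ _ (Finset.mem_univ (1 : G)), Finset.sum_eq_zero, add_zero] at key
  · rw [Nat.card_eq_fintype_card, Nat.card_eq_fintype_card]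
    have e : Fintype.card (fixedBy Y (1 : G)) = Fintype.card Y := by
      rw [← Nat.card_eq_fintype_card, ← Nat.card_eq_fintype_card, MulAction.fixedBy_one_eq_univ,
        Nat.card_univ]
    rw [← e, key]
    exact Dvd.intro_left _ rfl
  · intro g hg
    rw [Fintype.card_eq_zero_iff]
    exact ⟨fun y => Finset.ne_of_mem_erase hg (h g y.1 y.2)⟩

theorem semi (h : R3 x₀ K) (hT : ∀ k ∈ K, ¬ Tvn k) :
    Fintype.card F ^ (finrank F V - 1) ∣ Nat.card X := by
  have hn := h.n5
  haveI : Nontrivial V := Module.nontrivial_of_finrank_pos (R := F) (by omega)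
  obtain ⟨c, hc⟩ := exists_ne (0 : V)
  rw [← tvC_card_Q hc]
  refine tvC_free fun u x hx => ?_
  by_contra h1
  have ht : Tvn (u : Gm F V) := tvC_tvn hc u.2 fun e => h1 (Subtype.ext e)
  obtain ⟨g, rfl⟩ := h.tr.exists_smul_eq x₀ x
  refine hT _ ?_ (ht.conj g⁻¹)
  have hx' : (u : Gm F V) • g • x₀ = g • x₀ := hx
  rw [h.st, mem_stabilizer_iff, inv_inv, mul_smul, mul_smul, hx', inv_smul_smul]

end Cfsg.Agent.RK3
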