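import Cfsg.Agent.RK3.DC
import Cfsg.Agent.RK3.TvC
import Cfsg.Agent.SNG.ParB

/-! Project RK3 (notes/RK3.md, section SprA). -/

set_option autoImplicit false
set_option linter.unusedSectionVars false

namespace Cfsg.Agent.RK3

open MulAction Module Submodule

variable {F : Type*} [Field F] [Fintype F] {V : Type*} [AddCommGroup V] [Module F V] [Finite V]
  {X : Type*} [MulAction (Gm F V) X] [Finite X] {x₀ : X} {K : Subgroup (Gm F V)}

theorem sprA_ex {W : V → Submodule F V} {e : ℕ} (hW : Spd K W e) : ∃ u v : V, u ≠ 0 ∧ v ∉ W u := by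
  have h2 := hW.two
  have h3 := hW.lt
  obtain ⟨u, -, hu⟩ := SNG.exists_notMem (F := F) (V := V) (A := ⊥) (B := ⊤)
    (by rw [finrank_bot, finrank_top]; omega)
  have u0 := SNG.ne0_of_notMem hu
  obtain ⟨v, -, hv⟩ := SNG.exists_notMem (A := W u) (B := ⊤) (by rw [hW.rk u u0, finrank_top]; exact h3)
  exact ⟨u, v, u0, hv⟩

theorem Spd.two_mul {W : V → Submodule F V} {e : ℕ} (hW : Spd K W e) : 2 * e ≤ finrank F V := by
  obtain ⟨u, v, u0, hv⟩ := sprA_ex hW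
  rw [← hW.rk u u0, ← hW.par.rk_sup u0 hv]
  exact finrank_le _

theorem sprA_ker {A : Submodule F V} (h : 2 ≤ finrank F A) {ψ : V →ₗ[F] F} {v : V} (hv : v ∈ A) (h0 : ψ v ≠ 0) :
    ∃ w ∈ A, w ≠ 0 ∧ ψ w = 0 := by
  have v0 : v ≠ 0 := fun e => h0 (by rw [e, map_zero])
  obtain ⟨y, hy, hy'⟩ := SNG.exists_notMem (A := span F {v}) (B := A) (by rw [finrank_span_singleton v0]; omega)
  refine ⟨y - (ψ y / ψ v) • v, sub_mem hy (smul_mem _ _ hv), fun e => hy' ?_, ?_⟩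
  · rw [sub_eq_zero.1 e]; exact smul_mem _ _ (SNG.self_l1 v)
  · rw [map_sub, map_smul, smul_eq_mul, div_mul_cancel₀ _ h0, sub_self]

theorem sprA_iff {W : V → Submodule F V} {e : ℕ} (hW : Spd K W e) {c x : V} {ψ : V →ₗ[F] F} (hc : ψ c = 0)
    (c0 : c ≠ 0) (x0 : x ≠ 0) :
    (∀ v, v ∈ W x ↔ tvE c ψ hc • v ∈ W (tvE c ψ hc • x)) ↔ (∀ v ∈ W x, ψ v = 0) ∨ x ∈ W c := by
  have p := hW.par
  constructor
  · intro h
    refine or_iff_not_imp_left.2 fun k => ?_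
    push Not at k
    obtain ⟨v, hv, h0⟩ := k
    obtain ⟨w, hw, w0, hw'⟩ := sprA_ker ((hW.rk x x0).symm ▸ hW.two) hv h0
    have e1 := (h w).1 hw
    rw [tvE_smul c ψ hc w, hw', zero_smul, add_zero] at e1
    have e2 := (h v).1 hv
    rw [← p.eq_of_mem hw e1 w0, tvE_smul, add_mem_cancel_left hv, smul_mem_iff _ h0] at e2
    rw [p.eq x c e2 c0]
    exact p.self x
  · rintro (h | h) v
    · rw [tvE_smul c ψ hc x, h x (p.self x), zero_smul, add_zero, tvE_smul]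
      refine ⟨fun hv => by rwa [h v hv, zero_smul, add_zero], fun hv => ?_⟩
      have := h _ hv
      rw [map_add, map_smul, hc, smul_zero, add_zero] at this
      rwa [this, zero_smul, add_zero] at hv
    · have e1 : tvE c ψ hc • x ∈ W c := by
        rw [tvE_smul]; exact add_mem h (smul_mem _ _ (p.self c))
      rw [p.eq c _ e1 (SNG.smul_ne x0), p.eq c x h x0, tvE_smul, add_mem_cancel_right (smul_mem _ _ (p.self c))]

theorem sprA_pI {W : V → Submodule F V} {e : ℕ} (hW : Spd K W e) {c : V} {ψ : V →ₗ[F] F} (hc : ψ c = 0)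
    (c0 : c ≠ 0) : pI W (tvE c ψ hc) = {x : V | x ≠ 0 ∧ ((∀ v ∈ W x, ψ v = 0) ∨ x ∈ W c)}.ncard :=
  congrArg Set.ncard (Set.ext fun _ => and_congr_right fun x0 => sprA_iff hW hc c0 x0)

theorem sprA (h : R3 x₀ K) {W : V → Submodule F V} {e : ℕ} (hW : Spd K W e) (x : X) :
    x = x₀ ∨ ∃ t : Gm F V, Tvn t ∧ x = t • x₀ := by
  have p := hW.par
  obtain ⟨u, y, u0, hy⟩ := sprA_ex hW
  obtain ⟨ψ, h0, h1⟩ := SNG.sep hy
  have y1 : ψ y ≠ 0 := h1 ▸ one_ne_zero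
  have y0 := SNG.ne0_of_notMem hy
  have ψ0 : ψ ≠ 0 := fun e => y1 (by rw [e]; rfl)
  obtain ⟨c, hc, c0, hc'⟩ := sprA_ker ((hW.rk y y0).symm ▸ hW.two) (p.self y) y1
  have hu := h0 u (p.self u)
  have yc : y ∈ W c := p.eq y c hc c0 ▸ p.self y
  have l1 : pI W (tvE u ψ hu) < pI W (tvE c ψ hc') := by
    rw [sprA_pI hW hu u0, sprA_pI hW hc' c0]
    refine Set.ncard_lt_ncard ⟨fun a ha => ⟨ha.1, .inl ?_⟩, fun k => ?_⟩
    · exact ha.2.elim id fun k => p.eq u a k ha.1 ▸ h0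
    · exact (k ⟨c0, .inr (p.self c)⟩).2.elim (fun k => y1 (k y yc)) fun k => hy (p.eq u c k c0 ▸ yc)
  have l2 : pI W (tvE c ψ hc') < pI W 1 := by
    rw [sprA_pI hW hc' c0]
    obtain ⟨a, -, a1, a2⟩ := SNG.exists_notMem2 (A := LinearMap.ker ψ) (B := W c) (C := ⊤)
      (fun k => y1 (k mem_top)) fun k => by
        have := finrank_mono k
        rw [finrank_top, hW.rk c c0] at this
        exact absurd hW.lt (not_lt.2 this)
    refine Set.ncard_lt_ncard ⟨fun a ha => ⟨ha.1, fun v => by rw [one_smul, one_smul]⟩, fun k => ?_⟩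
    exact (k (a := a) ⟨SNG.ne0_of_notMem a1, fun v => by rw [one_smul, one_smul]⟩).2.elim
      (fun k => a1 (k a (p.self a))) a2
  have h3 := h.rk
  have hI := pI_inv hW.eqv
  rw [h.st] at h3 hI
  obtain ⟨i, k, hk, rfl⟩ := dc3 h3 (pI W) hI ![tvE u ψ hu, tvE c ψ hc', 1]
    (StrictMono.injective (Fin.strictMono_iff_lt_succ.2 fun i => by fin_cases i; exacts [l1, l2])) x
  have ek : ∀ t : Gm F V, k • t • x₀ = (k * t * k⁻¹) • x₀ := fun t => by
    rw [mul_smul, mul_smul, mem_stabilizer_iff.1 (inv_mem hk)]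
  fin_cases i
  · exact .inr ⟨_, Tvn.conj ⟨u, ψ, u0, ψ0, hu, tvE_smul u ψ hu⟩ k, ek _⟩
  · exact .inr ⟨_, Tvn.conj ⟨c, ψ, c0, ψ0, hc', tvE_smul c ψ hc'⟩ k, ek _⟩
  · exact .inl ((congrArg (k • ·) (one_smul _ x₀)).trans hk)

end Cfsg.Agent.RK3
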