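import Cfsg.Agent.RK3.Ext
import Cfsg.Agent.SNG.ParB

/-! Project RK3 (notes/RK3.md, section SprC). -/

set_option autoImplicit false
set_option linter.unusedSectionVars false

namespace Cfsg.Agent.RK3

open MulAction Module Submodule

variable {F : Type*} [Field F] [Fintype F] {V : Type*} [AddCommGroup V] [Module F V] [Finite V]
  {X : Type*} [MulAction (Gm F V) X] [Finite X] {x₀ : X} {K : Subgroup (Gm F V)}

theorem sprC_sig0 {B : Submodule F V} (hB : B ≠ ⊤) {x : V} (hx : x ∈ B) (x0 : x ≠ 0) :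
    ∃ σ : Fin (Fintype.card F ^ (finrank F V - 2)) → V,
      (∀ s, σ s ∉ B) ∧ ∀ s s', σ s ∈ span F {x, σ s'} → s = s' := by
  classical
  obtain ⟨z, -, hz⟩ := SetLike.exists_of_lt (lt_top_iff_ne_top.2 hB)
  obtain ⟨φ, h1, h2⟩ := SNG.sep hz
  obtain ⟨ψ, h3⟩ := SNG.sep0 (F := F) x0
  have hr : finrank F V - 2 ≤ finrank F (LinearMap.ker (φ.prod ψ)) := by
    have a := LinearMap.finrank_range_add_finrank_ker (φ.prod ψ)
    have b := Submodule.finrank_le (LinearMap.range (φ.prod ψ))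
    simp only [finrank_prod, finrank_self] at b
    omega
  have := Fintype.ofFinite (LinearMap.ker (φ.prod ψ))
  obtain ⟨r⟩ : Nonempty (Fin (Fintype.card F ^ (finrank F V - 2)) ↪ LinearMap.ker (φ.prod ψ)) := by
    refine Function.Embedding.nonempty_of_card_le ?_
    rw [Fintype.card_fin, ← Nat.card_eq_fintype_card (α := LinearMap.ker (φ.prod ψ)), SNG.card_eq_pow]
    exact Nat.pow_le_pow_right Fintype.card_pos hr
  have k : ∀ s, φ (r s) = 0 ∧ ψ (r s) = 0 := fun s => Prod.ext_iff.1 (LinearMap.mem_ker.1 (r s).2)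
  refine ⟨fun s => z + r s, fun s h => ?_, fun s s' h => ?_⟩
  · have := h1 _ h
    rw [map_add, h2, (k s).1, add_zero] at this
    exact one_ne_zero this
  · obtain ⟨a, b, e⟩ := mem_span_pair.1 h
    have e1 := congrArg φ e
    simp only [map_add, map_smul, h1 x hx, h2, (k s).1, (k s').1, smul_eq_mul, mul_zero, add_zero,
      zero_add, mul_one] at e1
    subst e1
    have e2 := congrArg ψ e
    simp only [map_add, map_smul, h3, (k s).2, (k s').2, smul_eq_mul, add_zero, mul_one, one_mul,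
      add_eq_right] at e2
    subst e2
    rw [zero_smul, zero_add, one_smul, add_right_inj] at e
    exact r.injective (Subtype.ext e.symm)

theorem sprC_sig {k : ℕ} (hk : k < finrank F V) {x : V} (x0 : x ≠ 0) :
    ∃ σ : (Fin k → V) → Fin (Fintype.card F ^ (finrank F V - 2)) → V, ∀ v, x ∈ Set.range v →
      (∀ s, σ v s ∉ span F (Set.range v)) ∧ ∀ s s', σ v s ∈ span F {x, σ v s'} → s = s' := by
  have : ∀ v : Fin k → V, ∃ σ : Fin (Fintype.card F ^ (finrank F V - 2)) → V, x ∈ Set.range v →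
      (∀ s, σ s ∉ span F (Set.range v)) ∧ ∀ s s', σ s ∈ span F {x, σ s'} → s = s' := fun v => by
    by_cases h : x ∈ Set.range v
    · have hB : span F (Set.range v) ≠ ⊤ := fun e => by
        have := finrank_range_le_card (R := F) v
        rw [Set.finrank, e, finrank_top, Fintype.card_fin] at this
        omega
      obtain ⟨σ, hσ⟩ := sprC_sig0 hB (subset_span h) x0
      exact ⟨σ, fun _ => hσ⟩
    · exact ⟨fun _ => 0, fun h' => absurd h' h⟩
  choose σ hσ using this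
  exact ⟨σ, hσ⟩

theorem sprC_pair {x y : V} (x0 : x ≠ 0) (hy : y ∉ span F {x}) {a b : F} (h : a • y + b • x = 0) :
    a = 0 ∧ b = 0 := by
  have a0 : a = 0 := by
    by_contra a0
    refine hy ((smul_mem_iff _ a0).1 ?_)
    rw [eq_neg_of_add_eq_zero_left h]
    exact neg_mem (smul_mem _ _ (SNG.self_l1 x))
  rw [a0, zero_smul, zero_add] at h
  exact ⟨a0, (smul_eq_zero.1 h).resolve_right x0⟩

theorem sprC_line {W : V → Submodule F V} (hW : Spd K W 2) {x : V} (x0 : x ≠ 0) :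
    ∃ y, y ∉ span F {x} ∧ W x = span F {x, y} := by
  obtain ⟨y, h1, h2⟩ := SNG.exists_notMem (A := span F {x}) (B := W x)
    (by rw [finrank_span_singleton x0, hW.rk x x0]; omega)
  exact ⟨y, h2, (eq_of_le_of_finrank_eq (SNG.l2_le (hW.par.self x) h1)
    (by rw [SNG.rk_l2 x0 h2, hW.rk x x0])).symm⟩

theorem sprC_mv {W : V → Submodule F V} (hW : Spd K W 2) {g g' : Gm F V} (hk : g'⁻¹ * g ∈ K) {x y : V}
    (e : W x = span F {x, y}) (h : g • x = x) (h' : g' • x = x) : g • y ∈ span F {x, g' • y} := by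
  have k := hW.eqv _ hk x y (e ▸ SNG.right_l2 x y)
  have kx : (g'⁻¹ * g) • x = x := by rw [mul_smul, h, inv_smul_eq_iff, h']
  rw [kx, e, ← SNG.smul_mem_l2 g', h', mul_smul, smul_inv_smul] at k
  exact k

theorem sprC (h : R3 x₀ K) {W : V → Submodule F V} (hW : Spd K W 2) :
    Fintype.card F ^ (2 * finrank F V) ≤ Nat.card X := by
  have n5 := h.n5
  have P := hW.par
  obtain ⟨x1, -, n1⟩ := SNG.exists_notMem (F := F) (V := V) (A := ⊥) (B := ⊤)
    (by rw [finrank_bot, finrank_top]; omega)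
  have n1 := SNG.ne0_of_notMem n1
  obtain ⟨x2, -, m2⟩ := SNG.exists_notMem (A := W x1) (B := ⊤) (by rw [hW.rk x1 n1, finrank_top]; omega)
  obtain ⟨x3, -, m3⟩ := SNG.exists_notMem (A := W x1 ⊔ W x2) (B := ⊤)
    (by rw [P.rk_sup n1 m2, hW.rk x1 n1, finrank_top]; omega)
  have n2 := SNG.ne0_of_notMem m2
  have n3 := SNG.ne0_of_notMem m3
  obtain ⟨y1, k1, e1⟩ := sprC_line hW n1
  obtain ⟨y2, k2, e2⟩ := sprC_line hW n2
  obtain ⟨y3, k3, e3⟩ := sprC_line hW n3
  have mem : ∀ {x y : V} (a b : F), W x = span F {x, y} → a • y + b • x ∈ W x := fun a b e =>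
    e ▸ add_mem (smul_mem _ _ (SNG.right_l2 _ _)) (smul_mem _ _ (SNG.left_l2 _ _))
  have li : LinearIndependent F ![y3, y2, y1, x3, x2, x1] := by
    rw [Fintype.linearIndependent_iff]
    intro c hc
    simp only [Fin.sum_univ_succ, Finset.univ_eq_empty, Finset.sum_empty, Matrix.cons_val_zero,
      Matrix.cons_val_succ, add_zero, Fin.succ_zero_eq_one, Fin.reduceSucc] at hc
    have a1 := mem (c 2) (c 5) e1
    have a2 := mem (c 1) (c 4) e2
    have a3 := mem (c 0) (c 3) e3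
    have z3 : c 0 • y3 + c 3 • x3 = 0 := by
      by_contra z
      have : c 0 • y3 + c 3 • x3 ∈ W x1 ⊔ W x2 := by
        have : c 0 • y3 + c 3 • x3 = -((c 2 • y1 + c 5 • x1) + (c 1 • y2 + c 4 • x2)) := by
          rw [eq_neg_iff_add_eq_zero, ← hc]; abel
        rw [this]
        exact neg_mem (add_mem (mem_sup_left a1) (mem_sup_right a2))
      exact m3 (P.closed this (P.eq _ _ a3 z ▸ P.self x3))
    have t : c 1 • y2 + c 4 • x2 = -(c 2 • y1 + c 5 • x1) := by
      rw [eq_neg_iff_add_eq_zero, ← hc, ← add_zero (_ + _), ← z3]; abel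
    have z2 : c 1 • y2 + c 4 • x2 = 0 := P.disj m2 (t ▸ neg_mem a1) a2
    have z1 : c 2 • y1 + c 5 • x1 = 0 := by rw [← neg_eq_zero, ← t, z2]
    have b1 := sprC_pair n1 k1 z1
    have b2 := sprC_pair n2 k2 z2
    have b3 := sprC_pair n3 k3 z3
    intro i
    fin_cases i
    exacts [b3.1, b2.1, b1.1, b3.2, b2.2, b1.2]
  have n6 : 6 ≤ finrank F V := by simpa using li.fintype_card_le_finrank
  have l0 : LinearIndependent F ![x3, x2, x1] :=
    (linearIndependent_finCons.1 (linearIndependent_finCons.1 (linearIndependent_finCons.1 li).1).1).1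
  obtain ⟨σ1, s1⟩ := sprC_sig (F := F) (k := 3) (by omega) n1
  obtain ⟨σ2, s2⟩ := sprC_sig (F := F) (k := 4) (by omega) n2
  obtain ⟨σ3, s3⟩ := sprC_sig (F := F) (k := 5) (by omega) n3
  let I := Fin (Fintype.card F ^ (finrank F V - 2))
  let u1 : I → V := σ1 ![x3, x2, x1]
  let u2 : I → I → V := fun a => σ2 ![u1 a, x3, x2, x1]
  let u3 : I → I → I → V := fun a b => σ3 ![u2 a b, u1 a, x3, x2, x1]
  have t1 := s1 ![x3, x2, x1] ⟨2, rfl⟩
  have t2 := fun a => s2 ![u1 a, x3, x2, x1] ⟨2, rfl⟩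
  have t3 := fun a b => s3 ![u2 a b, u1 a, x3, x2, x1] ⟨2, rfl⟩
  have ex : ∀ s : I × I × I, ∃ (g : Gm F V) (c : F), c ≠ 0 ∧ g • y3 = c • u3 s.1 s.2.1 s.2.2 ∧
      g • y2 = u2 s.1 s.2.1 ∧ g • y1 = u1 s.1 ∧ g • x3 = x3 ∧ g • x2 = x2 ∧ g • x1 = x1 := fun s => by
    have lw : LinearIndependent F ![u3 s.1 s.2.1 s.2.2, u2 s.1 s.2.1, u1 s.1, x3, x2, x1] :=
      linearIndependent_finCons.2 ⟨linearIndependent_finCons.2 ⟨linearIndependent_finCons.2
        ⟨l0, t1.1 _⟩, (t2 _).1 _⟩, (t3 _ _).1 _⟩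
    obtain ⟨g, c, c0, g0, g1⟩ := ext3 li lw 0
    exact ⟨g, c, c0, g0, g1 1 (by decide), g1 2 (by decide), g1 3 (by decide), g1 4 (by decide),
      g1 5 (by decide)⟩
  choose g c c0 g3 g2 g1 f3 f2 f1 using ex
  have inj : Function.Injective fun s => g s • x₀ := by
    rintro ⟨a, b, d⟩ ⟨a', b', d'⟩ e
    have hk : (g (a', b', d'))⁻¹ * g (a, b, d) ∈ K := by
      rw [h.st, mem_stabilizer_iff, mul_smul, inv_smul_eq_iff]; exact e
    have q1 := sprC_mv hW hk e1 (f1 _) (f1 _)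
    rw [g1, g1] at q1
    obtain rfl : a = a' := t1.2 _ _ q1
    have q2 := sprC_mv hW hk e2 (f2 _) (f2 _)
    rw [g2, g2] at q2
    obtain rfl : b = b' := (t2 a).2 _ _ q2
    have q3 := sprC_mv hW hk e3 (f3 _) (f3 _)
    rw [g3, g3, smul_mem_iff _ (c0 _)] at q3
    obtain rfl : d = d' := (t3 a b).2 _ _
      (SNG.l2_le (SNG.left_l2 _ _) (smul_mem _ _ (SNG.right_l2 _ _)) q3)
    rfl
  refine le_trans ?_ (Nat.card_le_card_of_injective _ inj)
  rw [Nat.card_prod, Nat.card_prod]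
  simp only [I, Nat.card_fin, ← pow_add]
  exact Nat.pow_le_pow_right (Fintype.card_pos (α := F)) (by omega)


end Cfsg.Agent.RK3
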