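import Cfsg.Agent.RK3.TvC
import Cfsg.Agent.RK3.SprA
import Cfsg.Agent.RK3.SprC

/-! Project RK3 (notes/RK3.md, section SprB). -/

set_option autoImplicit false
set_option linter.unusedSectionVars false

namespace Cfsg.Agent.RK3

open MulAction Module Submodule

variable {F : Type*} [Field F] [Fintype F] {V : Type*} [AddCommGroup V] [Module F V] [Finite V]
  {X : Type*} [MulAction (Gm F V) X] [Finite X] {x₀ : X} {K : Subgroup (Gm F V)}

theorem sprB_rk (ψ ψ' : V →ₗ[F] F) : finrank F V ≤ finrank F (LinearMap.ker (ψ.prod ψ')) + 2 := by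
  have h := LinearMap.finrank_range_add_finrank_ker (ψ.prod ψ')
  have k : finrank F (LinearMap.range (ψ.prod ψ')) ≤ 2 :=
    (Submodule.finrank_le _).trans (by simp)
  omega

theorem sprB {W : V → Submodule F V} {e : ℕ} (hW : Spd K W e) (h3 : 3 ≤ e) {t t' : Gm F V}
    (ht : Tvn t) (ht' : Tvn t') (h : t⁻¹ * t' ∈ K) : t = t' := by
  obtain ⟨c, ψ, -, -, -, hc⟩ := ht
  obtain ⟨c', ψ', -, -, -, hc'⟩ := ht'
  have rZ := sprB_rk ψ ψ'
  set Z := LinearMap.ker (ψ.prod ψ')
  have fx : ∀ u ∈ Z, (t⁻¹ * t') • u = u := fun u hu => by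
    have hu' : ψ u = 0 ∧ ψ' u = 0 := by simpa [Z, Prod.ext_iff] using hu
    rw [mul_smul, inv_smul_eq_iff, hc, hc', hu'.1, hu'.2, zero_smul, zero_smul]
  have st : ∀ v, (t⁻¹ * t') • v ∈ W v := fun v => by
    by_cases v0 : v = 0
    · rw [v0, smul_zero]; exact zero_mem _
    have r1 := finrank_sup_add_finrank_inf_eq (W v) Z
    have r2 := Submodule.finrank_le (W v ⊔ Z)
    have r3 := hW.rk v v0
    obtain ⟨w, hw, w0⟩ := SNG.exists_notMem (A := (⊥ : Submodule F V)) (B := W v ⊓ Z)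
      (by rw [finrank_bot]; omega)
    have e1 : W w = W v := hW.par.eq v w hw.1 fun h => w0 (h ▸ zero_mem _)
    have := hW.eqv _ h w v (e1 ▸ hW.par.self v)
    rwa [fx w hw.2, e1] at this
  by_contra ne
  obtain ⟨v, hv⟩ : ∃ v : V, (t⁻¹ * t') • v - v ≠ 0 := by
    by_contra hh
    push Not at hh
    exact ne (inv_mul_eq_one.1 (gm_ext fun v => (sub_eq_zero.1 (hh v)).trans (one_smul _ v).symm))
  have k : ∀ u ∈ Z, v + u ∈ W ((t⁻¹ * t') • v - v) := fun u hu => by
    have m : (t⁻¹ * t') • v - v ∈ W (v + u) := by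
      have := sub_mem (st (v + u)) (hW.par.self (v + u))
      rwa [smul_add, fx u hu, add_sub_add_right_eq_sub] at this
    rw [hW.par.eq _ _ m hv]
    exact hW.par.self _
  have le : Z ≤ W ((t⁻¹ * t') • v - v) := fun u hu => by
    have := sub_mem (k u hu) (k 0 (zero_mem _))
    rwa [add_zero, add_sub_cancel_left] at this
  have r1 := Submodule.finrank_mono le
  have r2 := hW.rk _ hv
  have r3 := hW.two_mul
  omega

theorem sprB_num1 {q n : ℕ} (hq : 2 ≤ q) (hn : 1 ≤ n) : gq q n * (q ^ (n - 1) - 1) + 1 < q ^ (2 * n) := by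
  have h1 := gq_mul (q := q) (by omega) n
  have h2 : gq q n * 1 ≤ gq q n * (q - 1) := Nat.mul_le_mul_left _ (by omega)
  have h3 : q ^ (n - 1) ≤ q ^ n := Nat.pow_le_pow_right (by omega) (by omega)
  have h4 : 1 < q ^ n := Nat.one_lt_pow (by omega) (by omega)
  have h5 : gq q n * (q ^ (n - 1) - 1) ≤ gq q n * q ^ n := Nat.mul_le_mul_left _ (by omega)
  have h6 : (gq q n + 1) * q ^ n ≤ q ^ n * q ^ n := Nat.mul_le_mul_right _ (by omega)
  rw [two_mul, pow_add]
  rw [add_mul, one_mul] at h6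
  omega

theorem sprB_num2 {q n : ℕ} (hq : 2 ≤ q) (hn : 3 ≤ n) : ¬ q ^ (n - 1) ∣ gq q n * (q ^ (n - 1) - 1) + 1 := by
  obtain ⟨m, rfl⟩ : ∃ m, n = m + 3 := ⟨n - 3, by omega⟩
  intro h
  rw [show m + 3 - 1 = m + 2 from rfl] at h
  obtain ⟨B, hB⟩ : ∃ B, q ^ (m + 2) = B + 1 := ⟨q ^ (m + 2) - 1, by have := Nat.pos_of_ne_zero (pow_ne_zero (m + 2) (show q ≠ 0 by omega)); omega⟩
  have d : q ^ (m + 2) ∣ q * gq q (m + 2) := by
    rw [hB] at h ⊢
    rw [Nat.add_sub_cancel, gq_succ'] at h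
    refine (Nat.dvd_add_right h).1 ⟨q * gq q (m + 2) + 1, by ring⟩
  have d2 : q * q ∣ q * gq q (m + 2) := Dvd.dvd.trans ⟨q ^ m, by ring⟩ d
  have d3 := Nat.dvd_of_mul_dvd_mul_left (by omega) d2
  rw [gq_succ'] at d3
  have := Nat.le_of_dvd one_pos ((Nat.dvd_add_right (dvd_mul_right _ _)).1 d3)
  omega

theorem spr (h : R3 x₀ K) (hT : ∀ k ∈ K, ¬ Tvn k) {W : V → Submodule F V} {e : ℕ}
    (hW : Spd K W e) : False := by
  have hq : 2 ≤ Fintype.card F := Fintype.one_lt_card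
  have n5 := h.n5
  let f : Option {g : Gm F V | Tvn g} → X := fun o => o.elim x₀ fun t => (t : Gm F V) • x₀
  have sj : Function.Surjective f := fun x => by
    rcases sprA h hW x with rfl | ⟨t, ht, rfl⟩
    · exact ⟨none, rfl⟩
    · exact ⟨some ⟨t, ht⟩, rfl⟩
  have cd : Nat.card (Option {g : Gm F V | Tvn g}) =
      gq (Fintype.card F) (finrank F V) * (Fintype.card F ^ (finrank F V - 1) - 1) + 1 := by
    rw [Finite.card_option, Nat.card_coe_set_eq, card_tvn]
  rcases hW.two.eq_or_lt with rfl | h3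
  · have h1 := sprC h hW
    have h2 := Nat.card_le_card_of_surjective f sj
    have h3 := sprB_num1 (n := finrank F V) hq (by omega)
    omega
  · have nk : ∀ t : {g : Gm F V | Tvn g}, (t : Gm F V) • x₀ ≠ x₀ := fun t e =>
      hT _ (h.st ▸ mem_stabilizer_iff.2 e) t.2
    have ij : Function.Injective f := by
      rintro (_ | a) (_ | b) e
      · rfl
      · exact absurd e.symm (nk b)
      · exact absurd e (nk a)
      · refine congrArg some (Subtype.ext (sprB hW h3 a.2 b.2 ?_))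
        rw [h.st, mem_stabilizer_iff, mul_smul, inv_smul_eq_iff]
        exact e.symm
    have h1 := semi h hT
    rw [← Nat.card_eq_of_bijective f ⟨ij, sj⟩, cd] at h1
    exact sprB_num2 hq (by omega) h1

end Cfsg.Agent.RK3
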