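import Cfsg.Agent.RK3.Defs

/-! Project RK3 (notes/RK3.md, section Syl). -/

set_option autoImplicit false
set_option linter.unusedSectionVars false

namespace Cfsg.Agent.RK3

open MulAction Module Submodule

variable {F : Type*} [Field F] [Fintype F] {V : Type*} [AddCommGroup V] [Module F V] [Finite V]
  {X : Type*} [MulAction (Gm F V) X] [Finite X] {x₀ : X} {K : Subgroup (Gm F V)}

/-- the transvections with centre `c` -/
def sylQ (c : V) : Subgroup (Gm F V) where
  carrier := {g | ∃ φ : V →ₗ[F] F, φ c = 0 ∧ ∀ v, g • v = v + φ v • c}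
  one_mem' := ⟨0, rfl, fun v => by simp⟩
  mul_mem' := by
    rintro g h ⟨φ, h1, h2⟩ ⟨ψ, h3, h4⟩
    exact ⟨φ + ψ, by simp [h1, h3], fun v => by
      rw [mul_smul, h4, h2, map_add, map_smul, h1, LinearMap.add_apply]; module⟩
  inv_mem' := by
    rintro g ⟨φ, h1, h2⟩
    exact ⟨-φ, by simp [h1], fun v => by
      rw [inv_smul_eq_iff, h2, map_add, map_smul, h1, LinearMap.neg_apply]; module⟩

theorem sylQ_conj {c : V} {t : Gm F V} (h : t ∈ sylQ c) (g : Gm F V) : g * t * g⁻¹ ∈ sylQ (g • c) := by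
  obtain ⟨φ, h1, h2⟩ := h
  refine ⟨φ ∘ₗ ((g⁻¹ : Gm F V) : V ≃ₗ[F] V).toLinearMap, ?_, fun v => ?_⟩
  · change φ (g⁻¹ • g • c) = 0
    rwa [inv_smul_smul]
  · rw [mul_smul, mul_smul, h2, smul_add, smul_inv_smul, SNG.gs]
    rfl

theorem sylQ_smul (a : F) (c : V) : (sylQ (a • c) : Subgroup (Gm F V)) ≤ sylQ c := by
  rintro g ⟨φ, h1, h2⟩
  exact ⟨a • φ, by simpa using h1, fun v => by rw [h2, smul_smul, mul_comm]; rfl⟩

theorem sylQ_p (p : ℕ) [CharP F p] (c : V) : IsPGroup p (sylQ c : Subgroup (Gm F V)) := by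
  rintro ⟨g, φ, h1, h2⟩
  have k : ∀ n : ℕ, ∀ v, g ^ n • v = v + (n * φ v) • c := fun n => by
    induction n with
    | zero => simp
    | succ n ih =>
      intro v
      rw [pow_succ', mul_smul, ih, h2, map_add, map_smul, h1, Nat.cast_succ]
      module
  exact ⟨1, Subtype.ext (gm_ext fun v => by simp [k])⟩

theorem sylQ_le {g : Gm F V} {c : V} (h : ∀ t ∈ sylQ c, g * t * g⁻¹ ∈ K) : sylQ (g • c) ≤ K := fun t ht => by
  have := sylQ_conj ht g⁻¹
  rw [inv_smul_smul] at this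
  simpa [mul_assoc] using h _ this

theorem syl (h : R3 x₀ K) (p : ℕ) [Fact p.Prime] [CharP F p] (hp : ¬ p ∣ Nat.card X) : ¬ Irr K := by
  intro hi
  have cj : ∀ k ∈ K, ∀ v : V, sylQ v ≤ K → sylQ (k • v) ≤ K := fun k hk v hv =>
    sylQ_le fun t ht => mul_mem (mul_mem hk (hv ht)) (inv_mem hk)
  let U : Submodule F V :=
    { carrier := {x | sylQ x ≤ K}
      zero_mem' := fun g ⟨φ, _, e⟩ => (gm_ext fun v => by simp [e] : g = 1) ▸ one_mem K
      smul_mem' := fun a x hx => (sylQ_smul a x).trans hx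
      add_mem' := fun {x y} hx hy => by
        by_cases k : x ∈ span F {y}
        · obtain ⟨a, rfl⟩ := mem_span_singleton.1 k
          rw [show a • y + y = (a + 1) • y by module]
          exact (sylQ_smul _ y).trans hy
        obtain ⟨ψ, h2, h1⟩ := SNG.sep k
        have h0 : ψ y = 0 := h2 y (mem_span_singleton_self y)
        have := cj _ (hy ⟨ψ, h0, tvE_smul y ψ h0⟩) x hx
        rwa [tvE_smul, h1, one_smul] at this }
  rcases hi U cj with e | e
  · have : Nontrivial V := nontrivial_of_finrank_pos (R := F) (by have := h.n5; omega)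
    obtain ⟨c, hc⟩ := exists_ne (0 : V)
    obtain ⟨x, hx⟩ := (sylQ_p (F := F) p c).nonempty_fixed_point_of_prime_not_dvd_card X hp
    obtain ⟨g, rfl⟩ := h.tr.exists_smul_eq x₀ x
    have : g⁻¹ • c ∈ U := sylQ_le fun t ht => by
      rw [h.st, mem_stabilizer_iff, inv_inv, mul_smul, mul_smul, inv_smul_eq_iff]
      exact hx ⟨t, ht⟩
    exact SNG.smul_ne hc ((mem_bot F).1 (e ▸ this))
  · exact h.max.1 (eq_top_of_tvE fun c φ h0 => (e.ge trivial : c ∈ U) ⟨φ, h0, tvE_smul c φ h0⟩)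

end Cfsg.Agent.RK3
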