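import Cfsg.Agent.RK3.Defs

/-! Project RK3 (notes/RK3.md, section SympA). -/

set_option autoImplicit false
set_option linter.unusedSectionVars false

namespace Cfsg.Agent.RK3

open MulAction Module Submodule

variable {F : Type*} [Field F] [Fintype F] {V : Type*} [AddCommGroup V] [Module F V] [Finite V]

theorem sympA_skew {f : V →ₗ[F] V →ₗ[F] F} (alt : ∀ a, f a a = 0) (a b : V) : f b a = - f a b := by
  have := alt (a + b)
  simp only [map_add, LinearMap.add_apply, alt] at this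
  linear_combination this

theorem sympA_hyp (f : V →ₗ[F] V →ₗ[F] F) (alt : ∀ a, f a a = 0) (nd : ∀ a, (∀ b, f a b = 0) → a = 0) (k : ℕ)
    (hk : 2 * k ≤ finrank F V + 1) :
    ∃ e e' : Fin k → V, (∀ i j, f (e i) (e j) = 0) ∧ (∀ i j, f (e' i) (e' j) = 0) ∧
      ∀ i j, f (e i) (e' j) = if i = j then 1 else 0 := by
  induction k with
  | zero => exact ⟨Fin.elim0, Fin.elim0, fun i => i.elim0, fun i => i.elim0, fun i => i.elim0⟩
  | succ k ih =>
    obtain ⟨e, e', h1, h2, h3⟩ := ih (by omega)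
    obtain ⟨x, hx, x0⟩ := (Submodule.ne_bot_iff _).1 (LinearMap.ker_ne_bot_of_finrank_lt
      (f := (LinearMap.pi fun i => f.flip (e i)).prod (LinearMap.pi fun i => f.flip (e' i))) (by simp; omega))
    have x1 : ∀ i, f x (e i) = 0 := fun i => congrFun (congrArg Prod.fst hx) i
    have x2 : ∀ i, f x (e' i) = 0 := fun i => congrFun (congrArg Prod.snd hx) i
    obtain ⟨b, hb⟩ : ∃ b, f x b = 1 := by
      obtain ⟨b, hb⟩ := not_forall.1 fun h => x0 (nd x h)
      exact ⟨(f x b)⁻¹ • b, by rw [map_smul, smul_eq_mul, inv_mul_cancel₀ hb]⟩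
    obtain ⟨y, y0, y1, y2⟩ : ∃ y, f x y = 1 ∧ (∀ j, f y (e j) = 0) ∧ ∀ j, f y (e' j) = 0 := by
      refine ⟨b - ∑ i, f b (e' i) • e i + ∑ i, f b (e i) • e' i, by simp [hb, x1, x2], fun j => ?_, fun j => ?_⟩
      · have : ∀ i, f (e' i) (e j) = - if j = i then 1 else 0 := fun i => by rw [sympA_skew alt, h3]
        simp [h1, this, LinearMap.sum_apply]
      · simp [h2, h3, LinearMap.sum_apply]
    refine ⟨Fin.cons x e, Fin.cons y e', fun i j => ?_, fun i j => ?_, fun i j => ?_⟩ <;>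
      refine Fin.cases ?_ (fun i => ?_) i <;> refine Fin.cases ?_ (fun j => ?_) j <;>
      simp [alt, h1, h2, h3, x1, y0, x2, y2, sympA_skew alt x, sympA_skew alt y, y1, (Fin.succ_ne_zero _).symm]

theorem hyp3 (h5 : 5 ≤ finrank F V) (f : V →ₗ[F] V →ₗ[F] F) (alt : ∀ a, f a a = 0)
    (nd : ∀ a, (∀ b, f a b = 0) → a = 0) :
    ∃ e e' : Fin 3 → V, (∀ i j, f (e i) (e j) = 0) ∧ (∀ i j, f (e' i) (e' j) = 0) ∧
      ∀ i j, f (e i) (e' j) = if i = j then 1 else 0 :=
  sympA_hyp f alt nd 3 (by omega)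

theorem noeig (F : Type*) [Field F] [Fintype F] :
    ∃ A : Matrix (Fin 3) (Fin 3) F, A.det = 1 ∧ ∀ c : F, (A - c • (1 : Matrix _ _ F)).det ≠ 0 := by
  classical
  obtain ⟨⟨a, b⟩, h⟩ : ∃ y : F × F, ∀ x : Fˣ × F, (x.2 - x.1, (x.1 : F)⁻¹ - x.1 * x.2) ≠ y := by
    by_contra! h
    have := Fintype.card_le_of_surjective _ h
    rw [Fintype.card_prod, Fintype.card_prod, Fintype.card_units] at this
    have h1 := Nat.le_of_mul_le_mul_right this Fintype.card_pos
    have h2 : 0 < Fintype.card F := Fintype.card_pos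
    omega
  refine ⟨!![0, 0, 1; 1, 0, -b; 0, 1, -a], by simp [Matrix.det_fin_three], fun c e => ?_⟩
  have e1 : c ^ 3 + a * c ^ 2 + b * c - 1 = 0 := by
    simp [Matrix.det_fin_three, Matrix.one_apply] at e
    linear_combination -e
  have c0 : c ≠ 0 := by
    rintro rfl
    simp at e1
  refine h (Units.mk0 c c0, a + c) (Prod.ext (by simp) ?_)
  simp only [Units.val_mk0]
  field_simp
  linear_combination -e1

theorem exists_hA (f : V →ₗ[F] V →ₗ[F] F) {e e' : Fin 3 → V}
    (h : ∀ i j, f (e i) (e' j) = if i = j then 1 else 0) (N : Matrix (Fin 3) (Fin 3) F)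
    (hN : (1 + N).det = 1) : ∃ g : Gm F V, ∀ v, g • v = v + ∑ i, ∑ j, (N i j * f v (e' j)) • e i := by
  let w : V →ₗ[F] Fin 3 → F := LinearMap.pi fun j => f.flip (e' j)
  let u : (Fin 3 → F) →ₗ[F] V := Fintype.linearCombination F e
  have wu : w ∘ₗ u = LinearMap.id := LinearMap.ext fun s => funext fun j => by
    simp [w, u, Fintype.linearCombination_apply, h, LinearMap.sum_apply]
  have hd : LinearMap.det (LinearMap.id + u ∘ₗ (Matrix.toLin' N ∘ₗ w)) = 1 := by
    let b := Module.finBasis F V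
    let c := Pi.basisFun F (Fin 3)
    rw [← LinearMap.det_toMatrix b, map_add, LinearMap.toMatrix_id, LinearMap.toMatrix_comp b c b,
      Matrix.det_one_add_mul_comm, ← LinearMap.toMatrix_comp, LinearMap.comp_assoc, wu, LinearMap.comp_id,
      LinearMap.toMatrix_eq_toMatrix', LinearMap.toMatrix'_toLin', hN]
  have e1 : (LinearMap.equivOfDetNeZero _ (hd.trans_ne one_ne_zero) : V →ₗ[F] V) =
      LinearMap.id + u ∘ₗ (Matrix.toLin' N ∘ₗ w) := LinearEquiv.coe_ofIsUnitDet _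
  refine ⟨⟨LinearMap.equivOfDetNeZero _ (hd.trans_ne one_ne_zero), H27.mem_SLV.2 (e1.symm ▸ hd)⟩,
    fun v => (LinearMap.congr_fun e1 v).trans ?_⟩
  · simp [u, w, Fintype.linearCombination_apply, Matrix.mulVec, dotProduct, Finset.sum_smul]

end Cfsg.Agent.RK3
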