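import Cfsg.Agent.RK3.DC
import Cfsg.Agent.RK3.SympA
import Cfsg.Agent.SNG.Form

/-! Project RK3 (notes/RK3.md, section SympB). -/

set_option autoImplicit false
set_option linter.unusedSectionVars false

namespace Cfsg.Agent.RK3

open MulAction Module Submodule

variable {F : Type*} [Field F] [Fintype F] {V : Type*} [AddCommGroup V] [Module F V] [Finite V]
  {X : Type*} [MulAction (Gm F V) X] [Finite X] {x₀ : X} {K : Subgroup (Gm F V)}

open Matrix in
/-- the vectors counted by `pI` -/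
def sympB_U (f : V →ₗ[F] V →ₗ[F] F) (e e' : Fin 3 → V) (N : Matrix (Fin 3) (Fin 3) F) : Set V :=
  {x | x ≠ 0 ∧ N *ᵥ (fun j => f x (e' j)) = 0 ∧ Nᵀ *ᵥ (fun i => f x (e i)) = 0}

open Matrix in
theorem sympB_key {f : V →ₗ[F] V →ₗ[F] F} (alt : ∀ a, f a a = 0) (nd : ∀ a, (∀ b, f a b = 0) → a = 0)
    {W : V → Submodule F V} (hf : ∀ a, a ≠ 0 → ∀ b, f a b = 0 ↔ b ∈ W a) {e e' : Fin 3 → V}
    (h1 : ∀ i j, f (e i) (e j) = 0) (h2 : ∀ i j, f (e' i) (e' j) = 0)
    (h3 : ∀ i j, f (e i) (e' j) = if i = j then 1 else 0) (N : Matrix (Fin 3) (Fin 3) F) (hN : (1 + N).det = 1)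
    (hc : ∀ c : F, c ≠ 1 → (1 + N - c • (1 : Matrix _ _ F)).det ≠ 0) :
    ∃ g : Gm F V, pI W g = (sympB_U f e e' N).ncard := by
  have sk : ∀ a b, f a b = -f b a := fun a b => by
    have := alt (a + b)
    simp only [map_add, LinearMap.add_apply, alt] at this
    linear_combination this
  have h4 : ∀ i j, f (e' i) (e j) = if j = i then -1 else 0 := fun i j => by
    rw [sk, h3]
    split_ifs <;> simp
  obtain ⟨g, hg⟩ := exists_hA f h3 N hN
  refine ⟨g, congrArg Set.ncard (Set.ext fun x => and_congr_right fun x0 => ?_)⟩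
  obtain ⟨a, ha⟩ : ∃ a : Fin 3 → F, a = fun j => f x (e' j) := ⟨_, rfl⟩
  obtain ⟨b, hb⟩ : ∃ b : Fin 3 → F, b = fun i => f x (e i) := ⟨_, rfl⟩
  have ha' : ∀ j, f x (e' j) = a j := fun j => by rw [ha]
  have hb' : ∀ j, f x (e j) = b j := fun j => by rw [hb]
  obtain ⟨s, hs⟩ : ∃ s, s = x + ∑ i, (N *ᵥ a) i • e i - ∑ j, (Nᵀ *ᵥ b) j • e' j := ⟨_, rfl⟩
  have k : ∀ v, f (g • x) (g • v) = f s v := fun v => by
    rw [hg, hg, hs]
    simp only [map_add, map_sub, map_smul, LinearMap.add_apply, LinearMap.sub_apply, LinearMap.smul_apply,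
      Fin.sum_univ_three, mulVec, dotProduct, transpose_apply, smul_eq_mul, h1, ha', hb', sk v (e' _)]
    ring
  have gx : g • x ≠ 0 := SNG.smul_ne x0
  simp only [← hf x x0, ← hf _ gx, k]
  rw [← ha, ← hb]
  constructor
  · intro h
    obtain ⟨y, hy⟩ : ∃ y, f x y ≠ 0 := not_forall.1 fun z => x0 (nd x z)
    obtain ⟨c, hc'⟩ : ∃ c, c = f s y / f x y := ⟨_, rfl⟩
    have sc : ∀ v, f s v = c * f x v := fun v => by
      have := (h (f x y • v - f x v • y)).1 (by rw [map_sub, map_smul, map_smul, smul_eq_mul, smul_eq_mul]; ring)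
      rw [map_sub, map_smul, map_smul, smul_eq_mul, smul_eq_mul] at this
      rw [hc']
      field_simp
      linear_combination this
    have ea : (1 + N - c • (1 : Matrix _ _ F)) *ᵥ a = 0 := funext fun j => by
      have := sc (e' j)
      rw [hs] at this
      simp only [map_add, map_sub, map_sum, map_smul, LinearMap.add_apply, LinearMap.sub_apply,
        LinearMap.sum_apply, LinearMap.smul_apply, smul_eq_mul, h2, h3, ha', mul_ite, mul_one, mul_zero,
        Finset.sum_ite_eq', Finset.mem_univ, if_true, Finset.sum_const_zero, sub_zero] at this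
      rw [sub_mulVec, add_mulVec, smul_mulVec, one_mulVec]
      exact sub_eq_zero.2 this
    have eb : (1 + N - c • (1 : Matrix _ _ F))ᵀ *ᵥ b = 0 := funext fun j => by
      have := sc (e j)
      rw [hs] at this
      simp only [map_add, map_sub, map_sum, map_smul, LinearMap.add_apply, LinearMap.sub_apply,
        LinearMap.sum_apply, LinearMap.smul_apply, smul_eq_mul, h1, h4, hb', mul_ite, mul_neg, mul_one, mul_zero,
        Finset.sum_ite_eq, Finset.mem_univ, if_true, Finset.sum_const_zero, add_zero, sub_neg_eq_add] at this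
      rw [transpose_sub, transpose_add, transpose_smul, transpose_one, sub_mulVec, add_mulVec, smul_mulVec,
        one_mulVec]
      exact sub_eq_zero.2 this
    by_cases c1 : c = 1
    · rw [c1, one_smul, add_sub_cancel_left] at ea eb
      exact ⟨ea, eb⟩
    · rw [eq_zero_of_mulVec_eq_zero (hc c c1) ea, eq_zero_of_mulVec_eq_zero ((det_transpose _).trans_ne (hc c c1)) eb]
      exact ⟨mulVec_zero _, mulVec_zero _⟩
  · rintro ⟨p, q⟩ v
    rw [hs, p, q]
    simp

open Matrix in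
theorem symp (h : R3 x₀ K) {W : V → Submodule F V} (hW : Pol K W) : False := by
  obtain ⟨f, alt, hf⟩ := SNG.exists_form (D := ⊤) (H := W) (fun a _ => hW.cov a) (fun a _ => hW.self a)
    fun a _ => hW.symm a
  replace alt : ∀ a, f a a = 0 := fun a => alt a mem_top
  replace hf : ∀ a, a ≠ 0 → ∀ b, f a b = 0 ↔ b ∈ W a := fun a ha b => hf a mem_top ha b mem_top
  have nd : ∀ a, (∀ b, f a b = 0) → a = 0 := fun a z => by
    by_contra a0
    exact (hW.cov a a0).lt.ne (top_unique fun b _ => (hf a a0 b).1 (z b))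
  obtain ⟨e, e', h1, h2, h3⟩ := hyp3 h.n5 f alt nd
  obtain ⟨A, hA, hA'⟩ := noeig F
  have e0 : ∀ i, e i ≠ 0 := fun i z => by
    have := h3 i i
    rw [z, map_zero, LinearMap.zero_apply, if_pos rfl] at this
    exact zero_ne_one this
  have tri : ∀ u w : F, ∃ g : Gm F V, pI W g = (sympB_U f e e' !![0, u, 0; 0, 0, w; 0, 0, 0]).ncard := fun u w =>
    sympB_key alt nd hf h1 h2 h3 _ (by simp [det_fin_three, one_fin_three]) fun c c1 => by
      have : (1 : F) - c ≠ 0 := sub_ne_zero.2 c1.symm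
      simp [det_fin_three, one_fin_three, this, ← sub_eq_add_neg]
  have mem : ∀ (u w : F) x, x ∈ sympB_U f e e' !![0, u, 0; 0, 0, w; 0, 0, 0] ↔
      x ≠ 0 ∧ (u * f x (e' 1) = 0 ∧ w * f x (e' 2) = 0) ∧ u * f x (e 0) = 0 ∧ w * f x (e 1) = 0 := fun u w x => by
    simp only [sympB_U, Set.mem_setOf_eq, funext_iff, Fin.forall_fin_succ, mulVec, dotProduct, Fin.sum_univ_three]
    simp
  obtain ⟨g0, p0⟩ := tri 0 0
  obtain ⟨g1, p1⟩ := tri 1 0
  obtain ⟨g2, p2⟩ := tri 1 1
  obtain ⟨g3, p3⟩ := sympB_key alt nd hf h1 h2 h3 (A - 1) (by rwa [add_sub_cancel]) fun c _ => by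
    rw [add_sub_cancel]
    exact hA' c
  have d : (A - 1).det ≠ 0 := by simpa using hA' 1
  have l1 : pI W g1 < pI W g0 := by
    rw [p0, p1]
    refine Set.ncard_lt_ncard ⟨fun x hx => ?_, fun k => ?_⟩ (Set.toFinite _)
    · rw [mem] at hx ⊢
      simpa using hx.1
    · have := (mem _ _ _).1 (k ((mem 0 0 (e 1)).2 (by simpa using e0 1)))
      simp [h3] at this
  have l2 : pI W g2 < pI W g1 := by
    rw [p1, p2]
    refine Set.ncard_lt_ncard ⟨fun x hx => ?_, fun k => ?_⟩ (Set.toFinite _)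
    · rw [mem] at hx ⊢
      exact ⟨hx.1, ⟨hx.2.1.1, zero_mul _⟩, hx.2.2.1, zero_mul _⟩
    · have := (mem _ _ _).1 (k ((mem 1 0 (e 2)).2 (by simpa [h1, h3] using e0 2)))
      simp [h3] at this
  have l3 : pI W g3 < pI W g2 := by
    rw [p2, p3]
    refine Set.ncard_lt_ncard ⟨fun x hx => ?_, fun k => ?_⟩ (Set.toFinite _)
    · have a := congrFun (eq_zero_of_mulVec_eq_zero d hx.2.1)
      have b := congrFun (eq_zero_of_mulVec_eq_zero ((det_transpose _).trans_ne d) hx.2.2)
      simp only [Pi.zero_apply] at a b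
      rw [mem]
      simpa [a, b] using hx.1
    · have := congrFun (eq_zero_of_mulVec_eq_zero d (k ((mem 1 1 (e 0)).2 (by simpa [h1, h3] using e0 0))).2.1) 0
      simp [h3] at this
  refine dc4 (h.st ▸ h.rk) (pI W) (h.st ▸ pI_inv hW.eqv) ![g0, g1, g2, g3] (StrictAnti.injective ?_)
  rw [Fin.strictAnti_iff_succ_lt]
  intro i
  fin_cases i
  exacts [l1, l2, l3]

end Cfsg.Agent.RK3
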