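import Cfsg.Agent.RK3.DC
import Cfsg.Agent.RK3.Ext

/-! Project RK3 (notes/RK3.md, section TV). -/

set_option autoImplicit false
set_option linter.unusedSectionVars false

namespace Cfsg.Agent.RK3

open MulAction Module Submodule

variable {F : Type*} [Field F] [Fintype F] {V : Type*} [AddCommGroup V] [Module F V] [Finite V]
  {K : Subgroup (Gm F V)}

/-- `K` contains the transvection with centre `x` and functional `φ` -/
def tvIn (K : Subgroup (Gm F V)) (x : V) (φ : V →ₗ[F] F) : Prop :=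
  φ x = 0 ∧ ∃ k ∈ K, ∀ v, k • v = v + φ v • x

/-- the common axis -/
def tvW (K : Subgroup (Gm F V)) (x : V) : Submodule F V where
  carrier := {v | ∀ φ, tvIn K x φ → φ v = 0}
  add_mem' := fun ha hb φ h => by rw [map_add, ha φ h, hb φ h, add_zero]
  zero_mem' := fun φ _ => map_zero φ
  smul_mem' := fun c _ ha φ h => by rw [map_smul, ha φ h, smul_zero]

variable {x y : V} {φ χ ψ : V →ₗ[F] F} {c : F} {k : Gm F V}

theorem tvIn.congr (h : tvIn K x φ) (e : ∀ v, φ v = χ v) : tvIn K x χ := LinearMap.ext e ▸ h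

theorem tvIn.add (h : tvIn K x φ) (h' : tvIn K x χ) : tvIn K x (φ + χ) := by
  obtain ⟨h0, k, hk, e⟩ := h
  obtain ⟨h0', k', hk', e'⟩ := h'
  refine ⟨by simp [h0, h0'], k * k', mul_mem hk hk', fun v => ?_⟩
  rw [mul_smul, e', e, map_add, map_smul, h0, smul_zero, add_zero, LinearMap.add_apply, add_smul]
  abel

theorem tv_inv (h0 : φ x = 0) (e : ∀ v, k • v = v + φ v • x) (v : V) : k⁻¹ • v = v - φ v • x := by
  rw [inv_smul_eq_iff, e, map_sub, map_smul, h0, smul_zero, sub_zero, sub_add_cancel]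

theorem tvIn.neg (h : tvIn K x φ) : tvIn K x (-φ) := by
  obtain ⟨h0, k, hk, e⟩ := h
  refine ⟨by simp [h0], k⁻¹, inv_mem hk, fun v => ?_⟩
  rw [tv_inv h0 e, LinearMap.neg_apply, neg_smul, sub_eq_add_neg]

theorem tvIn.of_smul (hc : c ≠ 0) (h : tvIn K (c • x) φ) : tvIn K x (c • φ) := by
  obtain ⟨h0, k, hk, e⟩ := h
  refine ⟨by simpa [hc] using h0, k, hk, fun v => ?_⟩
  rw [e, smul_smul, LinearMap.smul_apply, smul_eq_mul, mul_comm]

theorem tvIn.conj (h : tvIn K x φ) (hk : k ∈ K) : tvIn K (k • x) (φ ∘ₗ SNG.lin F k⁻¹) := by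
  obtain ⟨h0, t, ht, e⟩ := h
  refine ⟨by rw [LinearMap.comp_apply, SNG.lin_apply, inv_smul_smul, h0],
    k * t * k⁻¹, mul_mem (mul_mem hk ht) (inv_mem hk), fun v => ?_⟩
  rw [mul_smul, mul_smul, e, smul_add, smul_inv_smul, SNG.gs]
  rfl

theorem tvIn.comm (h : tvIn K x φ) (h' : tvIn K y χ) (e : χ x = 0) : tvIn K x (φ y • χ) := by
  obtain ⟨h0, s, hs, es⟩ := h'
  have h1 := h.conj hs
  rw [es, e, zero_smul, add_zero] at h1
  refine (h.add h1.neg).congr fun v => ?_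
  rw [LinearMap.add_apply, LinearMap.neg_apply, LinearMap.comp_apply, SNG.lin_apply, tv_inv h0 es,
    map_sub, map_smul, LinearMap.smul_apply, smul_eq_mul, smul_eq_mul]
  ring

theorem tvW_self (x : V) : x ∈ tvW K x := fun _ h => h.1

theorem tvW_smul (hc : c ≠ 0) : tvW K x ≤ tvW K (c • x) := fun v hv φ h => by
  simpa [hc] using hv _ (h.of_smul hc)

theorem tvW_eqv : Eqv K (tvW K) := fun k hk a b hb φ h => by
  have := h.conj (inv_mem hk)
  rw [inv_smul_smul, inv_inv] at this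
  exact hb _ this

theorem tv_pt (h1 : nO K (Sub F V 1) = 1) (hx : x ≠ 0) (hy : y ≠ 0) :
    ∃ k ∈ K, ∃ c : F, c ≠ 0 ∧ k • x = c • y := by
  obtain ⟨k, hk, e⟩ := nO_one h1 (pt x hx) (pt y hy)
  have e' : span F {k • x} = span F {y} := (im_l1 k x).symm.trans (sub_smul_eq.1 e)
  obtain ⟨c, hc⟩ := mem_span_singleton.1 (e' ▸ SNG.self_l1 (k • x))
  exact ⟨k, hk, c, fun z => SNG.smul_ne (g := k) hx (by rw [← hc, z, zero_smul]), hc.symm⟩

theorem tvW_rk (h1 : nO K (Sub F V 1) = 1) (hx : x ≠ 0) (hy : y ≠ 0) :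
    finrank F (tvW K x) ≤ finrank F (tvW K y) := by
  obtain ⟨k, hk, c, hc, e⟩ := tv_pt h1 hx hy
  rw [← rk_im k]
  refine finrank_mono fun v hv => ?_
  have := tvW_eqv k hk _ _ (mem_im.1 hv)
  rw [smul_inv_smul, e] at this
  have := tvW_smul (inv_ne_zero hc) this
  rwa [smul_smul, inv_mul_cancel₀ hc, one_smul] at this

theorem tv_ex {v : V} (h : v ∉ tvW K x) : ∃ φ, tvIn K x φ ∧ φ v ≠ 0 := by
  by_contra e
  push Not at e
  exact h e

theorem tvW_symm (h1 : nO K (Sub F V 1) = 1) (hy : y ≠ 0) (h : y ∈ tvW K x) : x ∈ tvW K y := by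
  by_contra hx
  obtain ⟨ψ, hψ, e⟩ := tv_ex hx
  have le : tvW K y ≤ tvW K x := fun v hv φ hφ => by
    simpa [e] using hv _ (hψ.comm hφ (h φ hφ))
  exact hx (eq_of_le_of_finrank_le le (tvW_rk h1 (SNG.ne0_of_notMem hx) hy) ▸ tvW_self x)

theorem tv_rk_ker (h : ψ ≠ 0) : finrank F (LinearMap.ker ψ) + 1 = finrank F V :=
  Module.Dual.finrank_ker_add_one_of_ne_zero h

theorem tv_of_ker (h : ∀ v, φ v = 0 → ψ v = 0) (h0 : φ ≠ 0) : ∃ c : F, ∀ v, ψ v = c * φ v := by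
  obtain ⟨w, hw⟩ : ∃ w, φ w ≠ 0 := by
    by_contra e
    push Not at e
    exact h0 (LinearMap.ext e)
  refine ⟨ψ w / φ w, fun v => ?_⟩
  have := h (φ w • v - φ v • w) (by simp [mul_comm])
  simp only [map_sub, map_smul, smul_eq_mul] at this
  field_simp
  linear_combination this

theorem tv_axis (h2 : nO K (Sub F V (finrank F V - 1)) = 1) (ht : ∃ k ∈ K, Tvn k) (h0 : ψ ≠ 0) :
    ∃ y, y ≠ 0 ∧ ∃ c : F, c ≠ 0 ∧ tvIn K y (c • ψ) := by
  obtain ⟨t, ht, x, φ, hx, hφ, e0, e⟩ := ht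
  obtain ⟨k, hk, e'⟩ := nO_one h2 ⟨LinearMap.ker φ, by have := tv_rk_ker hφ; omega⟩
    ⟨LinearMap.ker ψ, by have := tv_rk_ker h0; omega⟩
  have e1 : im k (LinearMap.ker φ) = LinearMap.ker ψ := sub_smul_eq.1 e'
  have h1 := tvIn.conj (K := K) ⟨e0, t, ht, e⟩ hk
  obtain ⟨c, hc⟩ := tv_of_ker (φ := ψ) (ψ := φ ∘ₗ SNG.lin F k⁻¹)
    (fun v hv => mem_im.1 (e1 ▸ LinearMap.mem_ker.2 hv :)) h0
  refine ⟨_, SNG.smul_ne hx, c, fun z => hφ (LinearMap.ext fun v => ?_), h1.congr hc⟩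
  have := hc (k • v)
  rwa [z, zero_mul, LinearMap.comp_apply, SNG.lin_apply, inv_smul_smul] at this

theorem tv_all (h1 : nO K (Sub F V 1) = 1) (h2 : nO K (Sub F V (finrank F V - 1)) = 1)
    (ht : ∃ k ∈ K, Tvn k) (hr : ∀ x, x ≠ 0 → finrank F (tvW K x) + 1 < finrank F V) (hx : x ≠ 0)
    (h0 : ψ ≠ 0) (e : ψ x = 0) : ∃ c : F, c ≠ 0 ∧ tvIn K x (c • ψ) := by
  obtain ⟨y, hy, c, hc, h⟩ := tv_axis h2 ht h0
  have nl : ∀ u, u ≠ 0 → ¬ LinearMap.ker ψ ≤ tvW K u := fun u hu le => by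
    have := finrank_mono le
    have := tv_rk_ker h0
    have := hr u hu
    omega
  obtain ⟨z, hz, z1, z2⟩ := SNG.exists_notMem2 (nl y hy) (nl x hx)
  obtain ⟨φ, hφ, e1⟩ := tv_ex (fun m => z1 (tvW_symm h1 hy m))
  obtain ⟨φ', hφ', e2⟩ := tv_ex z2
  have a1 := hφ.comm h (by simp [LinearMap.mem_ker.1 hz])
  have a2 := hφ'.comm a1 (by simp [e])
  exact ⟨φ' z * (φ y * c), mul_ne_zero e2 (mul_ne_zero e1 hc), by rwa [smul_smul, smul_smul, mul_assoc] at a2⟩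

theorem tv_full (h4 : 4 ≤ finrank F V)
    (hA : ∀ (x : V) (ψ : V →ₗ[F] F), x ≠ 0 → ψ ≠ 0 → ψ x = 0 → ∃ c : F, c ≠ 0 ∧ tvIn K x (c • ψ))
    (hx : x ≠ 0) (h0 : ψ ≠ 0) (e : ψ x = 0) : tvIn K x ψ := by
  have hS : ∀ a b v : V, a ≠ 0 → v ∉ span F {a, b} → ∃ φ, tvIn K a φ ∧ φ b = 0 ∧ φ v ≠ 0 := by
    intro a b v ha hv
    obtain ⟨φ, e1, e2⟩ := SNG.sep hv
    obtain ⟨c, hc, h⟩ := hA a φ ha (fun z => by simp [z] at e2) (e1 _ (SNG.left_l2 a b))
    exact ⟨_, h, by simp [e1 _ (SNG.right_l2 a b)], by simp [e2, hc]⟩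
  have rk := tv_rk_ker h0
  obtain ⟨u, hu, hu'⟩ := SNG.exists_notMem (A := span F {x}) (B := LinearMap.ker ψ)
    (by rw [finrank_span_singleton hx]; omega)
  obtain ⟨w, hw, hw'⟩ := SNG.exists_notMem (A := span F {x, u}) (B := LinearMap.ker ψ)
    (by rw [SNG.rk_l2 hx hu']; omega)
  have hu2 : u ∉ span F {x, w} := fun m => by
    obtain ⟨a, b, e'⟩ := mem_span_pair.1 m
    by_cases hb : b = 0
    · exact hu' (mem_span_singleton.2 ⟨a, by rw [← e', hb, zero_smul, add_zero]⟩)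
    · refine hw' (mem_span_pair.2 ⟨-(b⁻¹ * a), b⁻¹, ?_⟩)
      rw [← e', smul_add, smul_smul, smul_smul, inv_mul_cancel₀ hb, one_smul, neg_smul]
      abel
  obtain ⟨φ, hφ, a1, a2⟩ := hS x w u hx hu2
  obtain ⟨φ', hφ', b1, b2⟩ := hS x u w hx hw'
  obtain ⟨c, hc, hcψ⟩ := hA x ψ hx h0 e
  obtain ⟨y, y0, y1, y2⟩ : ∃ y, ψ y = 0 ∧ φ y = 1 ∧ φ' y = c⁻¹ :=
    ⟨(φ u)⁻¹ • u + (c⁻¹ * (φ' w)⁻¹) • w,
      by simp [LinearMap.mem_ker.1 hu, LinearMap.mem_ker.1 hw], by simp [a1, a2], by simp [b1, b2]⟩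
  have hy : y ∉ span F {x} := fun m => by
    obtain ⟨a, rfl⟩ := mem_span_singleton.1 m
    simp [hφ.1] at y1
  have hy0 := SNG.ne0_of_notMem hy
  obtain ⟨θ, hθ, -, t2⟩ := hS y y x hy0 (by
    rw [Set.pair_eq_singleton]; exact SNG.notMem_l1_symm hx hy)
  have s1 : ∀ d : F, tvIn K x (d • ψ) → tvIn K y ((θ x * d) • ψ) := fun d h => by
    rw [← smul_smul]; exact hθ.comm h (by simp [y0])
  have s2 : ∀ d : F, tvIn K y (d • ψ) → tvIn K x (d • ψ) := fun d h => by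
    have := hφ.comm h (by simp [e])
    rwa [y1, one_smul] at this
  have s3 : ∀ m : ℕ, tvIn K x ((θ x ^ m * c) • ψ) := fun m => by
    induction m with
    | zero => simpa using hcψ
    | succ m ih => rw [pow_succ', mul_assoc]; exact s2 _ (s1 _ ih)
  have s4 := s1 _ (s3 (Fintype.card F - 2))
  rw [← mul_assoc, ← pow_succ', show Fintype.card F - 2 + 1 = Fintype.card F - 1 by
    have := Fintype.one_lt_card (α := F); omega, FiniteField.pow_card_sub_one_eq_one _ t2, one_mul] at s4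
  have := hφ'.comm s4 (by simp [e])
  rwa [y2, smul_smul, inv_mul_cancel₀ hc, one_smul] at this

theorem tv_case (h4 : 4 ≤ finrank F V) (h1 : nO K (Sub F V 1) = 1)
    (h2 : nO K (Sub F V (finrank F V - 1)) = 1) (ht : ∃ k ∈ K, Tvn k) :
    K = ⊤ ∨ ∃ W, Pol K W := by
  by_cases hr : ∀ x : V, x ≠ 0 → finrank F (tvW K x) + 1 < finrank F V
  · refine Or.inl (eq_top_of_tvE fun x φ h => ?_)
    by_cases h0 : x = 0 ∨ φ = 0
    · have : tvE x φ h = 1 := gm_ext fun v => by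
        rw [tvE_smul, one_smul]
        rcases h0 with e | e <;> simp [e]
      exact this ▸ one_mem K
    push Not at h0
    obtain ⟨-, k, hk, e⟩ := tv_full h4 (fun x ψ => tv_all h1 h2 ht hr) h0.1 h0.2 h
    have : tvE x φ h = k := gm_ext fun v => by rw [tvE_smul, e]
    exact this ▸ hk
  push Not at hr
  obtain ⟨x, hx, hr⟩ := hr
  obtain ⟨t, ht, y, φ, hy, hφ, e0, e⟩ := ht
  have lt : finrank F (tvW K y) < finrank F V := by
    have := finrank_mono (show tvW K y ≤ LinearMap.ker φ from fun v hv => hv φ ⟨e0, t, ht, e⟩)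
    have := tv_rk_ker hφ
    omega
  refine Or.inr ⟨tvW K, fun a ha => SNG.covBy_iff.2 ⟨le_top, ?_⟩, tvW_self,
    fun a b hb h => tvW_symm h1 hb h, tvW_eqv⟩
  have := tvW_rk h1 hx ha
  have := tvW_rk h1 ha hy
  rw [finrank_top]
  omega

end Cfsg.Agent.RK3
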