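import Cfsg.Agent.RK3.Ext
import Cfsg.Agent.RK3.Cnt

/-! Project RK3 (notes/RK3.md, section VarG). -/

set_option autoImplicit false
set_option linter.unusedSectionVars false

namespace Cfsg.Agent.RK3

open MulAction Module Submodule

variable {F : Type*} [Field F] [Fintype F] {V : Type*} [AddCommGroup V] [Module F V] [Finite V]

open Classical in
/-- planes through `x` -/
noncomputable def varG_pl (x : Submodule F V) : Finset (Submodule F V) :=
  Finset.univ.filter fun P => x ≤ P ∧ finrank F P = 3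

theorem varG_mem {x P : Submodule F V} : P ∈ varG_pl x ↔ x ≤ P ∧ finrank F P = 3 := by simp [varG_pl]

open Classical in
/-- indicator -/
noncomputable def varG_ind (l P : Submodule F V) : ℤ := if l ≤ P then 1 else 0

theorem varG_c1 {x l : Submodule F V} (hx : finrank F x = 1) (hl : x ⋖ l) :
    ∑ P ∈ varG_pl x, varG_ind l P = gq (Fintype.card F) (finrank F V - 2) := by
  classical
  have r := (SNG.covBy_iff.1 hl).2
  have : (varG_pl x).filter (l ≤ ·) = ups l ⊤ := by
    ext P
    rw [Finset.mem_filter, varG_mem, mem_ups, SNG.covBy_iff]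
    exact ⟨fun h => ⟨⟨h.2, by omega⟩, le_top⟩, fun h => ⟨⟨hl.le.trans h.1.1, by have := h.1.2; omega⟩, h.1.1⟩⟩
  simp only [varG_ind]
  rw [Finset.sum_boole, this, cnt_up le_top, finrank_top, show finrank F l = 2 by omega]

theorem varG_c2 {x l l' : Submodule F V} (hx : finrank F x = 1) (hl : x ⋖ l) (hl' : x ⋖ l') (ne : l ≠ l') :
    ∑ P ∈ varG_pl x, varG_ind l P * varG_ind l' P = 1 := by
  classical
  have r := (SNG.covBy_iff.1 hl).2
  have r' := (SNG.covBy_iff.1 hl').2
  have s := finrank_sup_add_finrank_inf_eq l l'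
  rw [hl.wcovBy.inf_eq hl'.wcovBy ne] at s
  rw [Finset.sum_eq_single (l ⊔ l')]
  · simp [varG_ind]
  · intro P hP e
    by_cases h : l ≤ P
    · by_cases h' : l' ≤ P
      · exact absurd (eq_of_le_of_finrank_eq (sup_le h h') (by have := (varG_mem.1 hP).2; omega)).symm e
      · simp [varG_ind, h']
    · simp [varG_ind, h]
  · exact fun h => absurd (varG_mem.2 ⟨hl.le.trans le_sup_left, by omega⟩) h

theorem varG_sq (l P : Submodule F V) : varG_ind l P * varG_ind l P = varG_ind l P := by
  unfold varG_ind; split_ifs <;> simp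

theorem varG_s1 {x : Submodule F V} (hx : finrank F x = 1) {D : Finset (Submodule F V)} (hD : ∀ l ∈ D, x ⋖ l) :
    ∑ P ∈ varG_pl x, ∑ l ∈ D, varG_ind l P = D.card * gq (Fintype.card F) (finrank F V - 2) := by
  rw [Finset.sum_comm, Finset.sum_congr rfl fun l h => varG_c1 hx (hD l h)]
  simp

theorem varG_s2 {x : Submodule F V} (hx : finrank F x = 1) {D : Finset (Submodule F V)} (hD : ∀ l ∈ D, x ⋖ l) :
    ∑ P ∈ varG_pl x, (∑ l ∈ D, varG_ind l P) * (∑ l ∈ D, varG_ind l P) =
      D.card * (gq (Fintype.card F) (finrank F V - 2) + (D.card - 1)) := by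
  classical
  simp only [Finset.sum_mul_sum]
  rw [Finset.sum_comm, Finset.sum_congr rfl (g := fun _ =>
    (gq (Fintype.card F) (finrank F V - 2) + (D.card - 1) : ℤ)) fun l h => ?_]
  · simp
  rw [Finset.sum_comm, ← Finset.add_sum_erase _ _ h]
  simp only [varG_sq]
  rw [varG_c1 hx (hD l h), Finset.sum_congr rfl fun l' h' =>
    varG_c2 hx (hD l h) (hD l' (Finset.mem_of_mem_erase h')) (Finset.ne_of_mem_erase h').symm,
    Finset.sum_const, Finset.card_erase_of_mem h, nsmul_eq_mul, mul_one,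
    Nat.cast_sub (Finset.card_pos.2 ⟨l, h⟩), Nat.cast_one]

theorem varG_T {x : Submodule F V} (hx : finrank F x = 1) :
    ((varG_pl x).card : ℤ) * (Fintype.card F + 1) =
      gq (Fintype.card F) (finrank F V - 1) * gq (Fintype.card F) (finrank F V - 2) := by
  classical
  have := varG_s1 hx (D := ups x ⊤) fun l h => (mem_ups.1 h).1
  rw [cnt_up le_top, finrank_top, hx] at this
  rw [← this, Finset.sum_congr rfl (g := fun _ => (Fintype.card F + 1 : ℤ)) fun P h => ?_]
  · simp
  have e : (ups x ⊤).filter (· ≤ P) = ups x P := by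
    ext l
    simp [mem_ups]
  simp only [varG_ind]
  rw [Finset.sum_boole, e, cnt_up (varG_mem.1 h).1, (varG_mem.1 h).2, hx]
  simp [gq, Finset.sum_range_succ, add_comm]

theorem varG_num {q a N δ T i i' : ℤ} (a1 : 1 ≤ a) (a2 : a ≤ q) (hN : q * q < N)
    (hδ : δ * (q + 1) = a * (q * N + 1)) (hT : T * (q + 1) = (q * N + 1) * N)
    (h : δ * (N + (δ - 1)) - (i + i') * (δ * N) + T * (i * i') = 0) : False := by
  have M0 : q * N + 1 ≠ 0 := by nlinarith
  have h1 : a * (N + (δ - 1)) - (i + i') * (a * N) + N * (i * i') = 0 := by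
    apply mul_left_cancel₀ M0
    linear_combination (q + 1) * h - (N + (δ - 1) - (i + i') * N) * hδ - i * i' * hT
  have h2 : N ∣ a * (q + 1 - a) :=
    ⟨a * a * q + (q + 1) * (a - (i + i') * a + i * i'), by linear_combination a * hδ - (q + 1) * h1⟩
  have := Int.le_of_dvd (by nlinarith) h2
  nlinarith

theorem varG (h5 : 5 ≤ finrank F V) {x : Submodule F V} (hx : finrank F x = 1)
    (D : Finset (Submodule F V)) (hD : ∀ l ∈ D, x ⋖ l) {a i i' : ℕ} (a1 : 1 ≤ a)
    (a2 : a ≤ Fintype.card F)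
    (hδ : D.card * (Fintype.card F + 1) = a * gq (Fintype.card F) (finrank F V - 1))
    (hz : ∀ P : Submodule F V, x ≤ P → finrank F P = 3 →
      {l | l ∈ D ∧ l ≤ P}.ncard = i ∨ {l | l ∈ D ∧ l ≤ P}.ncard = i') : False := by
  classical
  have hT := varG_T hx
  have hM : gq (Fintype.card F) (finrank F V - 1) = Fintype.card F * gq (Fintype.card F) (finrank F V - 2) + 1 := by
    rw [← gq_succ']; congr 1; omega
  have hN : Fintype.card F * Fintype.card F < gq (Fintype.card F) (finrank F V - 2) := by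
    obtain ⟨k, e⟩ : ∃ k, finrank F V - 2 = k + 1 + 1 + 1 := ⟨finrank F V - 5, by omega⟩
    rw [e, gq_succ', gq_succ', gq_succ']
    refine Nat.lt_succ_of_le (Nat.mul_le_mul_left _ (Nat.le_succ_of_le (Nat.le_mul_of_pos_right _ (by omega))))
  have z : ∀ P, ∑ l ∈ D, varG_ind l P = ({l | l ∈ D ∧ l ≤ P}.ncard : ℤ) := fun P => by
    simp only [varG_ind]
    rw [Finset.sum_boole, ← Set.ncard_coe_finset, Finset.coe_filter]
  have s : ∑ P ∈ varG_pl x, ((∑ l ∈ D, varG_ind l P) * (∑ l ∈ D, varG_ind l P) -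
      (i + i') * (∑ l ∈ D, varG_ind l P) + i * i') = 0 := Finset.sum_eq_zero fun P h => by
    rw [z]
    rcases hz P (varG_mem.1 h).1 (varG_mem.1 h).2 with e | e <;> rw [e] <;> ring
  rw [Finset.sum_add_distrib, Finset.sum_sub_distrib, ← Finset.mul_sum, varG_s1 hx hD, varG_s2 hx hD,
    Finset.sum_const, nsmul_eq_mul] at s
  rw [hM] at hδ hT
  exact varG_num (q := Fintype.card F) (a := a) (by exact_mod_cast a1) (by exact_mod_cast a2) (by exact_mod_cast hN)
    (by exact_mod_cast hδ) (by exact_mod_cast hT) s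

end Cfsg.Agent.RK3
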