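import Cfsg.Agent.RK3.DC
import Cfsg.Agent.RK3.Card
import Cfsg.Agent.RK3.VarG

/-! Project RK3 (notes/RK3.md, section Var). -/

set_option autoImplicit false
set_option linter.unusedSectionVars false

namespace Cfsg.Agent.RK3

open MulAction Module Submodule

variable {F : Type*} [Field F] [Fintype F] {V : Type*} [AddCommGroup V] [Module F V] [Finite V]
  {K : Subgroup (Gm F V)}

theorem var_inv (k : Gm F V) (A : Submodule F V) : im k⁻¹ (im k A) = A := by rw [← im_mul, inv_mul_cancel, im_one]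

theorem var_inv' (k : Gm F V) (A : Submodule F V) : im k (im k⁻¹ A) = A := by rw [← im_mul, mul_inv_cancel, im_one]

theorem var_nc (k : Gm F V) {s t : Set (Submodule F V)} (h : ∀ A, A ∈ s ↔ im k A ∈ t) : s.ncard = t.ncard :=
  Set.ncard_congr (fun A _ => im k A) (fun A hA => (h A).1 hA)
    (fun A B _ _ e => by rw [← var_inv k A, e, var_inv])
    fun B hB => ⟨im k⁻¹ B, (h _).2 (by rwa [var_inv']), var_inv' k B⟩

/-- the orbit of a flag -/
def varR (K : Subgroup (Gm F V)) (z : Fl F V 1 2) (x l : Submodule F V) : Prop :=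
  ∃ k ∈ K, im k z.1.1 = x ∧ im k z.1.2 = l

theorem varR.fl {z : Fl F V 1 2} {x l : Submodule F V} (h : varR K z x l) :
    x ≤ l ∧ finrank F x = 1 ∧ finrank F l = 2 := by
  obtain ⟨k, -, rfl, rfl⟩ := h
  exact (k • z).2

theorem varR_im {z : Fl F V 1 2} {k : Gm F V} (hk : k ∈ K) (x l : Submodule F V) :
    varR K z x l ↔ varR K z (im k x) (im k l) := by
  constructor
  · rintro ⟨m, hm, rfl, rfl⟩
    exact ⟨k * m, mul_mem hk hm, im_mul _ _ _, im_mul _ _ _⟩
  · rintro ⟨m, hm, e1, e2⟩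
    exact ⟨k⁻¹ * m, mul_mem (inv_mem hk) hm, by rw [im_mul, e1, var_inv], by rw [im_mul, e2, var_inv]⟩

theorem var (h5 : 5 ≤ finrank F V) (h1 : nO K (Sub F V 1) = 1) (h2 : nO K (Sub F V 2) = 1)
    (h3 : nO K (Fl F V 1 2) = 2) (h4 : nO K (Fl F V 1 3) = 2) : False := by
  classical
  obtain ⟨f, -, hf⟩ := reps h3
  obtain ⟨g, hg, -⟩ := reps h4
  have hd : ∀ x : Submodule F V, finrank F x = 1 →
      {l | varR K (f 0) x l}.ncard = {l | varR K (f 0) (f 0).1.1 l}.ncard := fun x hx => by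
    obtain ⟨k, hk, e⟩ := nO_one h1 ⟨x, hx⟩ (f 0).lo
    exact var_nc k fun A => by
      rw [Set.mem_setOf_eq, Set.mem_setOf_eq, varR_im hk, show im k x = (f 0).1.1 from sub_smul_eq.1 e]
  have ha : ∀ l : Submodule F V, finrank F l = 2 →
      {x | varR K (f 0) x l}.ncard = {x | varR K (f 0) x (f 0).1.2}.ncard := fun l hl => by
    obtain ⟨k, hk, e⟩ := nO_one h2 ⟨l, hl⟩ (f 0).hi
    exact var_nc k fun A => by
      rw [Set.mem_setOf_eq, Set.mem_setOf_eq, varR_im hk, show im k l = (f 0).1.2 from sub_smul_eq.1 e]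
  have dc := Finset.card_mul_eq_card_mul (varR K (f 0))
    (s := Finset.univ.filter fun A : Submodule F V => finrank F A = 1)
    (t := Finset.univ.filter fun A : Submodule F V => finrank F A = 2)
    (m := {l | varR K (f 0) (f 0).1.1 l}.ncard) (n := {x | varR K (f 0) x (f 0).1.2}.ncard)
    (fun x hx => by
      rw [← hd x (Finset.mem_filter.1 hx).2, ← Set.ncard_coe_finset]
      congr 1
      ext l
      simp only [Finset.mem_coe, Finset.mem_bipartiteAbove, Finset.mem_filter, Finset.mem_univ, true_and,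
        Set.mem_setOf_eq]
      exact ⟨fun h => h.2, fun h => ⟨h.fl.2.2, h⟩⟩)
    (fun l hl => by
      rw [← ha l (Finset.mem_filter.1 hl).2, ← Set.ncard_coe_finset]
      congr 1
      ext x
      simp only [Finset.mem_coe, Finset.mem_bipartiteBelow, Finset.mem_filter, Finset.mem_univ, true_and,
        Set.mem_setOf_eq]
      exact ⟨fun h => h.2, fun h => ⟨h.fl.2.1, h⟩⟩)
  have cs : ∀ d, (Finset.univ.filter fun A : Submodule F V => finrank F A = d).card = Nat.card (Sub F V d) :=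
    fun d => (Nat.subtype_card _ (by simp)).symm
  rw [cs, cs, card_sub1] at dc
  have c2 := card_sub2 (F := F) (V := V)
  have gp : 0 < gq (Fintype.card F) (finrank F V) := by
    obtain ⟨m, hm⟩ : ∃ m, finrank F V = m + 1 := ⟨finrank F V - 1, by omega⟩
    rw [hm, gq_succ']; omega
  have hD : ((Finset.univ.filter fun l => varR K (f 0) (f 0).1.1 l : Finset (Submodule F V)) : Set (Submodule F V)) =
      {l | varR K (f 0) (f 0).1.1 l} := by ext l; simp
  let I : Fl F V 1 3 → ℕ := fun y => {l | varR K (f 0) y.1.1 l ∧ l ≤ y.1.2}.ncard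
  refine varG h5 (f 0).2.2.1 (Finset.univ.filter fun l => varR K (f 0) (f 0).1.1 l)
    (fun l hl => ?_) (a := {x | varR K (f 0) x (f 0).1.2}.ncard) (i := I (g 0)) (i' := I (g 1)) ?_ ?_ ?_
    fun P hP rP => ?_
  · have := (Finset.mem_filter.1 hl).2.fl
    exact SNG.covBy_iff.2 ⟨this.1, by rw [this.2.1, this.2.2]⟩
  · exact (Set.ncard_pos (Set.toFinite _)).2 ⟨(f 0).1.1, 1, one_mem _, im_one _, im_one _⟩
  · have u : ∀ x : Submodule F V, x ≤ (f 1).1.2 → finrank F x = 1 → x ∈ ups ⊥ (f 1).1.2 := fun x hx rx =>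
      mem_ups.2 ⟨SNG.covBy_iff.2 ⟨bot_le, by rw [rx, finrank_bot]⟩, hx⟩
    have cu : (ups ⊥ (f 1).1.2).card = Fintype.card F + 1 := by
      rw [cnt_up bot_le, (f 1).2.2.2, finrank_bot]
      simp [gq, Finset.sum_range_succ, add_comm]
    rw [← ha _ (f 1).2.2.2]
    refine (Set.ncard_le_ncard (t := ((ups ⊥ (f 1).1.2).erase (f 1).1.1 : Finset _)) (fun x hx => ?_)).trans ?_
    · refine Finset.mem_coe.2 (Finset.mem_erase.2 ⟨?_, u x hx.fl.1 hx.fl.2.1⟩)
      rintro rfl
      obtain ⟨k, hk, e⟩ := hx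
      exact absurd (hf 0 1 ⟨k, hk, fl_smul_eq.2 e⟩) (by decide)
    · rw [Set.ncard_coe_finset, Finset.card_erase_of_mem (u _ (f 1).2.1 (f 1).2.2.1), cu]
      omega
  · rw [← Set.ncard_coe_finset, hD]
    refine Nat.eq_of_mul_eq_mul_left gp ?_
    rw [← mul_assoc, dc, mul_right_comm, c2]; ring
  · obtain ⟨j, k, hk, e⟩ := hg ⟨((f 0).1.1, P), hP, (f 0).2.2.1, rP⟩
    have e1 : im k (g j).1.1 = (f 0).1.1 := (fl_smul_eq.1 e).1
    have e2 : im k (g j).1.2 = P := (fl_smul_eq.1 e).2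
    have : I (g j) = {l | l ∈ (Finset.univ.filter fun l => varR K (f 0) (f 0).1.1 l) ∧ l ≤ P}.ncard :=
      var_nc k fun A => by
        simp only [Set.mem_setOf_eq, Finset.mem_filter, Finset.mem_univ, true_and]
        rw [varR_im hk, e1, ← im_le_im (g := k) (A := A), e2]
    rw [← this]
    fin_cases j
    · exact .inl rfl
    · exact .inr rfl

end Cfsg.Agent.RK3
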