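import Cfsg.Agent.RK3.Red
import Cfsg.Agent.RK3.Syl
import Cfsg.Agent.RK3.CharU
import Cfsg.Agent.RK3.Arc
import Cfsg.Agent.RK3.Var
import Cfsg.Agent.RK3.TV
import Cfsg.Agent.RK3.DU
import Cfsg.Agent.RK3.SympB
import Cfsg.Agent.RK3.SprB
import Cfsg.Agent.RK3.AFc
import Cfsg.Agent.RK3.PsiD
import Cfsg.Agent.RK3.LineB
import Cfsg.Agent.RK3.Num
import Cfsg.Agent.RK3.PP
import Cfsg.Agent.RK3.Four

/-! Project RK3 (notes/RK3.md, section Main). -/

set_option autoImplicit false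
set_option linter.unusedSectionVars false

namespace Cfsg.Agent.RK3

open MulAction Module Submodule

variable {F : Type*} [Field F] [Fintype F] {V : Type*} [AddCommGroup V] [Module F V] [Finite V]
  {X : Type*} [MulAction (Gm F V) X] [Finite X] {x₀ : X} {K : Subgroup (Gm F V)}

theorem main_l0 (h : R3 x₀ K) (h1 : nO K (Sub F V 1) = 1) (h2 : nO K (Fl F V 1 2) ≤ 2)
    (hT : ∀ k ∈ K, ¬ Tvn k) (h0 : ∀ a b : V, a ≠ 0 → b ∉ span F {a} → ∀ β, β ∈ Etr K a b) :
    False := by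
  rcases afc h.n5 h.cen h1 h2 hT h0 with ⟨W, hW⟩ | ⟨W, e, hW⟩
  · exact symp h hW
  · exact spr h hT hW

theorem main_l3 (h : R3 x₀ K) (p : ℕ) [Fact p.Prime] [CharP F p] (hp : p ∣ Nat.card X)
    (h1 : nO K (Sub F V 1) = 1) (h3 : nO K (Fl F V 1 2) = 1) (hT : ∀ k ∈ K, ¬ Tvn k)
    {a b : V} {j : ℕ} (ha : a ≠ 0) (hb : b ∉ span F {a})
    (hj : j * (Eset K a b).ncard = Fintype.card F * (Fintype.card F - 1))
    (hd : (j - 1) ∣ (Fintype.card F + 1) * (Eset K a b).ncard) : False := by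
  have pp : p.Prime := Fact.out
  obtain ⟨i, m, e1, e2, d1, d2⟩ := lineB (K := K) p ha hb
  obtain ⟨f, -, hf⟩ := FiniteField.card F p
  have hq : 2 ≤ Fintype.card F := Fintype.one_lt_card
  have hle : p ^ i ≤ p ^ (f : ℕ) := by
    rw [← e1, ← hf, ← Nat.card_eq_fintype_card, ← Set.ncard_univ]
    exact Set.ncard_le_ncard (Set.subset_univ _)
  have hif : i ≤ f := (Nat.pow_le_pow_iff_right pp.one_lt).1 hle
  rcases hif.eq_or_lt with hi | hi
  · refine main_l0 h h1 (by omega) hT fun a' b' ha' hb' β => ?_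
    have e3 := (eset_tr h3 ha hb ha' hb').2
    rw [e1, hi, ← hf, ← Nat.card_eq_fintype_card, ← Set.ncard_univ] at e3
    rw [Set.eq_of_subset_of_ncard_le (Set.subset_univ (Etr K a' b')) e3.le]
    trivial
  rcases Nat.eq_zero_or_pos i with h0 | h0
  · subst h0
    rw [pow_zero] at e1 e2
    rw [one_mul] at e2
    have hs : ∀ a' b' : V, a' ≠ 0 → b' ∉ span F {a'} → ∀ β ∈ Etr K a' b', β = 0 := by
      intro a' b' ha' hb' β hβ
      have e3 := (eset_tr h3 ha hb ha' hb').2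
      rw [e1] at e3
      obtain ⟨z, hz⟩ := Set.ncard_eq_one.1 e3.symm
      have h0 := zero_mem_Etr (K := K) a' b'
      rw [hz, Set.mem_singleton_iff] at hβ h0
      rw [hβ, h0]
    have m0 : m ≠ 0 := by
      rintro rfl
      have := Nat.eq_zero_of_zero_dvd d2
      omega
    by_cases m1 : m = 1
    · rw [e2, m1, mul_one] at hj hd
      have q2 := num4 hq hj hd
      have p2 : p = 2 := by
        have : p ∣ 2 := by
          rw [← q2, hf]; exact dvd_pow_self p f.ne_zero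
        exact (Nat.prime_dvd_prime_iff_eq pp Nat.prime_two).1 this
      have := pp1 (K := K) p hs
      subst p2
      exact odd3 h this hp
    · refine pp2 (K := K) (by have := h.n5; omega) hs fun a' b' ha' hb' => ?_
      rw [← (eset_tr h3 ha hb ha' hb').1, e2]
      omega
  · rw [e2, hf] at hj hd
    rw [hf] at d2
    obtain ⟨q4, s2, m1⟩ := num3 pp h0 hi d1 d2 hj hd
    refine four (K := K) (hf.trans q4) h.n5 h3 fun a' b' ha' hb' => ?_
    obtain ⟨e3, e4⟩ := eset_tr h3 ha hb ha' hb'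
    rw [← e3, ← e4, e1, e2, s2, m1]
    exact ⟨rfl, rfl⟩

theorem main (h : R3 x₀ K) : Nat.card X * (Fintype.card F + 1) =
    gq (Fintype.card F) (finrank F V) * gq (Fintype.card F) (finrank F V - 1) := by
  by_cases hI : Irr K
  swap
  · exact red h hI
  exfalso
  obtain ⟨p, hchar⟩ := CharP.exists F
  haveI : Fact p.Prime := ⟨CharP.char_is_prime F p⟩
  have n5 := h.n5
  have hq : 2 ≤ Fintype.card F := Fintype.one_lt_card
  have hp : p ∣ Nat.card X := by
    by_contra hp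
    exact syl h p hp hI
  rcases charU h p hp with ⟨h1, h2⟩ | ⟨h1, h2, h3, h4⟩ | ⟨h1, c, hc, h2, h3⟩
  · exact arc (by omega) h1 h2 hI
  · exact var n5 h1 h2 h3 h4
  by_cases hT : ∃ k ∈ K, Tvn k
  · rcases tv_case (by omega) h1 ((du (by omega) K).trans h1) hT with e | ⟨W, hW⟩
    · exact h.max.1 e
    · exact symp h hW
  push Not at hT
  have hs := semi h hT
  rcases psiD h h1 hc h2 h3 with h0 | ⟨J, j1, j2, e⟩ | ⟨j, j1, j2, e⟩ | ⟨rfl, a, b, j, ha, hb, -, e, d⟩
  · exact main_l0 h h1 (by omega) hT h0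
  · rw [card_sub1] at e
    exact num1 hq n5 hs card_sub2 j1 j2 e
  · exact num2 hq n5 hs card_sub2 j1 j2 e
  · exact main_l3 h p hp h1 h3 hT ha hb e d

end Cfsg.Agent.RK3
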