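import Cfsg.Agent.RK3.Inn
import Cfsg.Agent.RK3.DC
import Cfsg.Agent.RK3.Ext
import Cfsg.Agent.RK3.GramC
import Cfsg.Agent.RK3.Card

/-! Project RK3 (notes/RK3.md, section Red). -/

set_option autoImplicit false
set_option linter.unusedSectionVars false

namespace Cfsg.Agent.RK3

open MulAction Module Submodule

variable {F : Type*} [Field F] [Fintype F] {V : Type*} [AddCommGroup V] [Module F V] [Finite V]
  {X : Type*} [MulAction (Gm F V) X] [Finite X] {x₀ : X} {K : Subgroup (Gm F V)}

theorem red_card (n d : ℕ) : ((Finset.range (0 + 1) ×ˢ Finset.range (0 + 1) ×ˢ Finset.range (0 + 1) ×ˢ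
    Finset.range (d + 1)).filter (TabOK n 0 d 0 d)).card = d + 1 - (2 * d - n) := by
  rw [← Nat.card_Icc, ← Finset.card_image_of_injective (Finset.Icc (2 * d - n) d)
    (f := fun l : ℕ => ((0 : ℕ), (0 : ℕ), (0 : ℕ), l)) fun a b e => by simpa using e]
  congr 1
  ext ⟨i, j, k, l⟩
  simp only [Finset.mem_filter, Finset.mem_product, Finset.mem_range, TabOK, Finset.mem_image, Finset.mem_Icc,
    Prod.mk.injEq]
  constructor
  · rintro ⟨⟨h1, h2, h3, h4⟩, h5⟩
    exact ⟨l, by omega, by omega⟩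
  · rintro ⟨a, h1, rfl, rfl, rfl, rfl⟩
    omega

theorem red_nO {d : ℕ} (u : Sub F V d) :
    nO (stabilizer (Gm F V) u) (Sub F V d) = d + 1 - (2 * d - finrank F V) := by
  have := sub_trans (F := F) (V := V) d
  rw [← nO_prod, ← red_card, ← nO_fl]
  have e := ip_pc_pc (G := Gm F V) (Sub F V d) (Sub F V d)
  rw [pc_sub, ip_pc_pc] at e
  exact_mod_cast e.symm

theorem red (h : R3 x₀ K) (hI : ¬ Irr K) : Nat.card X * (Fintype.card F + 1) =
    gq (Fintype.card F) (finrank F V) * gq (Fintype.card F) (finrank F V - 1) := by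
  simp only [Irr, not_forall, not_or] at hI
  obtain ⟨U, hU, h0, h1⟩ := hI
  have d0 : finrank F U ≠ 0 := fun e => h0 (Submodule.finrank_eq_zero.1 e)
  have d1 : finrank F U < finrank F V := Submodule.finrank_lt h1
  generalize hd : finrank F U = d at d0 d1
  let u : Sub F V d := ⟨U, hd⟩
  have tr := sub_trans (F := F) (V := V) d
  have trX := h.tr
  have le : K ≤ stabilizer (Gm F V) u := fun k hk =>
    sub_smul_eq.2 (im_eq_of_le (hU k hk) le_rfl)
  have k1 := red_nO u
  have ne : stabilizer (Gm F V) u ≠ ⊤ := fun e => by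
    have : Nonempty (Sub F V d) := ⟨u⟩
    rw [e, nO_eq_one fun y y' => (tr.exists_smul_eq y y').imp fun g hg => ⟨Subgroup.mem_top g, hg⟩] at k1
    omega
  have e : K = stabilizer (Gm F V) u := by
    by_contra e
    exact ne (h.max.2 _ (lt_of_le_of_ne le e))
  have k2 : nO (stabilizer (Gm F V) u) (Sub F V d) = 3 := by
    rw [← e, h.st, ← nO_stab_swap x₀ u, ← e, h.rk]
  have k3 : Nat.card X = Nat.card (Sub F V d) := by
    rw [← index_stabilizer_of_transitive (Gm F V) x₀, ← h.st, e, index_stabilizer_of_transitive]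
  rw [k3, ← card_sub2]
  have n5 := h.n5
  obtain rfl | rfl : d = 2 ∨ d = finrank F V - 2 := by omega
  · rfl
  · rw [card_dual (by omega)]

end Cfsg.Agent.RK3
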